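import Cfsg.Agent.H9.LE3
import Cfsg.Agent.H1.Invol

/-!
H9.EC: abelian 2-subgroups `H` that are Sylow in each `⟨H, H^g⟩`, the latter having a normal 2-complement.
-/

set_option autoImplicit false

namespace H9

open Cfsg Subgroup
open scoped commutatorElement

universe u

variable {G : Type u} [Group G] [Finite G] {H O X N : Subgroup G} {a a' b u v w x y g k : G}

theorem NPC.of_im_central {p : ℕ} [Fact p.Prime] {Γ : Type*} [Group Γ] [Finite Γ] (f : X →* Γ)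
    (h : NPC p (H9.im f N)) (hN : N ≤ X) (hk : kr f ⊓ N ≤ centralizer (N : Set G)) : NPC p N := by
  obtain ⟨P, hP⟩ := exists_syl p N
  obtain ⟨Y, hY⟩ : ∃ Y, Y = pre f (Op' p (H9.im f N)) ⊓ N := ⟨_, rfl⟩
  have l : Y ≤ N := hY ▸ inf_le_right
  have n : N ≤ normalizer (Y : Set G) :=
    hY ▸ normalizer_inf (le_normalizer_pre f hN (le_normalizer_Op' p _)) le_normalizer
  have q := hP.inf_normal l n
  have i : H9.im f Y = Op' p (H9.im f N) := hY ▸ im_pre_inf f (Op'_le p _)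
  have k : P ⊓ Y ≤ kr f := (im_eq_bot_iff f (q.le.trans (l.trans hN))).1 (eq_bot_of_p_p' (isPGroup_im f q.isP)
    (cop_of_le (Op'_cop p _) ((im_mono f q.le).trans i.le)))
  have y : NPC p Y := npc_of_central_syl q (inf_le_left.trans (le_centralizer_iff.1
    (((le_inf k (q.le.trans l)).trans hk).trans (centralizer_anti l))))
  have s : Y ⊔ P ≤ N := sup_le l hP.le
  have e : N ≤ Y ⊔ P ⊔ kr f := (im_le_im_iff f hN (s.trans hN)).1 (by
    rw [im_sup f (l.trans hN) (hP.le.trans hN), i, h.eq_sup (hP.im f hN)])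
  have e' : N ≤ Y ⊔ P := (le_inf e le_rfl).trans (by
    rw [dedekind s (.inl ((s.trans hN).trans (le_normalizer_kr f)))]
    exact sup_le le_rfl (le_sup_of_le_left (hY ▸ inf_le_inf_right _ (kr_le_pre f _))))
  exact npc_of_le_sup (Op'_cop p Y) hP.isP (hP.le.trans (normalizer_Op' n))
    (e'.trans (sup_le ((y.eq_sup q).ge.trans (sup_le_sup_left inf_le_left _)) le_sup_right))

theorem NPC.odd_iff (h : NPC 2 X) (hx : x ∈ X) : Odd (orderOf x) ↔ x ∈ Op' 2 X :=
  ⟨fun o => h.le_Op' (zpowers_le.2 hx) (by rw [Nat.card_zpowers]; exact Nat.coprime_two_right.2 o) (mem_zpowers x),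
    fun o => Nat.coprime_two_right.1 ((Op'_cop 2 X).coprime_dvd_left (orderOf_dvd_card_of_mem o))⟩

structure EC (H : Subgroup G) : Prop where
  c : IsMulCommutative H
  o : ∀ g, NPC 2 (H ⊔ cj g H) ∧ Syl 2 H (H ⊔ cj g H)

namespace EC

abbrev Od (u v : G) : Prop := Odd (orderOf (u * v))

def In (H : Subgroup G) (u : G) : Prop := orderOf u = 2 ∧ ∃ g, u ∈ cj g H

theorem im (h : EC H) {Γ : Type*} [Group Γ] [Finite Γ] {f : X →* Γ} (hf : Function.Surjective f) (l : H ≤ X) :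
    EC (H9.im f H) := ⟨isMulCommutative_im f h.c, fun γ => by
  obtain ⟨g, rfl⟩ := hf γ
  have l' : cj (g : G) H ≤ X := cj_le_of_mem g.2 l
  rw [← im_cj, ← im_sup f l l']
  exact ⟨(h.o g).1.im f (sup_le l l'), (h.o g).2.im f (sup_le l l')⟩⟩

theorem two (h : EC H) (k g : G) : NPC 2 (cj k H ⊔ cj g H) ∧ Syl 2 (cj k H) (cj k H ⊔ cj g H) := by
  have : cj k H ⊔ cj g H = cj k (H ⊔ cj (k⁻¹ * g) H) := by rw [cj_sup, ← cj_mul, mul_inv_cancel_left]
  rw [this]
  exact ⟨(h.o _).1.cj k, (h.o _).2.cj k⟩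

theorem conj (h : EC H) (k : G) : EC (cj k H) := ⟨comm_map _ h.c, fun g => by rw [← cj_mul]; exact h.two k _⟩

theorem cm (h : EC H) (h1 : a ∈ cj k H) (h2 : b ∈ cj k H) : Commute a b :=
  comm_of_mem_centralizer (le_centralizer_of_le_comm (h.conj k).c le_rfl le_rfl h2) h1

omit [Finite G] in
theorem Od.symm (h : Od u v) : Od v u := by
  have : v * u = v * (u * v) * v⁻¹ := by group
  rwa [Od, this, ← MulAut.conj_apply, MulEquiv.orderOf_eq]

omit [Finite G] in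
theorem Od.conj (h : Od u v) (g : G) : Od (g * u * g⁻¹) (g * v * g⁻¹) := by
  have : g * u * g⁻¹ * (g * v * g⁻¹) = g * (u * v) * g⁻¹ := by group
  rwa [Od, this, ← MulAut.conj_apply, MulEquiv.orderOf_eq]

omit [Finite G] in
theorem two_mul (h1 : orderOf a = 2) (h2 : orderOf b = 2) (c : Commute a b) (n : a ≠ b) : orderOf (a * b) = 2 :=
  H1.two_of (by rw [c.symm.mul_mul_mul_comm, H1.two_sq h1, H1.two_sq h2, one_mul])
    fun e => n ((eq_inv_of_mul_eq_one_left e).trans (H1.two_inv h2))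

omit [Finite G] in
theorem Od.eq (h : Od a b) (h1 : orderOf a = 2) (h2 : orderOf b = 2) (c : Commute a b) : a = b :=
  by_contra fun n => by rw [Od, two_mul h1 h2 c n] at h; exact absurd h (by decide)

theorem In.conj (h : In H u) (g : G) : In H (g * u * g⁻¹) := by
  obtain ⟨h1, k, h2⟩ := h
  exact ⟨(orderOf_conj g u).trans h1, g * k, by rw [cj_mul]; exact conj_mem_cj h2⟩

theorem In.of_od (h : In H u) (h1 : orderOf w = 2) (o : Od u w) : In H w := by
  obtain ⟨t, -, rfl⟩ := H1.pair_odd (H1.two_sq h.1) (H1.two_sq h1) o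
  exact h.conj t

theorem partner (h : EC H) (hu : In H u) (k : G) : ∃ a ∈ cj k H, orderOf a = 2 ∧ Od u a := by
  obtain ⟨h1, g, h2⟩ := hu
  obtain ⟨n, s⟩ := h.two k g
  have m := s.le.trans (le_normalizer_Op' 2 _)
  have u1 : u ∈ cj k H ⊔ cj g H := mem_sup_right h2
  obtain ⟨o, ho, a, ha, rfl⟩ := (mem_sup_of_le_normalizer' m).1 ((n.eq_sup s).ge u1)
  have a2 : a * a = 1 := by
    rw [← mem_bot, ← inf_eq_bot_of_p_p' s.isP (Op'_cop 2 (cj k H ⊔ cj g H))]
    refine mem_inf.2 ⟨mul_mem ha ha, ?_⟩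
    have : a * a = (o * (a * o * a⁻¹))⁻¹ * (o * a * (o * a)) := by group
    rw [this, H1.two_sq h1, mul_one]
    exact inv_mem (mul_mem ho (conj_mem_of_le_normalizer m ha ho))
  refine ⟨a, ha, H1.two_of a2 ?_, ?_⟩
  · rintro rfl
    have := (n.odd_iff u1).2 (by rwa [mul_one])
    rw [h1] at this; exact absurd this (by decide)
  · rw [Od, mul_assoc, a2, mul_one]; exact (n.odd_iff (Op'_le _ _ ho)).2 ho

theorem uniq (h : EC H) (hu : In H u) (h1 : a ∈ cj k H) (h2 : a' ∈ cj k H) (o : Od u a) (o' : Od u a') : a = a' := by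
  obtain ⟨-, g, hu⟩ := hu
  obtain ⟨n, s⟩ := h.two k g
  rw [← inv_mul_eq_one, ← mem_bot, ← inf_eq_bot_of_p_p' s.isP (Op'_cop 2 (cj k H ⊔ cj g H))]
  refine mem_inf.2 ⟨mul_mem (inv_mem h1) h2, ?_⟩
  have : a⁻¹ * a' = (u * a)⁻¹ * (u * a') := by group
  rw [this]
  exact mul_mem (inv_mem ((n.odd_iff (mul_mem (mem_sup_right hu) (s.le h1))).1 o))
    ((n.odd_iff (mul_mem (mem_sup_right hu) (s.le h2))).1 o')

theorem ww (h : EC H) (hv : In H v) (h1 : a ∈ cj k H) (h2 : b ∈ cj k H) (a2 : orderOf a = 2) (b2 : orderOf b = 2)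
    (ne : a ≠ b) (o : Od v a) (hw : w ∈ zpowers (v * b)) (w2 : orderOf w = 2) : Od w (a * b) ∧ Od (w * b) v := by
  obtain ⟨v2, g, hv⟩ := hv
  obtain ⟨n, s⟩ := h.two k g
  have m := s.le.trans (le_normalizer_Op' 2 _)
  have o1 := (n.odd_iff (mul_mem (mem_sup_right hv) (s.le h1))).1 o
  have t := two_mul a2 b2 (h.cm h1 h2) ne
  have e : ∀ i : ℕ, (v * b) ^ i * ((a * b) ^ i)⁻¹ ∈ Op' 2 (cj k H ⊔ cj g H) := fun i => by
    induction i with
    | zero => simp
    | succ i ih =>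
      have : (v * b) ^ (i + 1) * ((a * b) ^ (i + 1))⁻¹ =
        (v * b) ^ i * ((a * b) ^ i)⁻¹ * ((a * b) ^ i * (v * a⁻¹) * ((a * b) ^ i)⁻¹) := by rw [pow_succ, pow_succ]; group
      rw [this, H1.two_inv a2]
      exact mul_mem ih (conj_mem_of_le_normalizer m (pow_mem (mul_mem h1 h2) i) o1)
  obtain ⟨i, rfl⟩ := mem_powers_iff_mem_zpowers.2 hw
  have e := e i
  simp only at w2 ⊢
  rcases (H1.mem_zpowers_two t).1 (pow_mem (mem_zpowers (a * b)) i) with r | r <;> rw [r] at e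
  · have := (n.odd_iff (Op'_le _ _ e)).2 e
    rw [inv_one, mul_one, w2] at this; exact absurd this (by decide)
  · have f : (v * b) ^ i * b * v ∈ Op' 2 (cj k H ⊔ cj g H) := by
      have : (v * b) ^ i * b * v = (v * b) ^ i * (a * b)⁻¹ * (a * (b * b) * a⁻¹) * (v⁻¹ * a⁻¹)⁻¹ := by group
      rw [this, H1.two_sq b2, mul_one, mul_inv_cancel, mul_one, H1.two_inv v2, H1.two_inv a2]
      exact mul_mem e (inv_mem o1)
    rw [H1.two_inv t] at e
    exact ⟨(n.odd_iff (Op'_le _ _ e)).2 e, (n.odd_iff (Op'_le _ _ f)).2 f⟩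

theorem kl (h : EC H) (hu : In H u) (hb : b ∈ cj k H) (c : Commute u b) :
    ∃ t ∈ centralizer ({b} : Set G), u ∈ cj t (cj k H) := by
  obtain ⟨a, h1, a2, o⟩ := h.partner hu k
  obtain ⟨t, ht, e⟩ := H1.pair_odd (H1.two_sq a2) (H1.two_sq hu.1) o.symm
  exact ⟨t, zpowers_le.2 (mem_centralizer_singleton_iff.2 ((h.cm h1 hb).mul_left c)) ht, e ▸ conj_mem_cj h1⟩

theorem kl' (h : EC H) (hu : In H u) (hb : In H b) (c : Commute u b) : ∃ k, u ∈ cj k H ∧ b ∈ cj k H := by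
  obtain ⟨-, k, hb⟩ := hb
  obtain ⟨t, ht, e⟩ := h.kl hu hb c
  refine ⟨t * k, by rwa [cj_mul], ?_⟩
  have := conj_mem_cj (g := t) hb
  rwa [mem_centralizer_singleton_iff.1 ht, mul_inv_cancel_right, ← cj_mul] at this

section
variable (h : EC H) (L : ∀ k, ∀ b ∈ cj k H, orderOf b = 2 → cj k H ≤ Opp 2 (centralizer {b}))
include h L

theorem tr0 (hb : In H b) (hu : In H u) (hv : In H v) (hw : In H w) (c1 : Commute u b) (c2 : Commute v b)
    (c3 : Commute w b) (o : Od u v) (o' : Od v w) : Od u w := by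
  obtain ⟨b2, k, hb⟩ := hb
  have m : ∀ u, In H u → Commute u b → u ∈ Opp 2 (centralizer ({b} : Set G)) := fun u hu c => by
    obtain ⟨t, ht, e⟩ := h.kl hu hb c
    exact cj_le_of_nm (le_normalizer_Opp 2 _ ht) (L k b hb b2) e
  have n := Opp_npc (p := 2) (centralizer ({b} : Set G))
  refine (n.odd_iff (mul_mem (m u hu c1) (m w hw c3))).2 ?_
  have : u * w = u * v * (v * w) := by rw [mul_assoc, ← mul_assoc v, H1.two_sq hv.1, one_mul]
  rw [this]
  exact mul_mem ((n.odd_iff (mul_mem (m u hu c1) (m v hv c2))).1 o) ((n.odd_iff (mul_mem (m v hv c2) (m w hw c3))).1 o')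

theorem tr1 (hb : In H b) (ha : In H a) (ha' : In H a') (hv : In H v) (c1 : Commute a b) (c2 : Commute a' b)
    (o : Od v a) (o' : Od a a') : Od v a' := by
  by_cases e : a = b
  · exact o'.eq ha.1 ha'.1 (e ▸ c2.symm) ▸ o
  obtain ⟨k, a1, b1⟩ := h.kl' ha hb c1
  obtain ⟨j, a2, b2⟩ := h.kl' ha' hb c2
  have n : ¬ Od v b := fun r => e (h.uniq hv a1 b1 o r)
  obtain ⟨w, w1, w2, -, w3⟩ := H1.pair_even (H1.two_sq hv.1) (H1.two_sq hb.1) n
  obtain ⟨c, c3, c4, c5⟩ := h.partner hv j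
  have e' : c ≠ b := fun r => n (r ▸ c5)
  have r1 := (h.ww hv a1 b1 ha.1 hb.1 e o w1 w2).1
  have r2 := (h.ww hv c3 b2 c4 hb.1 e' c5 w1 w2).1
  have i1 : In H (a * b) := ⟨two_mul ha.1 hb.1 c1 e, k, mul_mem a1 b1⟩
  have c6 := h.cm c3 b2
  have r3 := h.tr0 L hb i1 (i1.of_od w2 r1.symm) ⟨two_mul c4 hb.1 c6 e', j, mul_mem c3 b2⟩
    (c1.mul_left (Commute.refl b)) w3 (c6.mul_left (Commute.refl b)) r1.symm r2
  rw [Od, c6.eq, mul_assoc, ← mul_assoc b, H1.two_sq hb.1, one_mul] at r3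
  exact h.uniq ha c3 a2 r3 o' ▸ c5

theorem tr (hx : In H x) (hy : In H y) (hv : In H v) (o : Od v x) (o' : Od x y) : Od v y := by
  obtain ⟨k, x1⟩ := hx.2
  by_cases e : ∃ b ∈ cj k H, orderOf b = 2 ∧ x ≠ b
  · obtain ⟨b, b1, b2, e⟩ := e
    have hb : In H b := ⟨b2, k, b1⟩
    have c := h.cm x1 b1
    obtain ⟨w, w1, w2, w4, w3⟩ := H1.pair_even (H1.two_sq hy.1) (H1.two_sq b2) fun r => e (h.uniq hy x1 b1 o'.symm r)
    obtain ⟨r1, r2⟩ := h.ww hy x1 b1 hx.1 b2 e o'.symm w1 w2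
    have hw := In.of_od ⟨two_mul hx.1 b2 c e, k, mul_mem x1 b1⟩ w2 r1.symm
    have i := hy.of_od (two_mul w2 b2 w3 (by
      rintro rfl
      rw [Od, c.eq, ← mul_assoc, H1.two_sq w2, one_mul, hx.1] at r1
      exact absurd r1 (by decide))) r2.symm
    refine h.tr1 L hw i hy hv ((Commute.refl w).mul_left w3.symm) w4.symm
      (h.tr1 L hb hx i hv c (w3.mul_left (Commute.refl b)) o (Od.symm ?_)) r2
    rwa [Od, mul_assoc, ← c.eq]
  · push Not at e
    obtain ⟨j, y1⟩ := hy.2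
    obtain ⟨c, c1, c2, c3⟩ := h.partner hv j
    have q : ∀ y ∈ cj j H, orderOf y = 2 → x = k * j⁻¹ * y * (k * j⁻¹)⁻¹ := fun y a b =>
      e _ (by have := conj_mem_cj (g := k * j⁻¹) a; rwa [← cj_mul, inv_mul_cancel_right] at this)
        ((orderOf_conj _ _).trans b)
    have := (q y y1 hy.1).symm.trans (q c c1 c2)
    rw [mul_left_inj, mul_right_inj] at this
    exact this ▸ c3

end

theorem main (G : Type u) [Group G] [Finite G] : ∀ H : Subgroup G, EC H → H ≤ Opp 2 ⊤ := by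
  refine card_induction (P := fun Δ _ _ => ∀ H : Subgroup Δ, EC H → H ≤ Opp 2 ⊤) (fun G _ _ ih H h => ?_) G
  have q : ∀ X N H : Subgroup G, EC H → H ≤ X → N ≤ X → X ≤ normalizer (N : Set G) → X ≠ ⊤ ∨ N ≠ ⊥ →
      (Nat.card N).Coprime 2 ∨ N ≤ centralizer (X : Set G) → H ≤ Opp 2 X := fun X N H h l n1 n2 n3 n4 => by
    obtain ⟨Γ, _, _, f, f1, f2, f3⟩ := exists_quot n1 n2
    have r := (im_le_iff f l).1 (ih X Γ f f1 (n3.elim (fun e => (Nat.le_of_dvd Nat.card_pos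
      (Dvd.intro _ f3)).trans_lt (card_sub_lt e)) (card_lt_of_mul_eq f3)) _ (h.im f1 l))
    have s : NPC 2 (H9.im f (pre f (Opp 2 ⊤))) := by rw [im_pre_surj f f1]; exact Opp_npc (p := 2) _
    refine r.trans (le_Opp (pre_le f _) (le_normalizer_pre f le_rfl (le_top.trans (le_normalizer_Opp 2 _))) ?_)
    exact n4.elim (fun c => s.of_im f (pre_le f _) (cop_of_le c (inf_le_left.trans f2.le))) fun c =>
      s.of_im_central f (pre_le f _) (inf_le_left.trans (f2.le.trans (c.trans (centralizer_anti (pre_le f _)))))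
  have q' : ∀ X H : Subgroup G, EC H → H ≤ X → X ≠ ⊤ → H ≤ Opp 2 X := fun X H h l n =>
    q X ⊥ H h l bot_le le_normalizer_of_normal (.inl n) (.inr bot_le)
  by_cases hO : Op' 2 (⊤ : Subgroup G) = ⊥
  swap
  · exact q ⊤ _ H h le_top le_top (le_normalizer_Op' 2 ⊤) (.inr hO) (.inl (Op'_cop 2 ⊤))
  by_cases hz : ∃ b : G, orderOf b = 2 ∧ centralizer ({b} : Set G) = ⊤
  · obtain ⟨b, b1, b2⟩ := hz
    have c := zpowers_le_centralizer_iff.2 b2.ge
    exact q ⊤ _ H h le_top le_top ((le_centralizer_iff.1 c).trans (centralizer_le_normalizer' _))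
      (.inr (zpowers_ne_bot.2 (H1.two_ne b1))) (.inr c)
  have L : ∀ k, ∀ b ∈ cj k H, orderOf b = 2 → cj k H ≤ Opp 2 (centralizer {b}) := fun k b b1 b2 =>
    q' _ _ (h.conj k) (fun a a1 => mem_centralizer_singleton_iff.2 (h.cm a1 b1)) fun e => hz ⟨b, b2, e⟩
  let K : Subgroup G :=
    { carrier := {g | ∀ u, In H u → Od (g * u * g⁻¹) u}
      one_mem' := fun u hu => by rw [Od, one_mul, inv_one, mul_one, H1.two_sq hu.1, orderOf_one]; exact odd_one
      mul_mem' := fun {a b} ha hb u hu => h.tr L (hu.conj a) hu (hu.conj _)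
        (by have := (hb u hu).conj a; simpa only [mul_inv_rev, mul_assoc] using this) (ha u hu)
      inv_mem' := fun {a} ha u hu => by
        have := (ha _ (hu.conj a⁻¹)).symm
        simpa [mul_assoc] using this }
  have n : K.Normal := ⟨fun a ha g u hu => by
    have := (ha _ (hu.conj g⁻¹)).conj g
    simpa [mul_assoc] using this⟩
  by_cases hK : K = ⊤
  · by_cases h0 : H = ⊥
    · exact h0 ▸ bot_le
    obtain ⟨x, x1, x2⟩ := exists_orderOf_eq_of_isPGroup (h.o 1).2.isP h0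
    have := inZ_iff.1 (zstar_elt G x (fun g c => (hK.ge (mem_top g) x ⟨x2, 1, by rwa [cj_one]⟩).eq
      ((orderOf_conj g x).trans x2) x2 c.symm) (isPGroup_zpowers_of_orderOf x2))
    rw [hO, le_bot_iff, commutator_eq_bot_iff_le_centralizer, centralizer_zpowers, top_le_iff] at this
    exact absurd ⟨x, x2, this⟩ hz
  refine (q' K H h (fun a ha u hu => ?_) hK).trans (SN.of_normal_top K).Opp_le_Opp
  obtain ⟨x, x1, x2, x3⟩ := h.partner hu 1
  have := x3.conj a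
  rw [(h.cm ((cj_one H).ge ha) x1).eq, mul_inv_cancel_right] at this
  exact h.tr L ⟨x2, 1, x1⟩ hu (hu.conj a) this x3.symm

end EC

end H9
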