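import Cfsg.Agent.H9.Am2
import Cfsg.Agent.H1.FF4
import Cfsg.Prelude.Def_JComponents

/-!
H9.JC1: local analysis of `J(T)`-components.
-/

set_option autoImplicit false

namespace H9.JC

open Cfsg Subgroup
open scoped commutatorElement

variable {G : Type*} [Group G] [Finite G] {K U V D A B J X Y P Q R S T : Subgroup G}

theorem card_im {Γ : Type*} [Group Γ] (f : X →* Γ) (h : K ≤ X) : Nat.card (im f K) = (kr f).relIndex K :=
  Nat.eq_of_mul_eq_mul_right Nat.card_pos ((card_eq_card_im_mul f h).symm.trans (relIndex_mul_card_inf _ _).symm)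

theorem ri_ne : K.relIndex X ≠ 0 := index_ne_zero_of_finite

theorem odd_eq : closure {g : G | g ∈ K ∧ Odd (orderOf g)} = Ores 2 K :=
  le_antisymm ((closure_le _).2 fun g h => le_Ores (zpowers_le_of_mem h.1)
    (Nat.card_zpowers g ▸ Nat.coprime_two_right.2 h.2) (mem_zpowers g)) (Ores_le_iff.2 fun _ h1 h2 g hg =>
      subset_closure ⟨h1 hg, Nat.coprime_two_right.1 (h2.coprime_dvd_left (orderOf_dvd_card_of_mem hg))⟩)

theorem syl_iff : IsSylowTwoIn T X ↔ Syl 2 T X :=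
  ⟨fun h => ⟨h.1, h.2.1, h.2.2.not_two_dvd_nat⟩, fun h => ⟨h.1, h.2, Nat.odd_iff.2 (Nat.two_dvd_ne_zero.1 h.3)⟩⟩

/-- `J` is the Thompson subgroup of a Sylow 2-subgroup of `X`. -/
def Fu (J X : Subgroup G) : Prop := ∃ S, Syl 2 S X ∧ JE 2 S = J

theorem Fu.le (h : Fu J X) : J ≤ X := let ⟨S, h1, h2⟩ := h; h2 ▸ (JE_le 2 S).trans h1.le
theorem Fu.p (h : Fu J X) : IsPGroup 2 J := let ⟨S, h1, h2⟩ := h; h2 ▸ h1.isP.to_le (JE_le 2 S)
theorem Fu.me (h : Fu J X) (hA : A ∈ ME 2 J) : A ∈ ME 2 X :=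
  let ⟨S, h1, h2⟩ := h; h1.ME_le (ME_eq_of_le h2.le (h2 ▸ JE_le 2 S) ▸ hA)
theorem Fu.je (h : Fu J X) : JE 2 J = J := let ⟨S, _, h2⟩ := h; h2 ▸ JE_JE 2 S
theorem Fu.cj (h : Fu J X) (g : G) : Fu (cj g J) (cj g X) := let ⟨S, h1, h2⟩ := h; ⟨_, h1.cj g, h2 ▸ (cj_JE g S).symm⟩

theorem Fu.eq' (h : Fu J X) (hS : Syl 2 S X) {g : G} (h1 : H9.cj g J ≤ S) : JE 2 S = H9.cj g J := by
  obtain ⟨A, hA⟩ := exists_ME 2 J
  obtain ⟨T, t1, t2⟩ := id h
  obtain ⟨x, -, rfl⟩ := t1.conj hS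
  refine (eq_of_le_of_card_ge ((h.cj g).je.ge.trans (JE_le_iff.2 fun B hB => le_JE ?_))
    (by rw [← cj_JE, card_cj, card_cj, t2])).symm
  refine MaxF.mono (MaxF.of_card (h.me hA) (hB.1.trans (h1.trans hS.le)) hB.2.1 ?_) (hB.1.trans h1) hS.le
  exact card_cj g A ▸ hB.2.2 _ (cj_mono g hA.1) (elem_map _ hA.2.1)

theorem Fu.eq (h : Fu J X) (hP : IsPGroup 2 P) (h1 : P ≤ X) (h2 : J ≤ P) : JE 2 P = J := by
  obtain ⟨S, s1, s2⟩ := exists_syl_ge hP h1
  have := (h.eq' s1 (g := 1) (by simpa using h2.trans s2)).trans (cj_one J)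
  rw [JE_eq_of_le (this.trans_le h2) s2, this]

theorem Fu.mono (h : Fu J X) (h1 : J ≤ Y) (h2 : Y ≤ X) : Fu J Y :=
  let ⟨S, s1, s2⟩ := exists_syl_ge h.p h1; ⟨S, s1, h.eq s1.isP (s1.le.trans h2) s2⟩

theorem Fu.conj (h : Fu J X) {g : G} (h1 : H9.cj g J ≤ X) : ∃ x ∈ X, H9.cj x J = H9.cj g J := by
  obtain ⟨S, s1, s2⟩ := exists_syl_ge (isPGroup_cj g h.p) h1
  obtain ⟨T, t1, t2⟩ := id h
  obtain ⟨x, x1, rfl⟩ := t1.conj s1
  exact ⟨x, x1, by rw [← h.eq' s1 s2, ← cj_JE, t2]⟩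

theorem fu_iff (hJ : IsPGroup 2 J) (h : J ≤ X) : (∀ S, Syl 2 S X → J ≤ S → JE 2 S = J) ↔ Fu J X :=
  ⟨fun e => let ⟨S, s1, s2⟩ := exists_syl_ge hJ h; ⟨S, s1, e S s1 s2⟩, fun e _ s1 s2 => e.eq s1.isP s1.le s2⟩

theorem Fu.norm (h : Fu J X) (hP : IsPGroup 2 P) (h1 : P ≤ X) (h2 : J ≤ normalizer (P : Set G)) :
    P ≤ normalizer (J : Set G) :=
  h.eq (isP_sup h.p hP h2) (sup_le h.le h1) le_sup_left ▸ normalizer_JE (le_sup_right.trans le_normalizer)

structure T3 (K : Subgroup G) : Prop where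
  ores : Ores 2 K = K
  i3 : (Op 2 K).relIndex K = 3

/-- the elements acting trivially on `K / O₂(K)`. -/
def CK (K : Subgroup G) : Subgroup G := ⨆ D : {D : Subgroup G // D ≤ normalizer (K : Set G) ∧ ⁅D, K⁆ ≤ Op 2 K}, D.1

omit [Finite G] in
theorem CK_le : CK K ≤ normalizer (K : Set G) := iSup_le fun D => D.2.1
omit [Finite G] in
theorem comm_CK (h : D ≤ CK K) : ⁅D, K⁆ ≤ Op 2 K := (commutator_mono h le_rfl).trans
  (commutator_iSup_le (fun D => normalizer_Op D.2.1) fun D => D.2.2)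
omit [Finite G] in
theorem le_CK (h1 : D ≤ normalizer (K : Set G)) (h2 : ⁅D, K⁆ ≤ Op 2 K) : D ≤ CK K :=
  le_iSup (fun D : {D : Subgroup G // D ≤ normalizer (K : Set G) ∧ ⁅D, K⁆ ≤ Op 2 K} => D.1) ⟨D, h1, h2⟩
omit [Finite G] in
theorem norm_CK (h : X ≤ normalizer (K : Set G)) : X ≤ normalizer (CK K : Set G) := le_normalizer_of_cj_le fun g hg => by
  have e := mem_normalizer_iff_cj.1 (h hg)
  refine le_CK ((cj_mono g CK_le).trans (by rw [cj_normalizer, e])) ?_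
  rw [← mem_normalizer_iff_cj.1 (normalizer_Op h hg), ← e, ← cj_commutator, e]
  exact cj_mono g (comm_CK le_rfl)

abbrev WW (K : Subgroup G) : Subgroup G := ⁅OZ 2 (Op 2 K), K⁆

omit [Finite G] in
theorem wOf_eq (K : Subgroup G) : wOf K = WW K := by rw [wOf, pCoreOf, Op_eq]; rfl
omit [Finite G] in
theorem norm_WW (h : X ≤ normalizer (K : Set G)) : X ≤ normalizer (WW K : Set G) :=
  normalizer_commutator (normalizer_OZ (normalizer_Op h)) h
omit [Finite G] in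
theorem WW_le : WW K ≤ OZ 2 (Op 2 K) := commutator_le_left' (normalizer_OZ (le_normalizer_Op 2 K))
omit [Finite G] in
theorem cj_WW (g : G) (K : Subgroup G) : cj g (WW K) = WW (cj g K) := by rw [cj_commutator, cj_OZ, cj_Op]

/-- a `K/O₂(K)`-module. -/
structure Md (K U : Subgroup G) : Prop where
  el : IsElementaryAbelian 2 U
  n : K ≤ normalizer (U : Set G)
  c : Op 2 K ≤ centralizer (U : Set G)

omit [Finite G] in
theorem Md.mono (m : Md K U) (h : V ≤ U) (n : K ≤ normalizer (V : Set G)) : Md K V :=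
  ⟨elem_of_le m.el h, n, m.c.trans (centralizer_anti h)⟩
omit [Finite G] in
theorem md_OZ : Md K (OZ 2 (Op 2 K)) :=
  ⟨OZ_elem _ _, normalizer_OZ (le_normalizer_Op 2 K), le_centralizer_iff.1 (OZ_le_centralizer _ _)⟩
omit [Finite G] in
theorem md_WW : Md K (WW K) := md_OZ.mono WW_le (norm_WW le_normalizer)
omit [Finite G] in
theorem Md.cent (m : Md K U) (h : B ≤ CK K) : Md K (U ⊓ centralizer (B : Set G)) := by
  refine m.mono inf_le_left ?_
  have : U ⊓ centralizer (B : Set G) = U ⊓ centralizer ((B ⊔ Op 2 K : Subgroup G) : Set G) := by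
    rw [centralizer_sup, inf_comm (centralizer _), ← inf_assoc, inf_eq_left.2 (le_centralizer_iff.1 m.c)]
  rw [this]
  refine normalizer_inf m.n (normalizer_centralizer (le_normalizer_of_commutator_le (K := B ⊔ Op 2 K) ((commutator_sup_le
    (normalizer_Op (h.trans CK_le)) le_normalizer (comm_CK h) (commutator_le_left' (le_normalizer_Op 2 K))).trans
      le_sup_right) le_rfl))

namespace T3
variable (h : T3 K)
include h

theorem cj (g : G) : T3 (cj g K) := ⟨by rw [← cj_Ores, h.ores], by rw [← cj_Op, relIndex_cj, h.i3]⟩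

theorem not_p : ¬ IsPGroup 2 K := fun e => by simpa [Op_eq_self e] using h.i3

omit [Finite G] in
theorem le {k : G} (h1 : Op 2 K ≤ X) (k1 : k ∈ K) (k2 : k ∈ X) (k3 : k ∉ Op 2 K) : K ≤ X :=
  Am.le_of_prime (Op_le 2 K) (h.i3 ▸ Nat.prime_three) h1 k1 k2 k3

theorem le_of_sup (hP : IsPGroup 2 P) (n : P ≤ normalizer (X : Set G)) (e : K ≤ X ⊔ P) : K ≤ X :=
  h.ores.ge.trans (Ores_le_of_sup hP n e)

theorem ores_sup (hP : IsPGroup 2 P) (n : P ≤ normalizer (K : Set G)) : Ores 2 (K ⊔ P) = K :=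
  le_antisymm (Ores_le_of_sup hP n le_rfl) (h.ores.ge.trans (Ores_mono le_sup_left))

theorem idx (n : D ≤ normalizer (K : Set G)) : (CK K).relIndex D ≤ 2 := by
  obtain ⟨Γ, _, _, f, -, f1, -⟩ := exists_quot ((Op_le 2 K).trans le_normalizer) (normalizer_Op le_rfl)
  have c : Nat.card (im f K) = 3 := by rw [card_im f le_normalizer, f1, h.i3]
  have : Fact (Nat.Prime 3) := ⟨Nat.prime_three⟩
  refine le_trans (relIndex_le_of_le_left (H := pre f (centralizer (im f K : Set Γ))) (le_CK (pre_le f _) (f1 ▸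
    (im_le_centralizer_iff f (pre_le f _) le_normalizer).1 (im_pre_le f _))) ri_ne) ?_
  rw [← relIndex_subgroupOf n, subgroupOf_pre, relIndex_comap]
  exact H1.relIndex_cent_le c (im_le_normalizer f n)

theorem exR : ∃ R ≤ K, IsPGroup 3 R ∧ R ⊔ Op 2 K = K := by
  have : Fact (Nat.Prime 3) := ⟨Nat.prime_three⟩
  obtain ⟨R, r⟩ := exists_syl (p := 3) K
  refine ⟨R, r.le, r.isP, le_antisymm (sup_le r.le (Op_le 2 K)) ?_⟩
  have : ¬ R ≤ Op 2 K := fun e => r.not_dvd (h.i3 ▸ relIndex_dvd_of_le_left K e)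
  obtain ⟨k, k1, k2⟩ := SetLike.not_le_iff_exists.1 this
  exact h.le le_sup_right (r.le k1) (mem_sup_left k1) k2

theorem dec (m : Md K U) : ⁅U, K⁆ ⊔ U ⊓ centralizer (K : Set G) = U ∧ U ⊓ centralizer (K : Set G) ⊓ ⁅U, K⁆ = ⊥ ∧
    Nat.card U ≡ Nat.card (U ⊓ centralizer (K : Set G) : Subgroup G) [MOD 3] := by
  have : Fact (Nat.Prime 3) := ⟨Nat.prime_three⟩
  obtain ⟨R, r1, r2, r3⟩ := h.exR
  have c := cop_of_isPGroup_ne (p := 2) (by decide) r2
  have n := r1.trans m.n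
  have e1 : U ⊓ centralizer (K : Set G) = U ⊓ centralizer (R : Set G) := by
    rw [← r3, centralizer_sup, inf_comm (centralizer _), ← inf_assoc, inf_eq_left.2 (le_centralizer_iff.1 m.c)]
  have e2 : ⁅U, K⁆ = ⁅U, R⁆ := le_antisymm (r3 ▸ commutator_sup_le' (le_normalizer_commutator_right U R)
    ((m.c.trans (centralizer_anti (commutator_le_left' n))).trans (centralizer_le_normalizer' _)) le_rfl
    ((le_centralizer_iff''.1 m.c).trans_le bot_le)) (commutator_mono le_rfl r1)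
  rw [e1, e2]
  exact ⟨cop_commutator_sup n (copA_of_p' (elem_isP m.el) c), cop_abelian_inf m.el.1 n
    (card_cop_of_p (elem_isP m.el) c).symm, H1.card_modEq_card_inf_centralizer r2 n⟩

theorem W_cent : WW K ⊓ centralizer (K : Set G) = ⊥ :=
  eq_bot_iff.2 ((h.dec md_OZ).2.1 ▸ le_inf (inf_le_inf_right _ WW_le) inf_le_left)

theorem four (m : Md K U) (f : U ⊓ centralizer (K : Set G) = ⊥) (h0 : U ≠ ⊥) :
    4 ≤ Nat.card U ∧ Nat.card U % 6 = 4 := by
  have a := (h.dec m).2.2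
  rw [f, card_bot] at a
  have b := dvd_card_of_isPGroup (elem_isP m.el) h0
  unfold Nat.ModEq at a
  omega

theorem irr (m : Md K U) (f : U ⊓ centralizer (K : Set G) = ⊥) (c : Nat.card U = 4) (h1 : V ≤ U)
    (n : K ≤ normalizer (V : Set G)) (h0 : V ≠ ⊥) : V = U :=
  eq_of_le_of_card_ge h1 (c ▸ (h.four (m.mono h1 n) (eq_bot_iff.2 (f ▸ inf_le_inf_right _ h1)) h0).1)

theorem exk (n : A ≤ normalizer (K : Set G)) (nc : ¬ A ≤ CK K) :
    ∃ k ∈ K, ∃ κ ∈ A ⊔ H9.cj k A, κ ∈ K ∧ κ ∉ Op 2 K := by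
  by_contra! c
  refine nc (le_CK n (commutator_le.2 fun a ha k hk => c k hk _ ?_ (commutator_le_right' n
    (commutator_mem_commutator ha hk))))
  rw [commutatorElement_def, mul_assoc, mul_assoc, ← mul_assoc k]
  exact mul_mem_sup ha (conj_mem_cj (inv_mem ha))

theorem w4 (hA : A ∈ ME 2 X) (n : A ≤ normalizer (K : Set G)) (nc : ¬ A ≤ CK K) (m : Md K U) (hU : U ≤ X)
    (nU : A ≤ normalizer (U : Set G)) (f : U ⊓ centralizer (K : Set G) = ⊥) : U ≤ centralizer ((A ⊓ CK K : Subgroup G) : Set G) ∧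
      Nat.card U ≤ 4 ∧ Nat.card (U ⊓ centralizer (A : Set G) : Subgroup G) ≤ 2 := by
  set A₀ := A ⊓ CK K
  set U₁ := U ⊓ centralizer (A₀ : Set G)
  set C := U ⊓ centralizer (A : Set G)
  have bo := (ME.bo hA m.el hU).1
  have a0 : Nat.card A ≤ 2 * Nat.card A₀ := by
    rw [← relIndex_mul_card_inf (CK K) A, inf_comm]; exact Nat.mul_le_mul_right _ (h.idx n)
  have p0 := Nat.card_pos (α := A₀)
  have m1 : Md K U₁ := m.cent inf_le_right
  have c1 : C ≤ U₁ := inf_le_inf_left _ (centralizer_anti inf_le_left)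
  have a1 : Nat.card U₁ ≤ 2 * Nat.card C := Nat.le_of_mul_le_mul_left ((bo A₀ inf_le_left).trans
    ((Nat.mul_le_mul_right _ a0).trans_eq (by ring))) p0
  obtain ⟨k, k1, κ, k2, k3, k4⟩ := h.exk n nc
  have c2 : H9.cj k C ≤ U₁ := (cj_mono k c1).trans (mem_normalizer_iff_cj.1 (m1.n k1)).le
  have a2 := card_mul_card_le C (H9.cj k C)
  rw [card_cj, eq_bot_iff.2 (f ▸ le_inf (inf_le_of_left_le inf_le_left) (le_centralizer_iff.1 (h.le
    (m.c.trans (centralizer_anti (inf_le_of_left_le inf_le_left))) k3 (sup_le (le_centralizer_iff.1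
      (inf_le_of_left_le inf_le_right)) (le_centralizer_iff.1 (inf_le_of_right_le ((cj_mono k inf_le_right).trans
        (cj_centralizer k A).le))) k2) k4)) : C ⊓ H9.cj k C ≤ ⊥), card_bot, one_mul] at a2
  have a3 : Nat.card C ≤ 2 := Nat.le_of_mul_le_mul_right (a2.trans ((card_le_card_of_le (sup_le c1 c2)).trans a1))
    Nat.card_pos
  suffices e : U ≤ U₁ from ⟨e.trans inf_le_right, (card_le_card_of_le e).trans (by omega), a3⟩
  by_contra e
  have pU := elem_isP m.el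
  have pA := elem_isP hA.2.1
  have nA : A ≤ normalizer (U₁ : Set G) :=
    normalizer_inf nU (normalizer_centralizer (le_normalizer_of_le_comm hA.2.1.1 le_rfl inf_le_left))
  have d : (U₁ ⊔ A) ⊓ U ≤ U₁ := (dedekind inf_le_left (.inr nA)).trans_le (sup_le le_rfl ((le_inf inf_le_right
    (inf_le_left.trans (le_centralizer_of_le_comm hA.2.1.1 le_rfl le_rfl))).trans c1))
  obtain ⟨x, x1, x2⟩ := SetLike.exists_of_lt (lt_normalizer_of_nilpotent (isP_sup' pU pA nU).isNilpotent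
    (lt_of_le_of_ne (sup_le_sup_right (inf_le_left : U₁ ≤ U) A) fun c => e ((le_inf (le_sup_left.trans c.ge) le_rfl).trans d)))
  obtain ⟨w, w1, a, ha, rfl⟩ := (mem_sup_of_le_normalizer' nU).1 x1.2
  have w2 : w ∈ normalizer ((U₁ ⊔ A : Subgroup G) : Set G) :=
    (mul_mem_cancel_right (le_normalizer (mem_sup_right ha))).1 x1.1
  have w3 : w ∉ U₁ := fun c => x2 (mul_mem_sup c ha)
  have w4 : ⁅zpowers w, A⁆ ≤ U₁ := (le_inf ((commutator_mono le_rfl le_sup_right).trans (commutator_le_right'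
    (zpowers_le_of_mem w2))) ((commutator_mono (zpowers_le_of_mem w1) le_rfl).trans (commutator_le_left' nU))).trans d
  have w5 : ⁅A₀, zpowers w⁆ ≤ C := le_inf ((commutator_mono inf_le_left (zpowers_le_of_mem w1)).trans
    (commutator_le_right' nU)) (le_centralizer_iff'.2 (eq_bot_iff.2 (three_subgroups le_normalizer_of_normal le_normalizer_of_normal
      le_normalizer_of_normal
      (le_centralizer_iff'.1 (w4.trans inf_le_right)).le ((commutator_mono (le_centralizer_iff'.1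
        (le_centralizer_of_le_comm hA.2.1.1 le_rfl inf_le_left)).le le_rfl).trans (commutator_bot_left _).le))))
  set B := A₀ ⊓ centralizer {w}
  have b0 : Nat.card A₀ ≤ 2 * Nat.card B := by
    rw [← relIndex_mul_card_inf (centralizer {w}) A₀, inf_comm]
    exact Nat.mul_le_mul_right _ ((relIndex_centralizer_le_card A₀ w).trans ((card_le_card_of_le w5).trans a3))
  have b1 : Nat.card (U ⊓ centralizer (B : Set G) : Subgroup G) ≤ 8 := Nat.le_of_mul_le_mul_left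
    ((bo B (inf_le_of_left_le inf_le_left)).trans ((Nat.mul_le_mul a0 a3).trans (by omega))) (Nat.card_pos (α := B))
  have b2 : U₁ < U ⊓ centralizer (B : Set G) := lt_of_le_of_ne (inf_le_inf_left _ (centralizer_anti inf_le_left))
    fun c => w3 (c.ge ⟨w1, le_centralizer_singleton_iff.1 inf_le_right⟩)
  have ff : ∀ Y, U ⊓ Y ⊓ centralizer (K : Set G) = ⊥ := fun Y => eq_bot_iff.2 (f ▸ inf_le_inf_right _ inf_le_left)
  have b3 := h.four m1 (ff _) (inf_centralizer_ne_bot_of_p pU (pA.to_le inf_le_left) (inf_le_left.trans nU)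
    fun c => e (c.le.trans bot_le))
  have b4 : _ ∧ Nat.card (U ⊓ centralizer (B : Set G) : Subgroup G) % 6 = 4 :=
    h.four (m.cent (inf_le_of_left_le inf_le_right : B ≤ _)) (ff _) (bot_le.trans_lt b2).ne'
  have := card_lt_of_lt b2
  omega

end T3

/-- condition `𝒦₁`. -/
structure K1 (J K : Subgroup G) : Prop extends T3 K where
  cm : ⁅K, J⁆ = K

namespace K1
variable (h : K1 J K)
include h

theorem cj (g : G) : K1 (cj g J) (cj g K) := ⟨h.toT3.cj g, by rw [← cj_commutator, h.cm]⟩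

omit [Finite G] in
theorem nJ : J ≤ normalizer (K : Set G) := h.cm ▸ le_normalizer_commutator_right K J

theorem not_CK : ¬ J ≤ CK K := fun e => h.not_p ((Op_p 2 K).to_le (h.cm.ge.trans (commutator_comm J K ▸ comm_CK e)))

theorem not_norm (hJ : IsPGroup 2 J) : ¬ K ≤ normalizer (J : Set G) := fun e =>
  h.not_p (hJ.to_le (h.cm.ge.trans (commutator_le_right' e)))

theorem norm (hJ : IsPGroup 2 J) (h1 : K ≤ normalizer (Q : Set G)) (h2 : Q ≤ normalizer (J : Set G)) :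
    Q ≤ normalizer (K : Set G) := by
  rw [← h.ores_sup hJ h.nJ, ← h.cm, ← ncl_eq_sup]
  refine normalizer_Ores (le_normalizer_of_cj_le fun q hq => cj_le_iff.2 (ncl_le_iff.2 fun k hk => cj_le_iff.1 ?_))
  rw [← cj_mul, show q * k = k * (k⁻¹ * q * k) by group, cj_mul,
    mem_normalizer_iff_cj.1 (h2 (conj_mem_of_le_normalizer' h1 hk hq))]
  exact cj_le_ncl J hk

theorem exA (u : Fu J X) : ∃ A ∈ ME 2 J, ¬ A ≤ CK K := by
  by_contra! c
  exact h.not_CK (u.je.ge.trans (JE_le_iff.2 c))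

theorem le4 (u : Fu J X) (hK : K ≤ X) : Nat.card (WW K) ≤ 4 :=
  let ⟨_, a1, a2⟩ := h.exA u
  (h.w4 (u.me a1) (a1.1.trans h.nJ) a2 md_WW (WW_le.trans ((OZ_le _ _).trans ((Op_le _ _).trans hK)))
    (norm_WW (a1.1.trans h.nJ)) h.W_cent).2.1

theorem z0 (u : Fu J (K ⊔ J)) (c : Nat.card (WW K) = 4) : WW K ≤ J ∧ Nat.card (OZ 2 J ⊓ WW K : Subgroup G) = 2 ∧
    (OZ 2 J ⊓ Zc (K ⊔ J)) ⊔ (OZ 2 J ⊓ WW K) = OZ 2 J := by
  obtain ⟨A, a1, a2⟩ := h.exA u
  have nA := a1.1.trans h.nJ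
  have nX : K ⊔ J ≤ normalizer (K : Set G) := sup_le le_normalizer h.nJ
  have o1 : Op 2 K ≤ Op 2 (K ⊔ J) := (SN.of_normal le_sup_left nX).Op_le_Op
  have w1 : WW K ≤ Op 2 (K ⊔ J) := WW_le.trans ((OZ_le _ _).trans o1)
  have mW := md_WW (K := K)
  obtain ⟨b1, -, b2⟩ := h.w4 (u.me a1) nA a2 mW (w1.trans (Op_le _ _)) (norm_WW nA) h.W_cent
  set O := Op 2 (K ⊔ J)
  set W := WW K
  set A₀ := A ⊓ CK K
  have a0 : Nat.card A ≤ 2 * Nat.card A₀ := by
    rw [← relIndex_mul_card_inf (CK K) A, inf_comm]; exact Nat.mul_le_mul_right _ (h.idx nA)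
  have o2 : A₀ ≤ O := (inf_le_inf_right _ a1.1).trans (le_sup_left.trans (le_Op (N := J ⊓ CK K ⊔ Op 2 K)
    (sup_le (inf_le_of_left_le le_sup_right) (o1.trans (Op_le _ _))) (sup_le (le_normalizer_of_commutator_le
      (K := J ⊓ CK K ⊔ Op 2 K) ((commutator_sup_le (normalizer_Op (inf_le_left.trans h.nJ)) le_normalizer
        (comm_CK inf_le_right) (commutator_le_left' (le_normalizer_Op 2 K))).trans le_sup_right) le_rfl)
      (normalizer_sup (normalizer_inf le_normalizer (norm_CK h.nJ)) (normalizer_Op h.nJ)))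
    (isP_sup (u.p.to_le inf_le_left) (Op_p 2 K) (normalizer_Op (inf_le_left.trans h.nJ)))))
  have hB : A₀ ⊔ W ∈ ME 2 (K ⊔ J) := by
    refine MaxF.of_card (u.me a1) ((sup_le o2 w1).trans (Op_le _ _)) (elem_sup (elem_of_le a1.2.1 inf_le_left) mW.el
      (le_centralizer_iff.1 b1)) ?_
    have e := card_sup_mul_card_inf (A := A₀) (inf_le_left.trans (norm_WW nA))
    have e' := (card_le_card_of_le (le_inf inf_le_right (inf_le_of_left_le (inf_le_left.trans
      (le_centralizer_of_le_comm a1.2.1.1 le_rfl le_rfl))) : A₀ ⊓ W ≤ _)).trans b2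
    have := Nat.mul_le_mul_left (Nat.card (A₀ ⊔ W : Subgroup G)) e'
    rw [e, c] at this
    omega
  have pO : IsPGroup 2 (J ⊔ O : Subgroup G) := isP_sup u.p (Op_p _ _) (le_sup_right.trans (le_normalizer_Op _ _))
  have lO : J ⊔ O ≤ K ⊔ J := sup_le le_sup_right (Op_le _ _)
  have e1 := u.eq pO lO le_sup_left
  have hB1 := MaxF.mono hB ((sup_le o2 w1).trans le_sup_right) lO
  have hB2 := MaxF.mono hB (sup_le o2 w1) (Op_le _ _)
  have j1 : JE 2 O ≤ J := e1 ▸ sSup_maxF_mono hB1 (sup_le o2 w1) le_sup_right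
  have j2 := le_JE hB2
  have wJ : W ≤ J := le_sup_right.trans (j2.trans j1)
  set Y := OZ 2 (JE 2 O)
  have y1 : OZ 2 J ≤ Y := le_OZ (OZ_elem _ _) ((ME.OZ_le (MaxF.mono hB (j2.trans j1) le_sup_right)).trans j2)
    ((OZ_le_centralizer _ _).trans (centralizer_anti j1))
  have y2 : K ⊔ J ≤ normalizer (Y : Set G) := normalizer_OZ (normalizer_JE (le_normalizer_Op _ _))
  have y3 : W ≤ Y := le_OZ mW.el (le_sup_right.trans j2) ((h.irr mW h.W_cent c inf_le_left (normalizer_inf mW.n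
    (normalizer_centralizer (normalizer_JE (le_sup_left.trans (le_normalizer_Op _ _))))) (inf_centralizer_ne_bot_of_p
      (elem_isP mW.el) (u.p.to_le j1) (j1.trans (norm_WW h.nJ)) fun e => by simp [e] at c)).ge.trans inf_le_right)
  have y4 : (centralizer (A : Set G)).relIndex Y ≤ 2 := by
    have b := (ME.bo (u.me a1) (OZ_elem 2 (JE 2 O)) ((OZ_le _ _).trans (j1.trans le_sup_right))).1 A₀ inf_le_left
    rw [inf_eq_left.2 ((OZ_le_centralizer _ _).trans (centralizer_anti (le_sup_left.trans j2))),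
      ← relIndex_mul_card_inf (centralizer (A : Set G)) (OZ 2 (JE 2 O)), inf_comm (centralizer (A : Set G))] at b
    exact Nat.le_of_mul_le_mul_left (Nat.le_of_mul_le_mul_right ((mul_assoc _ _ _).trans_le (b.trans
      ((Nat.mul_le_mul_right _ a0).trans_eq (by ring)))) Nat.card_pos) (Nat.card_pos (α := A₀))
  obtain ⟨k, k1, κ, k2, k3, k4⟩ := h.exk nA a2
  set D := A ⊔ H9.cj k A
  have d1 : W ⊓ (Y ⊓ centralizer (D : Set G)) = ⊥ := eq_bot_iff.2 (h.W_cent ▸ le_inf inf_le_left (le_centralizer_iff.1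
    (h.le (mW.c.trans (centralizer_anti inf_le_left)) k3 (le_centralizer_iff.1 (inf_le_of_right_le inf_le_right) k2) k4)))
  have d2 : W ⊔ (Y ⊓ centralizer (D : Set G)) = Y := H1.sup_eq_of_card y3 inf_le_left d1 (by
    rw [← relIndex_mul_card_inf (centralizer (D : Set G)) Y, inf_comm, c]
    refine Nat.mul_le_mul_right _ ?_
    rw [centralizer_sup]
    refine relIndex_inf_le.trans (show _ ≤ 2 * 2 from Nat.mul_le_mul y4 ?_)
    rwa [← cj_centralizer, ← mem_normalizer_iff_cj.1 (y2 (mem_sup_left k1)), relIndex_cj])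
  have z1 : OZ 2 J ⊓ W = W ⊓ centralizer (J : Set G) := le_antisymm (le_inf inf_le_right (inf_le_of_left_le
    (OZ_le_centralizer _ _))) (le_inf (le_OZ (elem_of_le mW.el inf_le_left) (inf_le_of_left_le wJ) inf_le_right) inf_le_left)
  have z2 := dvd_card_of_isPGroup ((elem_isP mW.el).to_le inf_le_left) (inf_centralizer_ne_bot_of_p
    (elem_isP mW.el) u.p (norm_WW h.nJ) fun e => by simp [e] at c)
  have z3 : W ⊓ centralizer (J : Set G) ≤ W ⊓ centralizer (A : Set G) := inf_le_inf_left _ (centralizer_anti a1.1)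
  have z4 := Nat.le_of_dvd Nat.card_pos z2
  have z5 := eq_of_le_of_card_ge z3 (b2.trans z4)
  refine ⟨wJ, z1 ▸ le_antisymm ((card_le_card_of_le z3).trans b2) z4, le_antisymm (sup_le inf_le_left inf_le_left)
    fun z hz => ?_⟩
  obtain ⟨w, w2, y, y5, rfl⟩ := (mem_sup_of_le_normalizer (le_normalizer_of_le_comm (OZ_elem _ _).1 y3 inf_le_left)).1
    (d2.ge (y1 hz))
  have w3 : w ∈ OZ 2 J ⊓ W := (z1.trans z5).ge ⟨w2, (mul_mem_cancel_right (centralizer_anti le_sup_left y5.2)).1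
    (centralizer_anti a1.1 (OZ_le_centralizer _ _ hz))⟩
  have y6 : y ∈ OZ 2 J := (mul_mem_cancel_left (mem_inf.1 w3).1).1 hz
  rw [sup_comm]
  refine mul_mem_sup w3 ⟨y6, mem_sup_right (OZ_le _ _ y6), centralizer_anti (K := J ⊔ D) (sup_le ?_ le_sup_left)
    ((centralizer_sup _ _).ge ⟨OZ_le_centralizer _ _ y6, y5.2⟩)⟩
  refine h.cm.ge.trans ((commutator_le_ncl' J K).trans (ncl_le_iff.2 fun x hx => ?_))
  obtain ⟨a, ha, b, hb, rfl⟩ := (mem_sup_of_le_normalizer (zpowers_le_of_mem (le_normalizer_Op 2 K k3))).1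
    (h.le le_sup_right k3 (mem_sup_left (mem_zpowers κ)) k4 hx)
  rw [cj_mul, mem_normalizer_iff_cj.1 (u.norm (Op_p 2 K) (o1.trans (Op_le _ _)) (normalizer_Op h.nJ) hb)]
  exact cj_le_of_mem (mem_sup_right (zpowers_le_of_mem k2 ha)) le_sup_left

end K1

/-- `J`-components. -/
structure JK (J K : Subgroup G) : Prop extends K1 J K where
  fu : Fu J (K ⊔ J)
  c4 : Nat.card (WW K) = 4

theorem jk_iff (hT : IsPGroup 2 T) : IsJComponent T K ↔ JK (JE 2 T) K := by
  simp only [IsJComponent, odd_eq, JE_eq, pCoreOf_eq, syl_iff, wOf_eq, fu_iff (hT.to_le (JE_le 2 T)) le_sup_right]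
  exact ⟨fun h => ⟨⟨⟨h.1, h.2.2.1⟩, h.2.1⟩, h.2.2.2.1, h.2.2.2.2.1⟩, fun h => ⟨h.ores, h.cm, h.i3, h.fu, h.c4,
    fun w hw => (sq w).symm.trans (md_WW.el.2 w hw)⟩⟩

theorem JK.cj (h : JK J K) (g : G) : JK (cj g J) (cj g K) :=
  ⟨h.toK1.cj g, cj_sup g K J ▸ h.fu.cj g, by rw [← cj_WW, card_cj, h.c4]⟩

end H9.JC
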