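import Cfsg.Agent.H9.JC1

/-!
H9.JC2: the structure theorem for `J(T)`-components in a solvable group of characteristic 2.
-/

set_option autoImplicit false

namespace H9.JC

open Cfsg Subgroup H1
open scoped commutatorElement

variable {G : Type*} [Group G] [Finite G] {K K' U V D A B C H J L X Y P Q R S T : Subgroup G}

theorem odd3 (hY : (Nat.card Y).Coprime 2) (hJ : IsPGroup 2 J) (n : J ≤ normalizer (Y : Set G)) (l : C ≤ Y)
    (nC : Y ≤ normalizer (C : Set G)) (i : C.relIndex Y = 3) (c : C ≤ centralizer (J : Set G)) :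
    ⁅Y, J⁆ = ⊥ ∨ Nat.card (⁅Y, J⁆ : Subgroup G) = 3 ∧ Y ≤ ⁅Y, J⁆ ⊔ C := by
  have cp := copA_of_p hJ hY
  have r1 : ⁅Y, J⁆ ≤ Y := commutator_le_left' n
  by_cases e : ⁅Y, J⁆ ≤ C
  · exact .inl (cop_comm_eq_bot n cp (le_centralizer_iff'.1 (e.trans c)))
  obtain ⟨r, r2, r3⟩ := SetLike.not_le_iff_exists.1 e
  have y := Am.le_of_prime l (i ▸ Nat.prime_three) (le_sup_right : C ≤ ⁅Y, J⁆ ⊔ C) (r1 r2) (mem_sup_left r2) r3
  have c1 : ⁅Y, J⁆ ≤ centralizer (C : Set G) := le_centralizer_iff'.2 (eq_bot_iff.2 (three_subgroups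
    le_normalizer_of_normal le_normalizer_of_normal le_normalizer_of_normal
    ((commutator_mono (le_centralizer_iff''.1 c).le le_rfl).trans (commutator_bot_left _).le)
    ((commutator_mono (commutator_le_left' nC) le_rfl).trans (le_centralizer_iff'.1 c).le)))
  have i1 : (C ⊓ ⁅Y, J⁆).relIndex ⁅Y, J⁆ = 3 := by
    rw [inf_relIndex_right, ← relIndex_sup_of_le_normalizer (r1.trans nC), le_antisymm (sup_le r1 l) y, i]
  have c2 : C ⊓ ⁅Y, J⁆ ≤ centralizer ((⁅Y, J⁆ : Subgroup G) : Set G) := inf_le_left.trans (le_centralizer_iff.1 c1)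
  have c3 := Am.le_of_prime inf_le_right (i1 ▸ Nat.prime_three) c2 r2 (le_centralizer_singleton_iff.1
    (Am.le_of_prime inf_le_right (i1 ▸ Nat.prime_three) (c2.trans (centralizer_le (Set.singleton_subset_iff.2 r2))) r2
      (mem_centralizer_singleton_iff.2 rfl) fun c => r3 c.1)) fun c => r3 c.1
  have c4 := cop_abelian_inf (L.comm_of_le_centralizer c3) (le_normalizer_commutator_right Y J)
    (cp.mono le_rfl r1).cop
  rw [cop_ccomm n cp] at c4
  rw [eq_bot_iff.2 (c4 ▸ le_inf (le_inf inf_le_right (inf_le_of_left_le c)) inf_le_right : C ⊓ ⁅Y, J⁆ ≤ ⊥),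
    relIndex_bot_left] at i1
  exact .inr ⟨i1, y⟩

theorem t3_of (hQ : IsPGroup 2 Q) (l : Q ≤ R) (n : R ≤ normalizer (Q : Set G)) (i : Q.relIndex R = 3) :
    T3 (Ores 2 R) ∧ R ≤ Ores 2 R ⊔ Q := by
  have : Fact (Nat.Prime 3) := ⟨Nat.prime_three⟩
  obtain ⟨P, hP⟩ := exists_syl (p := 3) R
  obtain ⟨k, k1, k2⟩ := SetLike.not_le_iff_exists.1 (fun e => hP.not_dvd (i ▸ relIndex_dvd_of_le_left R e) : ¬ P ≤ Q)
  have e := Am.le_of_prime l (i ▸ Nat.prime_three) (le_sup_right : Q ≤ Ores 2 R ⊔ Q) (hP.le k1)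
    (mem_sup_left (le_Ores hP.le (cop_of_isPGroup_ne (by decide) hP.isP) k1)) k2
  have s : Syl 2 Q R := ⟨l, hQ, by rw [i]; decide⟩
  refine ⟨⟨Ores_Ores 2 R, ?_⟩, e⟩
  rw [le_antisymm (le_inf ((SN.of_normal (Ores_le 2 R) (le_normalizer_Ores 2 R)).Op_le_Op.trans s.Op_le) (Op_le _ _))
    (le_Op inf_le_right (normalizer_inf ((Ores_le 2 R).trans n) le_normalizer) (hQ.to_le inf_le_left)),
    inf_relIndex_right, ← relIndex_sup_of_le_normalizer ((Ores_le 2 R).trans n),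
    le_antisymm (sup_le (Ores_le 2 R) l) e, i]

theorem mod3 (hQ : IsPGroup 2 Q) (hJ : IsPGroup 2 J) (q : Q ≤ C) (l : C ≤ Y) (nQ : Y ≤ normalizer (Q : Set G))
    (jQ : J ≤ normalizer (Q : Set G)) (n : J ≤ normalizer (Y : Set G)) (qJ : Q ≤ normalizer (J : Set G))
    (nC : Y ≤ normalizer (C : Set G)) (i : C.relIndex Y = 3) (o : (Q.relIndex C).Coprime 2) (c : ⁅C, J⁆ ≤ Q) :
    ⁅Y, J⁆ ≤ Q ∨ ∃ K ≤ Y, K1 J K ∧ Y ≤ K ⊔ C := by
  obtain ⟨Γ, _, _, f, -, f1, -⟩ := exists_quot (le_normalizer : Q ≤ _) le_rfl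
  have r1 : ⁅Y, J⁆ ≤ Y := commutator_le_left' n
  have e := relIndex_mul_relIndex Q C Y q l
  have e1 := relIndex_mul_card (im_mono f l)
  rw [card_im f nQ, card_im f (l.trans nQ), f1, ← e, i, mul_comm, Nat.mul_right_inj ri_ne] at e1
  rcases odd3 (by rw [card_im f nQ, f1, ← e, i]; exact o.mul_left (by decide)) (isPGroup_im f hJ) (im_le_normalizer f n)
    (im_mono f l) (im_le_normalizer f nC) e1 ((im_le_centralizer_iff f (l.trans nQ) jQ).2 (c.trans f1.ge)) with a | ⟨a, b⟩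
  · rw [← im_commutator f nQ jQ, im_eq_bot_iff f (r1.trans nQ), f1] at a
    exact .inl a
  have r2 : ⁅Y, J⁆ ⊔ Q ≤ Y := sup_le r1 (q.trans l)
  rw [← im_commutator f nQ jQ] at a b
  obtain ⟨t, t1⟩ := t3_of hQ le_sup_right (r2.trans nQ) (by
    rw [relIndex_sup_of_le_normalizer (r1.trans nQ), ← a, card_im f (r1.trans nQ), f1])
  set K := Ores 2 (⁅Y, J⁆ ⊔ Q)
  have k1 : K ≤ ⁅Y, J⁆ ⊔ Q := Ores_le _ _
  have k2 := k1.trans (r2.trans nQ)
  have k3 : im f K = im f ⁅Y, J⁆ := le_antisymm ((im_le_im_iff f k2 (r1.trans nQ)).2 (k1.trans_eq (by rw [f1])))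
    ((im_le_im_iff f (r1.trans nQ) k2).2 (le_sup_left.trans (t1.trans_eq (by rw [f1]))))
  have jK : J ≤ normalizer (K : Set G) := normalizer_Ores (normalizer_sup (le_normalizer_commutator_right _ _) jQ)
  refine .inr ⟨K, k1.trans r2, ⟨t, le_antisymm (commutator_le_left' jK) (t.le_of_sup hQ (normalizer_commutator
    (normalizer_Ores (le_sup_right.trans le_normalizer)) qJ) ?_)⟩, ?_⟩
  · rw [← f1, ← im_le_im_iff f k2 ((commutator_le_left' jK).trans k2), im_commutator f k2 jQ, k3, im_commutator f nQ jQ,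
      cop_ccomm (im_le_normalizer f n) (copA_of_p (isPGroup_im f hJ) (by
        rw [card_im f nQ, f1, ← e, i]; exact o.mul_left (by decide)))]
  · rw [← k3, ← im_sup f k2 (l.trans nQ), im_le_im_iff f nQ (sup_le k2 (l.trans nQ)), f1] at b
    exact b.trans (sup_le le_rfl (q.trans le_sup_right))

section FF
variable (h : FP 2 V H) (t : Tv 2 V H B) (g : Gen 2 V H)
include h t g

omit h g in
theorem E_inf : Ea 2 H B ⊓ Op' 2 H = ⁅Op' 2 H, B⁆ := by
  rw [dedekind t.Q_le (.inr (le_normalizer_commutator_right _ _)), (copA_of_p t.isP (Op'_cop 2 H)).inf_eq_bot, sup_bot_eq]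

theorem card_D : Nat.card (⁅Op' 2 H, B⁆ : Subgroup G) = 3 := by
  obtain ⟨e⟩ := h.E_iso t g
  have a := card_sup_mul_card_inf (le_normalizer_commutator_right (Op' 2 H) B)
  rw [sup_comm, Nat.card_congr e.toEquiv, card_sl2, (copA_of_p t.isP (cop_of_le (Op'_cop 2 H) t.Q_le)).inf_eq_bot, card_bot,
    t.card] at a
  omega

theorem nD : H ≤ normalizer ((⁅Op' 2 H, B⁆ : Subgroup G) : Set G) :=
  E_inf t ▸ normalizer_inf (h.nE t g) (le_normalizer_Op' 2 H)

theorem B_le (hP : Syl 2 P H) : B ≤ ⁅Op' 2 H, B⁆ ⊔ P := by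
  obtain ⟨x, x1, x2⟩ := hP.exists_cj_le t.isP t.le
  refine le_sup_right.trans ((mem_normalizer_iff_cj.1 (h.nE t g x1)).ge.trans ?_)
  rw [cj_sup, mem_normalizer_iff_cj.1 (nD h t g x1)]
  exact sup_le_sup_left x2 _

omit t in
theorem exB (n : A ≤ normalizer (K : Set G)) (l : A ≤ H) (b : IsBestOffenderOn 2 V A) (k : K ≤ Op' 2 H)
    (c : Nat.card K = 3) (nc : ¬ A ≤ centralizer (K : Set G)) : ∃ B ≤ A, Tv 2 V H B ∧ ⁅K, B⁆ = K ∧ K = ⁅Op' 2 H, B⁆ := by
  by_contra! e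
  refine nc (h.le_of_tv l b fun B b1 b2 => ?_)
  rcases bot_or_eq_of_prime (c ▸ Nat.prime_three) (commutator_le_left' (b1.trans n)) with a | a
  · exact le_centralizer_iff''.2 a
  · exact (e B b1 b2 a (eq_of_le_of_card_ge (a.ge.trans (commutator_mono k le_rfl)) (by rw [card_D h b2 g, c]))).elim

end FF

theorem hol_comm {Γ : Type*} [Group Γ] {i : V →* Γ} {f : normalizer (V : Set G) →* Γ} (s : Hol V i f)
    (n : A ≤ normalizer (V : Set G)) : im i ⁅V, A⁆ ≤ ⁅im i V, im f A⁆ := by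
  refine (im_le_iff i (commutator_le_left' n)).2 (commutator_le.2 fun v hv a ha => (mem_pre i).2
    ⟨commutator_le_left' n (commutator_mem_commutator hv ha), ?_⟩)
  have := commutator_mem_commutator (mem_im_of_mem i (x := ⟨v, hv⟩) hv) (mem_im_of_mem f (x := ⟨a, n ha⟩) ha)
  rw [commutatorElement_def, mul_assoc, mul_assoc, ← mul_assoc (f _), ← map_inv, s.act, ← map_mul] at this
  convert this using 2
  ext
  simp [commutatorElement_def, mul_assoc]

/-- the local hypothesis: `T` Sylow in the solvable group `L` of characteristic 2, with `C_L(Ω₁Z(T)) ≤ N(T)`. -/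
structure LS (T L : Subgroup G) : Prop where
  syl : Syl 2 T L
  chp : Chp 2 L
  sol : Group.IsSolvable L
  cz : L ⊓ centralizer (OZ 2 T : Set G) ≤ normalizer (T : Set G)

abbrev CV (L : Subgroup G) : Subgroup G := L ⊓ centralizer (VZ 2 L : Set G)

/-- the components in `L`. -/
def KL (J L K : Subgroup G) : Prop := K1 J K ∧ K ≤ L

/-- the subgroup generated by the components. -/
def EL (J L : Subgroup G) : Subgroup G := ⨆ K : {K // KL J L K}, K.1

omit [Finite G] in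
theorem KL.le_EL (k : KL J L K) : K ≤ EL J L := le_iSup (fun K : {K // KL J L K} => K.1) ⟨K, k⟩
omit [Finite G] in
theorem EL_le (h : ∀ K, KL J L K → K ≤ X) : EL J L ≤ X := iSup_le fun K => h K.1 K.2
omit [Finite G] in
theorem EL_le' : EL J L ≤ L := EL_le fun _ k => k.2

theorem norm_EL (h : ∀ g ∈ X, ∀ K, KL J L K → KL J L (cj g K)) : X ≤ normalizer (EL J L : Set G) :=
  le_normalizer_of_cj_le fun g hg => cj_le_iff.2 (EL_le fun K k => cj_le_iff.1 (h g hg K k).le_EL)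

namespace LS
variable (h : LS T L)
include h

theorem cj (g : G) : LS (cj g T) (cj g L) := ⟨h.syl.cj g, h.chp.cj g, isSolvable_map _ h.sol, by
  rw [← cj_OZ, ← cj_centralizer, ← cj_inf, ← cj_normalizer]; exact cj_mono g h.cz⟩

omit h in
theorem nV : L ≤ normalizer (VZ 2 L : Set G) := normalizer_VZ le_normalizer
omit h in
theorem nC : L ≤ normalizer (CV L : Set G) := normalizer_inf le_normalizer (normalizer_centralizer nV)
theorem VQ : VZ 2 L ≤ OZ 2 (Op 2 L) := VZ_le_Zc h.chp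
theorem QC : Op 2 L ≤ CV L := le_inf (Op_le _ _) (le_centralizer_iff.1 (h.VQ.trans (OZ_le_centralizer _ _)))
theorem CN : CV L ≤ normalizer (T : Set G) := (inf_le_inf_left _ (centralizer_anti h.syl.OZ_le_VZ)).trans h.cz
theorem JL : JE 2 T ≤ L := (JE_le _ _).trans h.syl.le
theorem pJ : IsPGroup 2 (JE 2 T) := h.syl.isP.to_le (JE_le _ _)
theorem fu : Fu (JE 2 T) L := ⟨T, h.syl, rfl⟩
theorem QJ : Op 2 L ≤ normalizer (JE 2 T : Set G) := normalizer_JE (h.syl.Op_le.trans le_normalizer)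

theorem TC : T ⊓ CV L = Op 2 L := le_antisymm (((h.syl.inf_normal inf_le_left nC).eq_Op
  (normalizer_inf h.CN le_normalizer)).le.trans (SN.of_normal inf_le_left nC).Op_le_Op) (le_inf h.syl.Op_le h.QC)

theorem sylC : Syl 2 (Op 2 L) (CV L) := h.TC ▸ h.syl.inf_normal inf_le_left nC

theorem p_le (hP : IsPGroup 2 P) (l : P ≤ CV L) : P ≤ Op 2 L :=
  h.sylC.le_of_le_normalizer hP l (.inl (l.trans (inf_le_left.trans (le_normalizer_Op _ _))))

theorem CP (hP : IsPGroup 2 P) (l : P ≤ L) : ⁅CV L, P⁆ ≤ Op 2 L := by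
  obtain ⟨g, g1, g2⟩ := h.syl.exists_le_cj hP l
  have := h.cj g
  rw [mem_normalizer_iff_cj.1 (le_normalizer g1)] at this
  exact this.TC ▸ le_inf ((commutator_mono le_rfl g2).trans (commutator_le_right' this.CN))
    (commutator_le_left' (l.trans nC))

theorem CH : ⁅JE 2 L, CV L⁆ ≤ Op 2 L := by
  rw [JE, sSup_eq_iSup']
  exact commutator_iSup_le (fun A => A.2.1.trans (le_normalizer_Op _ _)) fun A =>
    commutator_comm (CV L) _ ▸ h.CP (elem_isP A.2.2.1) A.2.1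

theorem KH (k : KL (JE 2 T) L K) : K ≤ JE 2 L := k.1.cm.ge.trans ((commutator_mono le_rfl h.syl.JE_le).trans
  (commutator_le_right' (normalizer_JE (k.2.trans le_normalizer))))

theorem QK (k : KL (JE 2 T) L K) : Op 2 L ≤ normalizer (K : Set G) := k.1.norm h.pJ (k.2.trans (le_normalizer_Op _ _)) h.QJ

theorem KC (k : KL (JE 2 T) L K) : ¬ K ≤ CV L := fun e =>
  k.1.not_p ((Op_p 2 L).to_le (k.1.cm.ge.trans ((commutator_mono e le_rfl).trans (h.CP h.pJ h.JL))))

set_option maxHeartbeats 1600000 in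
theorem main : (∀ K, KL (JE 2 T) L K → Op 2 K ≤ Op 2 L) ∧ (∀ K K', KL (JE 2 T) L K → KL (JE 2 T) L K' → K = K' ∨
    K' ≤ centralizer ((⁅VZ 2 L, K⁆ : Subgroup G) : Set G) ∧ K' ≤ normalizer (K : Set G)) ∧
    L ≤ EL (JE 2 T) L ⊔ L ⊓ normalizer (JE 2 T : Set G) := by
  obtain ⟨Γ, _, _, i, f, s⟩ := exists_hol (VZ 2 L)
  obtain ⟨u, g⟩ := s.fp_J (VZ_elem h.chp) (VZ_le L) nV (psol_of_solvable h.sol) (Opm_VZ_le L)
  have hl : JE 2 L ≤ L := JE_le _ _
  have hn : L ≤ normalizer (JE 2 L : Set G) := normalizer_JE le_normalizer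
  have nQ : L ≤ normalizer (Op 2 L : Set G) := le_normalizer_Op _ _
  have sP := (h.syl.inf_normal hl hn).im f (hl.trans nV)
  have kc : ∀ {X}, X ≤ L → X ≤ kr f → X ≤ CV L := fun a b => le_inf a (b.trans s.kr_f.le)
  have a1 : ∀ K, KL (JE 2 T) L K → im f K ≤ Op' 2 (im f (JE 2 L)) := fun K k => by
    rw [← k.1.ores, im_Ores f (k.2.trans nV)]
    exact Ores_le_of_sup sP.isP (sP.le.trans (le_normalizer_Op' _ _)) ((im_mono f (h.KH k)).trans (g _ fun B t =>
      (B_le u t g sP).trans (sup_le_sup_right t.Q_le _)))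
  have a2 : ∀ K, KL (JE 2 T) L K → Op 2 K ≤ CV L := fun K k => kc ((Op_le _ _).trans k.2)
    ((im_eq_bot_iff f ((Op_le _ _).trans (k.2.trans nV))).1 (eq_bot_iff.2 ((copA_of_p (isPGroup_im f (Op_p 2 K))
      (Op'_cop 2 _)).inf_eq_bot ▸ le_inf le_rfl ((im_mono f (Op_le _ _)).trans (a1 K k)))))
  have a3 : ∀ K, KL (JE 2 T) L K → K ⊓ CV L ≤ Op 2 K := fun K k x hx => by_contra fun e =>
    h.KC k (k.1.le (a2 K k) hx.1 hx.2 e)
  have a4 : ∀ K, KL (JE 2 T) L K → ∃ B ≤ JE 2 T, Tv 2 (im i (VZ 2 L)) (im f (JE 2 L)) (im f B) ∧ K ≤ ⁅K, B⁆ ⊔ Op 2 L ∧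
      im f K = ⁅Op' 2 (im f (JE 2 L)), im f B⁆ := fun K k => by
    obtain ⟨A, b1, b2⟩ := k.1.exA h.fu
    have n := b1.1.trans k.1.nJ
    have l := b1.1.trans h.JL
    obtain ⟨B, c1, c2, c3, c4⟩ := exB u g (im_le_normalizer f n) (im_mono f (b1.1.trans h.syl.JE_le))
      (s.bo (l.trans nV) (ME.bo (h.fu.me b1) (VZ_elem h.chp) (VZ_le L))) (a1 K k) (by
        rw [card_im f (k.2.trans nV), ← inf_relIndex_right, ← k.1.i3]
        congr 1
        exact le_antisymm ((le_inf inf_le_right (kc (inf_le_of_right_le k.2) inf_le_left)).trans (a3 K k))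
          (le_inf ((a2 K k).trans (inf_le_right.trans s.kr_f.ge)) (Op_le _ _)))
      fun e => b2 (le_CK n ((le_inf (commutator_le_right' n) (kc (commutator_le_of_le l k.2)
        ((im_le_centralizer_iff f (l.trans nV) (k.2.trans nV)).1 e))).trans (a3 K k)))
    have e := im_pre_inf f c1
    refine ⟨pre f B ⊓ A, inf_le_of_right_le b1.1, e.symm ▸ c2, ?_, e.symm ▸ c4⟩
    have n' : pre f B ⊓ A ≤ normalizer (K : Set G) := inf_le_of_right_le n
    have : ¬ ⁅K, pre f B ⊓ A⁆ ≤ Op 2 K := fun d => h.KC k (kc k.2 ((im_eq_bot_iff f (k.2.trans nV)).1 (by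
      rw [← c3, ← e, ← im_commutator f (k.2.trans nV) (inf_le_of_right_le (l.trans nV)), im_eq_bot_iff f
        ((commutator_le_left' n').trans (k.2.trans nV))]
      exact d.trans ((a2 K k).trans (inf_le_right.trans s.kr_f.ge)))))
    obtain ⟨x, x1, x2⟩ := SetLike.not_le_iff_exists.1 this
    exact k.1.le ((h.p_le (Op_p _ _) (a2 K k)).trans le_sup_right) (commutator_le_left' n' x1) (mem_sup_left x1) x2
  have a5 : ∀ K K', KL (JE 2 T) L K → KL (JE 2 T) L K' → im f K' ≤ im f K → K' ≤ K := fun K K' k k' e => by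
    rw [im_le_im_iff f (k'.2.trans nV) (k.2.trans nV)] at e
    have e1 : K' ≤ K ⊔ CV L := (le_inf e k'.2).trans ((dedekind k.2 (.inl ((k.2.trans nV).trans (le_normalizer_kr f)))).le.trans
      (sup_le_sup_left (kc inf_le_right inf_le_left) _))
    refine k'.1.le_of_sup (Op_p 2 L) (h.QK k) (k'.1.cm.ge.trans ((commutator_mono e1 le_rfl).trans (commutator_sup_le
      (le_sup_left.trans le_normalizer) (le_normalizer_of_commutator_le (K := K ⊔ Op 2 L) ((commutator_sup_le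
        (k.2.trans nQ) le_normalizer ((commutator_mono (h.KH k) le_rfl).trans h.CH) (commutator_le_left'
          (inf_le_left.trans nQ))).trans le_sup_right) le_rfl) (k.1.cm.le.trans le_sup_left)
      ((h.CP h.pJ h.JL).trans le_sup_right))))
  refine ⟨fun K k => h.p_le (Op_p _ _) (a2 K k), fun K K' k k' => ?_, ?_⟩
  · obtain ⟨B, b1, b2, b3, b4⟩ := a4 K k
    obtain ⟨B', -, c2, -, c4⟩ := a4 K' k'
    have bl := b1.trans h.JL
    refine (u.E_eq_or b2 g c2).imp (fun e => ?_) fun e => ?_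
    · have e' : im f K = im f K' := by rw [b4, c4, ← E_inf b2, ← E_inf c2, e]
      exact le_antisymm (a5 _ _ k' k e'.le) (a5 _ _ k k' e'.ge)
    have e1 := (c4.le.trans le_sup_left).trans e
    have e2 : ∀ {X}, X ≤ L → im f X ≤ Ea 2 (im f (JE 2 L)) (im f B) → ⁅X, K'⁆ ≤ CV L := fun x y =>
      kc (commutator_le_of_le x k'.2) ((im_le_centralizer_iff f (x.trans nV) (k'.2.trans nV)).1
        (le_centralizer_iff'.2 (eq_bot_iff.2 ((commutator_mono y e1).trans (u.E_comm b2 g).le))))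
    refine ⟨(s.cent (k'.2.trans nV) (commutator_le_left' (k.2.trans nV))).1 (e1.trans (inf_le_right.trans (centralizer_anti
      ((hol_comm s (k.2.trans nV)).trans (commutator_mono le_rfl (b4.le.trans le_sup_left)))))), ?_⟩
    have e3 : ⁅⁅K, B⁆, K'⁆ ≤ Op 2 L := three_subgroups (k.2.trans nQ) (bl.trans nQ) (k'.2.trans nQ)
      ((commutator_mono ((le_inf (commutator_le_right' (b1.trans k'.1.nJ)) (e2 bl le_sup_right)).trans ((a3 K' k').trans
        (h.p_le (Op_p _ _) (a2 K' k')))) le_rfl).trans (commutator_le_left' (k.2.trans nQ)))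
      ((commutator_mono (commutator_comm K K' ▸ e2 k.2 (b4.le.trans le_sup_left)) le_rfl).trans (h.CP (h.pJ.to_le b1) bl))
    rw [← k.1.ores_sup (Op_p 2 L) (h.QK k)]
    exact normalizer_Ores (le_normalizer_of_commutator_le (K := ⁅K, B⁆ ⊔ Op 2 L) ((commutator_sup_le
      ((commutator_le_of_le k.2 bl).trans nQ) le_normalizer e3 (commutator_le_left' (k'.2.trans nQ))).trans le_sup_right)
      (sup_le b3 le_sup_right))
  set X := EL (JE 2 T) L ⊔ L ⊓ normalizer (JE 2 T : Set G)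
  have x1 : CV L ≤ X := (le_inf inf_le_left (normalizer_JE h.CN)).trans le_sup_right
  have x2 : X ≤ L := sup_le (EL_le fun _ k => k.2) inf_le_left
  refine (h.syl.frattini_JE hl hn h.syl.JE_le).ge.trans (sup_le ?_ le_sup_right)
  refine (le_inf ((im_le_im_iff f (hl.trans nV) (x2.trans nV)).1 (g _ fun B t => (B_le u t g sP).trans (sup_le ?_ (im_mono f
    (inf_le_left.trans ((le_inf h.syl.le (normalizer_JE le_normalizer)).trans le_sup_right)))))) hl).trans
    ((dedekind x2 (.inl ((x2.trans nV).trans (le_normalizer_kr f)))).le.trans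
      (sup_le le_rfl ((kc inf_le_right inf_le_left).trans x1)))
  have e := im_pre_inf f (t.Q_le.trans ((Op'_le _ _).trans (im_mono f hl)))
  rw [← e]
  refine im_mono f ?_
  have y1 : CV L ≤ pre f ⁅Op' 2 (im f (JE 2 L)), B⁆ ⊓ L :=
    le_inf (inf_le_right.trans (s.kr_f.ge.trans (kr_le_pre f _))) inf_le_left
  rcases mod3 (Op_p 2 L) h.pJ h.QC y1 (inf_le_of_right_le nQ) (h.JL.trans nQ) (normalizer_inf (le_normalizer_pre f
    (h.JL.trans nV) ((im_mono f h.syl.JE_le).trans (nD u t g))) (h.JL.trans le_normalizer)) h.QJ (inf_le_of_right_le nC)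
    (by rw [← card_D u t g, ← e, card_im f (inf_le_of_right_le nV), e, s.kr_f, ← inf_relIndex_right,
      ← inf_relIndex_right (centralizer _), inf_right_comm, inf_eq_right.2 (inf_le_right : _ ⊓ L ≤ L), inf_comm])
    (cop_iff.2 h.sylC.not_dvd) (h.CP h.pJ h.JL) with a | ⟨K, k1, k2, k3⟩
  · refine le_trans (le_inf inf_le_right ?_) le_sup_right
    rw [← h.fu.eq (isP_sup h.pJ (Op_p 2 L) (h.JL.trans nQ)) (sup_le h.JL (Op_le _ _)) le_sup_left]
    exact normalizer_JE (le_normalizer_of_commutator_le (K := JE 2 T ⊔ Op 2 L) ((commutator_sup_le (h.JL.trans nQ)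
      le_normalizer ((commutator_comm _ _).trans_le a) (commutator_le_left' (inf_le_of_right_le nQ))).trans le_sup_right) le_rfl)
  · exact k3.trans (sup_le ((KL.le_EL ⟨k2, k1.trans inf_le_right⟩).trans le_sup_left) x1)


theorem W_eq (k : KL (JE 2 T) L K) : ⁅VZ 2 L, K⁆ = WW K ∧ Nat.card (WW K) = 4 := by
  have o := h.main.1 K k
  have m : Md K (VZ 2 L) := ⟨VZ_elem h.chp, k.2.trans nV, o.trans (h.QC.trans inf_le_right)⟩
  have l := commutator_le_left' m.n
  have m' := m.mono l (le_normalizer_commutator_right _ _)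
  have f : ⁅VZ 2 L, K⁆ ⊓ centralizer (K : Set G) = ⊥ :=
    eq_bot_iff.2 ((k.1.dec m).2.1 ▸ le_inf (inf_le_inf_right _ l) inf_le_left)
  have c := (k.1.four m' f fun e => h.KC k (le_inf k.2 (le_centralizer_iff''.2 e))).1
  have vq := l.trans (h.VQ.trans (OZ_le _ _))
  have w : ⁅VZ 2 L, K⁆ ≤ WW K := by
    have := (k.1.dec m').1
    rw [f, sup_bot_eq] at this
    refine this.ge.trans (commutator_mono (le_OZ m'.el (le_trans (le_inf vq (commutator_le_right' ((h.VQ.trans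
      (OZ_le _ _)).trans (h.QK k)))) (le_Op inf_le_right (normalizer_inf (k.2.trans (le_normalizer_Op _ _)) le_normalizer)
        ((Op_p _ _).to_le inf_le_left))) (le_centralizer_iff.1 m'.c)) le_rfl)
  have c4 := k.1.le4 (h.fu.mono le_sup_right (sup_le k.2 h.JL)) le_sup_left
  exact ⟨eq_of_le_of_card_ge w (c4.trans c), le_antisymm c4 (c.trans (card_le_card_of_le w))⟩

end LS

/-- `J = J(T)` for a Sylow subgroup `T` of `L` with the local hypothesis. -/
def LJ (J L : Subgroup G) : Prop := ∃ T, LS T L ∧ JE 2 T = J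

theorem LS.lj (h : LS T L) : LJ (JE 2 T) L := ⟨T, h, rfl⟩

namespace LJ
variable (h : LJ J L)
include h

theorem fu : Fu J L := let ⟨_, a, b⟩ := h; b ▸ a.fu

theorem gen : L ≤ EL J L ⊔ L ⊓ normalizer (J : Set G) := let ⟨_, a, b⟩ := h; b ▸ a.main.2.2

theorem ex (n : ¬ L ≤ X) (e : L ⊓ normalizer (J : Set G) ≤ X) : ∃ K, KL J L K ∧ ¬ K ≤ X := by
  by_contra! c
  exact n (h.gen.trans (sup_le (EL_le c) e))

variable (k : KL J L K)
include k

theorem jk : JK J K := by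
  obtain ⟨T, a, rfl⟩ := h
  exact ⟨k.1, a.fu.mono le_sup_right (sup_le k.2 a.JL), (a.W_eq k).2⟩

theorem W_eq : ⁅VZ 2 L, K⁆ = WW K := by
  obtain ⟨T, a, rfl⟩ := h
  exact (a.W_eq k).1

theorem W_le : WW K ≤ VZ 2 L := h.W_eq k ▸ commutator_le_left' (k.2.trans LS.nV)

theorem sep (k' : KL J L K') : K = K' ∨ K' ≤ centralizer (WW K : Set G) ∧ K' ≤ normalizer (K : Set G) := by
  obtain ⟨T, a, rfl⟩ := h
  exact (a.W_eq k).1 ▸ a.main.2.1 K K' k k'

theorem nK (k' : KL J L K') : K' ≤ normalizer (K : Set G) := (h.sep k k').elim (fun e => e ▸ le_normalizer) (·.2)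

theorem eq (k' : KL J L K') (e : WW K ⊓ WW K' ≠ ⊥) : K = K' := (h.sep k k').resolve_right fun c =>
  e (eq_bot_iff.2 (k'.1.W_cent ▸ le_inf inf_le_right (inf_le_of_left_le (le_centralizer_iff.1 c.1))))

theorem EK : EL J L ≤ normalizer (K : Set G) := EL_le fun _ k' => h.nK k k'

theorem cjK {g : G} (hg : g ∈ L) : KL J L (cj g K) := by
  have a : ∀ g ∈ L ⊓ normalizer (J : Set G), ∀ K, KL J L K → KL J L (cj g K) := fun g hg K k =>
    ⟨mem_normalizer_iff_cj.1 hg.2 ▸ k.1.cj g, cj_le_of_mem hg.1 k.2⟩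
  obtain ⟨e, he, n, hn, rfl⟩ := (mem_sup_of_le_normalizer' (norm_EL a)).1 (h.gen hg)
  rw [cj_mul, mem_normalizer_iff_cj.1 (h.EK (a n hn K k) he)]
  exact a n hn K k

omit k in
theorem nE : L ≤ normalizer (EL J L : Set G) := norm_EL fun _ hg _ k => h.cjK k hg

theorem sn : SN K L := (SN.of_normal k.le_EL (h.EK k)).trans (SN.of_normal EL_le' h.nE)

theorem mem_norm {g : G} (hg : g ∈ L) (e : WW K ⊓ cj g (WW K) ≠ ⊥) : g ∈ normalizer (K : Set G) :=
  mem_normalizer_iff_cj.2 (h.eq k (h.cjK k hg) (cj_WW g K ▸ e)).symm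

theorem le_norm (hX : X ≤ L) (e : centralizer (X : Set G) ⊓ WW K ≠ ⊥) : X ≤ normalizer (K : Set G) := fun g hg =>
  h.mem_norm k (hX hg) fun c => e (eq_bot_iff.2 (c ▸ le_inf inf_le_right fun w hw => by
    have := conj_mem_cj (g := g) hw.2
    rwa [hw.1 g hg, mul_inv_cancel_right] at this))

end LJ

/-- the global hypothesis. -/
structure ZN (G : Type*) [Group G] : Prop where
  chp : ∀ P : Subgroup G, IsPGroup 2 P → P ≠ ⊥ → Chp 2 (normalizer (P : Set G))
  sol : ∀ N : Subgroup G, IsTwoLocal N → Group.IsSolvable N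
  z : ∀ S : Subgroup G, Syl 2 S ⊤ → centralizer (OZ 2 S : Set G) ≤ normalizer (S : Set G)

theorem zn_of (hL : IsCharacteristicTwoType G) (hN : ∀ N : Subgroup G, IsTwoLocal N → Group.IsSolvable N)
    (hZ : ∀ S : Sylow 2 G, centralizer (omegaCenterOf (S : Subgroup G) : Set G) ≤ normalizer ((S : Subgroup G) : Set G)) :
    ZN G := ⟨fun P a b => chp_iff.1 (hL.2 P a b), hN, fun _ h => let ⟨S, e⟩ := h.exists_sylow_top; e ▸ hZ S⟩

/-- `C_G(O₂(L)) ≤ O₂(L) ≠ 1`. -/
structure CC (L : Subgroup G) : Prop where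
  c : centralizer (Op 2 L : Set G) ≤ Op 2 L
  ne : Op 2 L ≠ ⊥

theorem CC.mono (h : CC L) (h1 : Op 2 L ≤ X) (h2 : X ≤ L) : CC X :=
  have a : Op 2 L ≤ Op 2 X := le_Op h1 (h2.trans (le_normalizer_Op _ _)) (Op_p _ _)
  ⟨(centralizer_anti a).trans (h.c.trans a), fun e => h.ne (eq_bot_iff.2 (e ▸ a))⟩

omit [Finite G] in
theorem tl_of (hP : IsPGroup 2 P) (h : P ≠ ⊥) : IsTwoLocal (normalizer (P : Set G)) := ⟨P, hP, h, rfl⟩

theorem ZN.cc (z : ZN G) (h : IsTwoLocal L) : CC L := by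
  obtain ⟨P, a, b, rfl⟩ := h
  have c : P ≤ Op 2 (normalizer (P : Set G)) := le_Op le_normalizer le_rfl a
  exact ⟨(le_inf ((centralizer_anti c).trans (centralizer_le_normalizer' _)) le_rfl).trans (z.chp P a b),
    fun e => b (eq_bot_iff.2 (e ▸ c))⟩

theorem CC.OZ_le (c : CC L) (hT : Syl 2 T L) (h : T ≤ S) : OZ 2 S ≤ OZ 2 T :=
  le_OZ (OZ_elem _ _) (((OZ_le_centralizer _ _).trans (centralizer_anti (hT.Op_le.trans h))).trans (c.c.trans hT.Op_le))
    ((OZ_le_centralizer _ _).trans (centralizer_anti h))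

theorem ZN.ls (z : ZN G) (c : CC L) (hT : Syl 2 T L) : LS T L := by
  obtain ⟨S, s1, s2⟩ := exists_syl_ge hT.isP le_top
  refine ⟨hT, inf_le_right.trans c.c, isSolvable_of_le (z.sol _ (tl_of (Op_p 2 L) c.ne)) (le_normalizer_Op _ _), ?_⟩
  have := normalizer_inf (inf_le_right.trans ((centralizer_anti (c.OZ_le hT s2)).trans (z.z S s1)))
    (inf_le_left.trans le_normalizer : L ⊓ _ ≤ _)
  rwa [hT.maximal (s1.isP.to_le inf_le_left) inf_le_right (le_inf s2 hT.le)] at this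

theorem ZN.lj (z : ZN G) (c : CC L) (u : Fu J L) : LJ J L := let ⟨T, a, b⟩ := u; ⟨T, z.ls c a, b⟩

theorem JK.W_ne (k : JK J K) : WW K ≠ ⊥ := fun e => by simpa [e] using k.c4

theorem JK.tl (k : JK J K) : IsTwoLocal (normalizer (WW K : Set G)) := tl_of (elem_isP md_WW.el) k.W_ne

theorem ZN.norm_W (z : ZN G) (k : JK J K) (u : Fu J (normalizer (WW K : Set G))) :
    normalizer (K : Set G) = normalizer (WW K : Set G) := le_antisymm (norm_WW le_rfl) fun g hg =>
  (z.lj (z.cc k.tl) u).mem_norm ⟨k.toK1, norm_WW le_normalizer⟩ hg (by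
    rw [mem_normalizer_iff_cj.1 hg, inf_idem]; exact k.W_ne)

theorem ZN.jk_cj (z : ZN G) (k : JK J K) (u : Fu J (normalizer (WW K : Set G))) {g : G}
    (e : cj g J ≤ normalizer (WW K : Set G)) : JK (cj g J) K := by
  obtain ⟨x, x1, x2⟩ := u.conj e
  have := k.cj x
  rwa [x2, mem_normalizer_iff_cj.1 ((z.norm_W k u).ge x1)] at this

theorem ov_iff : L ∈ jOvergroups T ↔ Syl 2 T L ∧ ¬ JE 2 T ≤ Op 2 L ∧ CC L := by
  simp only [jOvergroups, Set.mem_setOf_eq, syl_iff, JE_eq, pCoreOf_eq]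
  exact ⟨fun ⟨a, b, c⟩ => ⟨a, b, c, fun e => b (le_top.trans ((centralizer_anti e.le).trans' (by simp) |>.trans c))⟩,
    fun ⟨a, b, c⟩ => ⟨a, b, c.c⟩⟩

theorem zero_iff (hT : IsPGroup 2 T) :
    K ∈ jComponentsZero T ↔ JK (JE 2 T) K ∧ Fu (JE 2 T) (normalizer (WW K : Set G)) := by
  simp only [jComponentsZero, Set.mem_setOf_eq, jk_iff hT, syl_iff, JE_eq, wOf_eq]
  refine and_congr_right fun k => ?_
  rw [← fu_iff (hT.to_le (JE_le 2 T)) (norm_WW k.nJ)]
  exact forall_congr' fun S => imp.swap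

end H9.JC
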