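import Cfsg.Agent.H9.JC2
import Cfsg.Agent.H9.SPE
import Cfsg.Agent.SE.Br

/-!
H9.JC3: the family `𝒯*(M)` and uniqueness of the maximal 2-local overgroup of a component.
-/

set_option autoImplicit false

namespace H9.JC

open Cfsg Subgroup
open scoped commutatorElement

variable {G : Type*} [Group G] [Finite G] {K K' U V D A B C H J L L' M X Y P Q R S T T' : Subgroup G}

theorem tl_cj (h : IsTwoLocal L) (g : G) : IsTwoLocal (cj g L) :=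
  let ⟨P, a, b, e⟩ := h; ⟨cj g P, isPGroup_cj g a, fun c => b (cj_eq_bot_iff.1 c), by rw [e, cj_normalizer]⟩

theorem ml_cj (h : IsMaximalTwoLocal L) (g : G) : IsMaximalTwoLocal (cj g L) :=
  ⟨tl_cj h.1 g, fun N a b => by rw [← h.2 _ (tl_cj a g⁻¹) (cj_le_iff.1 b), cj_cj_inv]⟩

theorem exists_ml (h : IsTwoLocal L) : ∃ L', IsMaximalTwoLocal L' ∧ L ≤ L' :=
  let ⟨L', a, b⟩ := Finite.exists_le_maximal (p := IsTwoLocal) h
  ⟨L', ⟨b.1, fun _ c d => le_antisymm (b.2 c d) d⟩, a⟩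

omit [Finite G] in
theorem ml_eq (h : IsMaximalTwoLocal L) (hP : IsPGroup 2 P) (h0 : P ≠ ⊥) (n : L ≤ normalizer (P : Set G)) :
    normalizer (P : Set G) = L := h.2 _ (tl_of hP h0) n

theorem st_cj (h : T ∈ straddlingTwoSubgroups M) {g : G} (hg : g ∈ M) : cj g T ∈ straddlingTwoSubgroups M :=
  let ⟨a, b, c, L, d, e, f⟩ := h
  ⟨isPGroup_cj g a, fun x => b (cj_eq_bot_iff.1 x), cj_le_of_mem hg c, cj g L, tl_cj d g, cj_mono g e,
    fun x => f ((cj_le_iff.1 x).trans (mem_normalizer_iff_cj.1 (le_normalizer (inv_mem hg))).le)⟩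

omit [Finite G] in
theorem mea_eq [Finite G] (hA : A ∈ ME 2 T) : maxElemAbelianOrder T = Nat.card A := by
  have : ∀ B ∈ maxElementaryAbelianSubgroups 2 T, Nat.card B = Nat.card A := fun B hB => by
    rw [← MaxF.card_eq (image_ME 2 T ▸ Set.mem_image_of_mem _ hB) hA, card_map_subtype]
  obtain ⟨B, b, -⟩ := (image_ME 2 T).ge hA
  rw [maxElemAbelianOrder, show (fun A : Subgroup T => Nat.card A) '' _ = {Nat.card A} from Set.eq_singleton_iff_unique_mem.2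
    ⟨⟨B, b, this B b⟩, fun _ ⟨C, c, e⟩ => e ▸ this C c⟩, csSup_singleton]

/-- the property of members of `𝒯*(M)` that is used. -/
structure Mx (M T : Subgroup G) : Prop where
  st : T ∈ straddlingTwoSubgroups M
  mx : ∀ T' ∈ straddlingTwoSubgroups M, JE 2 T ≤ T' → JE 2 T' = JE 2 T ∧ Nat.card T' ≤ Nat.card T

theorem mx_of (h : T ∈ maxStraddlingTwoSubgroups M) : Mx M T := ⟨h.1, fun T' a b => by
  obtain ⟨c, d⟩ := h.2 T' a
  obtain ⟨A, hA⟩ := exists_ME 2 T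
  obtain ⟨B, hB⟩ := exists_ME 2 T'
  rw [mea_eq hA, mea_eq hB, JE_eq, JE_eq] at d
  rw [mea_eq hA, mea_eq hB] at c
  obtain ⟨e, f⟩ := d (le_antisymm c (hB.2.2 A ((le_JE hA).trans b) hA.2.1))
  have := eq_of_le_of_card_ge (JE_le_iff.2 fun C hC => le_JE (MaxF.of_card hB ((le_JE hC).trans b) hC.2.1
    (c.trans_eq (MaxF.card_eq hA hC)))) e
  exact ⟨this.symm, f (by rw [this])⟩⟩

theorem exists_mx (h : T ∈ straddlingTwoSubgroups M) : ∃ T, Mx M T := by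
  obtain ⟨T₀, a, b⟩ := Set.exists_max_image (straddlingTwoSubgroups M) (fun T => toLex (maxElemAbelianOrder T,
    toLex (Nat.card (thompsonSubgroupOf 2 T), Nat.card T))) (Set.toFinite _) ⟨T, h⟩
  refine ⟨T₀, mx_of ⟨a, fun T c => ?_⟩⟩
  have := b T c
  simp only [Prod.Lex.toLex_le_toLex] at this
  omega

theorem Mx.cj (h : Mx M T) {g : G} (hg : g ∈ M) : Mx M (cj g T) := ⟨st_cj h.st hg, fun T' a b => by
  obtain ⟨c, d⟩ := h.mx _ (st_cj a (inv_mem hg)) (cj_le_iff.1 ((cj_JE g T).trans_le b))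
  rw [card_cj] at d
  rw [card_cj, ← cj_JE, ← c, cj_JE, cj_cj_inv]
  exact ⟨rfl, d⟩⟩

/-- `M` contains `N(J(S))` for a Sylow 2-subgroup `S`. -/
def MJ (M : Subgroup G) : Prop := ∃ S : Subgroup G, Syl 2 S ⊤ ∧ normalizer (JE 2 S : Set G) ≤ M

theorem MJ.nJ (m : MJ M) (s : Syl 2 S ⊤) (h : S ≤ M) : normalizer (JE 2 S : Set G) ≤ M := by
  obtain ⟨S', a, b⟩ := m
  obtain ⟨g, g1, rfl⟩ := (a.mono ((normalizer_JE le_normalizer).trans b) le_top).conj (s.mono h le_top)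
  rw [← cj_JE, ← cj_normalizer]
  exact cj_le_of_mem g1 b

theorem MJ.ex (m : MJ M) (hT : IsPGroup 2 T) (h : T ≤ M) : ∃ S, Syl 2 S ⊤ ∧ T ≤ S ∧ S ≤ M := by
  obtain ⟨S, a, b⟩ := m
  have c := (normalizer_JE le_normalizer).trans b
  obtain ⟨g, g1, g2⟩ := (a.mono c le_top).exists_le_cj hT h
  exact ⟨_, a.cj_of_mem (le_normalizer_of_normal (mem_top g)), g2, cj_le_of_mem g1 c⟩

theorem eq_of_norm_le (hS : IsPGroup 2 S) (h : T ≤ S) (n : normalizer (T : Set G) ⊓ S ≤ T) : T = S :=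
  by_contra fun e => (lt_normalizer_of_nilpotent hS.isNilpotent (lt_of_le_of_ne h e)).not_ge n

theorem J_ne (hT : IsPGroup 2 T) (h : T ≠ ⊥) : JE 2 T ≠ ⊥ := JE_ne_bot (dvd_card_of_isPGroup hT h)

namespace Mx
variable (m : MJ M) (h : Mx M T)
include h

theorem p : IsPGroup 2 T := h.st.1
theorem pJ : IsPGroup 2 (JE 2 T) := h.p.to_le (JE_le _ _)
theorem ne : JE 2 T ≠ ⊥ := J_ne h.p h.st.2.1

include m

theorem nJ : normalizer (JE 2 T : Set G) ≤ M := by_contra fun c => by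
  obtain ⟨S, a, b, d⟩ := m.ex h.p h.st.2.2.1
  have l : T ≤ normalizer (JE 2 T : Set G) ⊓ S := le_inf (normalizer_JE le_normalizer) b
  have e := eq_of_le_of_card_ge l (h.mx _ ⟨a.isP.to_le inf_le_right, fun e => h.st.2.1 (eq_bot_iff.2 (e ▸ l)),
    inf_le_of_right_le d, _, tl_of h.pJ h.ne, inf_le_left, c⟩ ((JE_le _ _).trans l)).2
  have := eq_of_norm_le a.isP b ((inf_le_inf_right _ (normalizer_JE le_rfl)).trans e.ge)
  exact c (this ▸ m.nJ a d)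

theorem syl (t : IsTwoLocal L) (n : ¬ L ≤ M) (s : Syl 2 T' L) (j : JE 2 T ≤ T') :
    T' ∈ straddlingTwoSubgroups M ∧ JE 2 T' = JE 2 T ∧ Nat.card T' ≤ Nat.card T := by
  have l : JE 2 T ≤ T' ⊓ M := le_inf j ((JE_le _ _).trans h.st.2.2.1)
  have a : T' ⊓ M ∈ straddlingTwoSubgroups M := ⟨s.isP.to_le inf_le_left, fun e => h.ne (eq_bot_iff.2 (e ▸ l)),
    inf_le_right, L, t, inf_le_of_left_le s.le, n⟩
  have b := h.mx _ a l
  rw [eq_of_norm_le s.isP inf_le_left (le_inf inf_le_right (inf_le_of_left_le ((normalizer_JE le_rfl).trans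
    (b.1 ▸ h.nJ m))))] at a b
  exact ⟨a, b⟩

theorem fu (t : IsTwoLocal L) (n : ¬ L ≤ M) (j : JE 2 T ≤ L) : Fu (JE 2 T) L :=
  let ⟨T', a, b⟩ := exists_syl_ge h.pJ j; ⟨T', a, (h.syl m t n a b).2.1⟩

theorem syl' (t : IsTwoLocal L) (n : ¬ L ≤ M) (j : T ≤ L) : Syl 2 T L :=
  let ⟨_, a, b⟩ := exists_syl_ge h.p j
  syl_of_card_le h.p j a (h.syl m t n a ((JE_le _ _).trans b)).2.2

theorem nle (u : Fu (JE 2 T) L) (n : ¬ L ≤ M) : ¬ JE 2 T ≤ Op 2 L := fun e =>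
  n ((u.eq (Op_p 2 L) (Op_le _ _) e ▸ normalizer_JE (le_normalizer_Op 2 L)).trans (h.nJ m))

theorem exK (z : ZN G) (t : IsTwoLocal L) (n : ¬ L ≤ M) (j : JE 2 T ≤ L) : ∃ K, JK (JE 2 T) K ∧ K ≤ L ∧ ¬ K ≤ M :=
  have l := z.lj (z.cc t) (h.fu m t n j)
  let ⟨K, a, b⟩ := l.ex n (inf_le_of_right_le (h.nJ m)); ⟨K, l.jk a, a.2, b⟩

theorem fuW (k : JK (JE 2 T) K) (n : ¬ K ≤ M) : Fu (JE 2 T) (normalizer (WW K : Set G)) :=
  h.fu m k.tl (fun e => n ((norm_WW le_normalizer).trans e)) (norm_WW k.nJ)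

theorem exK' (z : ZN G) : ∃ K, JK (JE 2 T) K ∧ ¬ K ≤ M ∧ Op 2 (K ⊔ T) ≠ ⊥ := by
  obtain ⟨L, a, b, c⟩ := h.st.2.2.2
  obtain ⟨K, d, e, f⟩ := h.exK m z a c ((JE_le _ _).trans b)
  exact ⟨K, d, f, ((z.cc a).mono ((h.syl' m a c b).Op_le.trans le_sup_right) (sup_le e b)).ne⟩

end Mx

theorem out_iff (hT : IsPGroup 2 T) : K ∈ jComponentsOutside M T ↔ (JK (JE 2 T) K ∧
    Fu (JE 2 T) (normalizer (WW K : Set G))) ∧ ¬ K ≤ M ∧ Op 2 (K ⊔ T) ≠ ⊥ := by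
  simp only [jComponentsOutside, Set.mem_setOf_eq, zero_iff hT, pCoreOf_eq]

theorem JK.O_ne (k : JK J K) : Op 2 K ≠ ⊥ := fun e => k.W_ne (eq_bot_iff.2 (e ▸ WW_le.trans (OZ_le _ _)))

/-- a component with its unique maximal 2-local overgroup. -/
structure Gd (T K L : Subgroup G) : Prop where
  jk : JK (JE 2 T) K
  le : K ≤ L
  ml : IsMaximalTwoLocal L
  syl : Syl 2 T L
  un : ∀ L', IsTwoLocal L' → K ≤ L' → JE 2 T ≤ L' → L' ≤ L

theorem Gd.cj (h : Gd T K L) (g : G) : Gd (cj g T) (cj g K) (cj g L) :=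
  ⟨cj_JE (p := 2) g T ▸ h.jk.cj g, cj_mono g h.le, ml_cj h.ml g, h.syl.cj g, fun L' a b c => le_cj_iff.2
    (h.un _ (tl_cj a g⁻¹) (cj_le_iff.1 b) (cj_le_iff.1 ((cj_JE g T).trans_le c)))⟩

theorem Mx.gd (z : ZN G) (m : MJ M) (h : Mx M T) (k : JK (JE 2 T) K) (n : ¬ K ≤ M) (o : Op 2 (K ⊔ T) ≠ ⊥) :
    ∃ L, Gd T K L := by
  obtain ⟨L, a, b⟩ := exists_ml (tl_of (Op_p 2 K) k.O_ne)
  have b := (normalizer_Op le_rfl).trans b
  have lj : ∀ L', IsTwoLocal L' → K ≤ L' → JE 2 T ≤ L' → LJ (JE 2 T) L' := fun L' c d e =>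
    z.lj (z.cc c) (h.fu m c (fun x => n (d.trans x)) e)
  have l := lj L a.1 (le_normalizer.trans b) (k.nJ.trans b)
  have en : ∀ L', LJ (JE 2 T) L' → K ≤ L' → Op 2 (EL (JE 2 T) L') ≠ ⊥ := fun L' c d e => k.O_ne (eq_bot_iff.2 (e ▸
    (SN.of_normal (KL.le_EL ⟨k.toK1, d⟩) (c.EK ⟨k.toK1, d⟩)).Op_le_Op))
  have un : ∀ L', IsTwoLocal L' → K ≤ L' → JE 2 T ≤ L' → L' ≤ L := fun L₀ c d e => by
    obtain ⟨L', c1, c2⟩ := exists_ml c
    have d := d.trans c2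
    have l' := lj L' c1.1 d (e.trans c2)
    have f : ∀ K', KL (JE 2 T) L' K' → KL (JE 2 T) L K' := fun K' k' => ⟨k'.1, (l'.nK ⟨k.toK1, d⟩ k').trans b⟩
    have e1 := ml_eq c1 (Op_p _ _) (en L' l' d) (normalizer_Op l'.nE)
    have e2 : EL (JE 2 T) L' = EL (JE 2 T) L := le_antisymm (EL_le fun K' k' => (f K' k').le_EL) (EL_le fun K' k' =>
      KL.le_EL ⟨k'.1, e1 ▸ normalizer_Op (norm_EL fun g hg K'' k'' => by
        rwa [mem_normalizer_iff_cj.1 (l.nK (f K'' k'') k' hg)])⟩)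
    rw [e2, ml_eq a (Op_p _ _) (en L l (le_normalizer.trans b)) (normalizer_Op l.nE)] at e1
    exact c2.trans e1.ge
  refine ⟨L, k, le_normalizer.trans b, a, h.syl' m a.1 (fun x => n ((le_normalizer.trans b).trans x)) ?_, un⟩
  have c : K ⊔ T ≤ _ := le_normalizer_Op 2 (K ⊔ T)
  exact (le_sup_right.trans c).trans (un _ (tl_of (Op_p _ _) o) (le_sup_left.trans c)
    ((JE_le _ _).trans (le_sup_right.trans c)))

end H9.JC
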