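import Cfsg.Agent.H9.JC3
import Cfsg.Agent.H1.MC

/-!
H9.JC4: the centre of `J(T)` and the pair of minimal parabolics.
-/

set_option autoImplicit false

namespace H9.JC

open Cfsg Subgroup
open scoped commutatorElement

variable {G : Type*} [Group G] [Finite G] {K K' U V D A B C H J L L' M X Y P Q R S T T' : Subgroup G} {d e w x y : G}

omit [Finite G] in
theorem ex1 (h : D ≠ ⊥) : ∃ d ∈ D, d ≠ 1 := by
  by_contra! c
  exact h ((eq_bot_iff_forall _).2 c)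

theorem kl (h : IsElementaryAbelian 2 V) (c : Nat.card V = 4) : IsKleinFour V :=
  H1.isKleinFour_of c fun x hx => (sq x).symm.trans (h.2 x hx)

theorem kl_cent (h : IsKleinFour V) (d1 : d ∈ V) (w1 : w ∈ V) (d2 : d ≠ 1) (w2 : w ≠ 1) (n : d ≠ w)
    (a : x * d * x⁻¹ = d) (b : x * w * x⁻¹ = w) : x ∈ centralizer (V : Set G) := by
  rw [H1.klein_eq_sup h d1 w1 d2 w2 n, centralizer_sup, centralizer_zpowers, centralizer_zpowers]
  exact ⟨mem_centralizer_singleton_iff.2 (mul_inv_eq_iff_eq_mul.1 a), mem_centralizer_singleton_iff.2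
    (mul_inv_eq_iff_eq_mul.1 b)⟩

omit [Finite G] in
theorem cj_ne (h : d ≠ 1) : x * d * x⁻¹ ≠ 1 := by simpa using h

omit [Finite G] in
theorem fix_of (h : w ∈ centralizer (S : Set G)) (hx : x ∈ S) : x * w * x⁻¹ = w := by
  rw [h x hx, mul_inv_cancel_right]

/-- the conjugate of `d` under an element fixing `w` is `d` or `d w`. -/
theorem kl_cj (h : IsKleinFour V) (d1 : d ∈ V) (w1 : w ∈ V) (d2 : d ≠ 1) (w2 : w ≠ 1) (n : d ≠ w)
    (hx : x ∈ normalizer (V : Set G)) (b : x * w * x⁻¹ = w) : x * d * x⁻¹ = d ∨ x * d * x⁻¹ = d * w := by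
  rcases H1.klein_mem h d1 w1 d2 w2 n (conj_mem_of_le_normalizer le_rfl hx d1) with a | a | a | a
  · exact (cj_ne d2 a).elim
  · exact .inl a
  · exact (n (by simpa using a.trans b.symm)).elim
  · exact .inr a

abbrev DD (T K : Subgroup G) : Subgroup G := OZ 2 (JE 2 T) ⊓ Zc (K ⊔ JE 2 T)

theorem ml_norm (z : ZN G) (h : IsMaximalTwoLocal L) : normalizer (L : Set G) ≤ L :=
  (normalizer_Op le_rfl).trans (ml_eq h (Op_p _ _) (z.cc h.1).ne (le_normalizer_Op _ _)).le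

namespace Gd
variable (z : ZN G) (g : Gd T K L)
include g

theorem p : IsPGroup 2 T := g.syl.isP
theorem pJ : IsPGroup 2 (JE 2 T) := g.p.to_le (JE_le _ _)
theorem JL : JE 2 T ≤ L := (JE_le _ _).trans g.syl.le
theorem kl : KL (JE 2 T) L K := ⟨g.jk.toK1, g.le⟩
theorem ZW : Nat.card (OZ 2 (JE 2 T) ⊓ WW K : Subgroup G) = 2 := (g.jk.z0 g.jk.fu g.jk.c4).2.1
theorem WJ : WW K ≤ JE 2 T := (g.jk.z0 g.jk.fu g.jk.c4).1
theorem ZW_ne : OZ 2 (JE 2 T) ⊓ WW K ≠ ⊥ := fun e => by simpa [e] using g.ZW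

theorem cardZ : Nat.card (OZ 2 (JE 2 T)) = 2 * Nat.card (DD T K) := by
  have := card_sup_mul_card_inf (A := DD T K) (B := OZ 2 (JE 2 T) ⊓ WW K)
    (le_normalizer_of_le_comm (OZ_elem _ _).1 inf_le_left inf_le_left)
  rwa [(g.jk.z0 g.jk.fu g.jk.c4).2.2, g.ZW, eq_bot_iff.2 (g.jk.W_cent ▸ le_inf (inf_le_of_right_le inf_le_right)
    (inf_le_of_left_le (inf_le_of_right_le (inf_le_of_right_le (centralizer_anti le_sup_left)))) : _ ⊓ _ ≤ ⊥),
    card_bot, mul_one, mul_comm] at this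

omit g in
theorem le_cd (h : d ∈ DD T K) : K ⊔ JE 2 T ≤ centralizer {d} := le_centralizer_singleton_iff.2 h.2.2

theorem cd (h : d ∈ DD T K) (n : d ≠ 1) : centralizer {d} ≤ L := by
  have e : centralizer {d} ≤ _ := centralizer_zpowers d ▸ centralizer_le_normalizer' (zpowers d)
  exact e.trans (g.un _ (tl_of (isPGroup_zpowers_of_mem (elem_isP (OZ_elem _ _)) h.1) (by simpa using n))
    (le_sup_left.trans ((le_cd h).trans e)) (le_sup_right.trans ((le_cd h).trans e)))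

theorem eqL (g' : Gd T K' L') (h : K' ≤ L) : L = L' := (g.ml.2 _ g'.ml.1 (g'.un L g.ml.1 h g.JL)).symm

theorem cardD (h : D ≤ OZ 2 (JE 2 T)) (e : DD T K ⊓ D = ⊥) : Nat.card D ≤ 2 := by
  have a := card_mul_card_le (DD T K) D
  rw [e, card_bot, one_mul] at a
  exact Nat.le_of_mul_le_mul_left (a.trans ((card_le_card_of_le (sup_le inf_le_left h)).trans_eq
    (g.cardZ.trans (mul_comm _ _)))) Nat.card_pos

theorem two (g' : Gd T K' L') (n : L ≠ L') : DD T K ⊓ DD T K' = ⊥ := (eq_bot_iff_forall _).2 fun _ h =>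
  by_contra fun c => n (g.eqL g' (le_sup_left.trans ((le_cd h.2).trans (g.cd h.1 c))))

theorem mem_c (h : d ∈ DD T K) (n : d ≠ 1) (e : x * d * x⁻¹ = y * d * y⁻¹) (hy : y ∈ L) : x ∈ L :=
  (mul_mem_cancel_left (inv_mem hy)).1 (g.cd h n (mem_centralizer_singleton_iff.2 (by
    rw [mul_assoc, mul_inv_eq_iff_eq_mul.1 e]; group)))

include z

theorem cc : CC L := z.cc g.ml.1
theorem ls : LS T L := z.ls (g.cc z) g.syl
theorem lj : LJ (JE 2 T) L := (g.ls z).lj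

theorem ZZ (h : T ≤ S) : OZ 2 S ≤ OZ 2 (JE 2 T) := ((g.cc z).OZ_le g.syl h).trans (OZ_le_OE 2 T)

theorem mem_of (h : d ∈ DD T K) (n : d ≠ 1) (e : x * d * x⁻¹ ∈ DD T K) : x ∈ L := by
  have a := (le_cd e).trans ((cj_centralizer_singleton x d).ge.trans (cj_mono x (g.cd h n)))
  exact ml_norm z g.ml (mem_normalizer_iff_cj.2 (eq_of_le_of_card_ge (g.un _ (tl_cj g.ml.1 x) (le_sup_left.trans a)
    (le_sup_right.trans a)) (card_cj _ _).ge))

theorem cardD' (h : x ∈ normalizer (OZ 2 (JE 2 T) : Set G)) (n : x ∉ L) : Nat.card (DD T K) ≤ 2 :=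
  card_cj x (DD T K) ▸ g.cardD ((cj_mono x inf_le_left).trans (mem_normalizer_iff_cj.1 h).le) ((eq_bot_iff_forall _).2
    fun _ ⟨a, y, b, c⟩ => by_contra fun e => n (g.mem_of z b (fun f => e (by simpa [f] using c.symm)) (c.symm ▸ a :)))

theorem d_not (s : Syl 2 T ⊤) (n : ¬ T ≤ centralizer (OZ 2 (JE 2 T) : Set G)) (c : Nat.card (OZ 2 (JE 2 T)) = 4)
    (h : d ∈ DD T K) (d2 : d ≠ 1) (w1 : w ∈ OZ 2 T) (w2 : w ≠ 1) : d ≠ w := by
  rintro rfl
  refine g.jk.not_norm g.pJ ((le_centralizer_iff.1 fun u hu => ?_).trans ((z.z T s).trans (normalizer_JE le_rfl)))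
  by_cases u1 : u = 1
  · exact u1 ▸ one_mem _
  by_cases u2 : d = u
  · exact u2 ▸ centralizer_anti le_sup_left h.2.2
  · exact (n fun t ht => kl_cent (JC.kl (OZ_elem _ _) c) h.1 (g.ZZ z le_rfl hu) d2 u1 u2
      (fix_of (OZ_le_centralizer _ _ w1) ht) (fix_of (OZ_le_centralizer _ _ hu) ht)).elim

theorem other (s : Syl 2 T ⊤) (n : ¬ T ≤ centralizer (OZ 2 (JE 2 T) : Set G)) (c : Nat.card (OZ 2 (JE 2 T)) = 4)
    (h : d ∈ DD T K) (d2 : d ≠ 1) (w1 : w ∈ OZ 2 T) (w2 : w ≠ 1) (e1 : e ∈ OZ 2 (JE 2 T)) (e2 : e ≠ 1) (e3 : e ≠ w) :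
    ∃ t ∈ L, t * d * t⁻¹ = e := by
  have k := JC.kl (OZ_elem _ _) c
  have dw := g.d_not z s n c h d2 w1 w2
  have w3 := g.ZZ z le_rfl w1
  obtain ⟨t, t1, t2⟩ := SetLike.not_le_iff_exists.1 n
  have f := fix_of (OZ_le_centralizer _ _ w1) t1
  rcases H1.klein_mem k h.1 w3 d2 w2 dw e1 with a | a | a | a
  · exact (e2 a).elim
  · exact ⟨1, one_mem _, by simp [a]⟩
  · exact (e3 a).elim
  · exact ⟨t, g.syl.le t1, a ▸ (kl_cj k h.1 w3 d2 w2 dw (normalizer_OZ (normalizer_JE le_normalizer) t1) f).resolve_left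
      fun b => t2 (kl_cent k h.1 w3 d2 w2 dw b f)⟩

theorem T_ne : T ≠ ⊥ := fun e => (g.cc z).ne (eq_bot_iff.2 (e ▸ g.syl.Op_le))

theorem small (h : T ≤ S) (hS : IsPGroup 2 S) (c : Nat.card (DD T K) ≤ 2) :
    OZ 2 S = OZ 2 (JE 2 T) ∧ Nat.card (OZ 2 (JE 2 T)) = 2 ∨ DD T K ≠ ⊥ ∧ Nat.card (OZ 2 (JE 2 T)) = 4 := by
  have a := g.cardZ
  have b := Nat.card_pos (α := DD T K)
  by_cases e : Nat.card (DD T K) = 1
  · refine .inl ⟨eq_of_le_of_card_ge (g.ZZ z h) ?_, by omega⟩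
    rw [a, e]
    exact Nat.le_of_dvd Nat.card_pos (dvd_card_of_isPGroup (p := 2) (elem_isP (OZ_elem _ _))
      (OZ_ne_bot hS fun f => g.T_ne z (eq_bot_iff.2 (f ▸ h))))
  · exact .inr ⟨fun f => e (by rw [f, card_bot]), by omega⟩

/-- conclusion for `T` Sylow in `G`. -/
theorem top (s : Syl 2 T ⊤) (c : Nat.card (DD T K) ≤ 2) (h : ¬ T ≤ centralizer (OZ 2 (JE 2 T) : Set G) →
    Nat.card (OZ 2 (JE 2 T)) = 4 → ∀ d ∈ DD T K, d ≠ 1 → ∀ w ∈ OZ 2 T, w ≠ 1 → False) :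
    OZ 2 T = OZ 2 (JE 2 T) ∧ (Nat.card (OZ 2 (JE 2 T)) = 2 ∨ Nat.card (OZ 2 (JE 2 T)) = 4) := by
  refine (g.small z le_rfl g.p c).elim (.imp id .inl) fun ⟨a, b⟩ => ⟨le_antisymm (g.ZZ z le_rfl) (le_OZ (OZ_elem _ _)
    ((OZ_le _ _).trans (JE_le _ _)) (le_centralizer_iff.1 (by_contra fun n => ?_))), .inr b⟩
  obtain ⟨d, d1, d2⟩ := ex1 a
  obtain ⟨w, w1, w2⟩ := ex1 (OZ_ne_bot g.p (g.T_ne z))
  exact h n b d d1 d2 w w1 w2

theorem top1 (s : Syl 2 T ⊤) (h : x ∈ normalizer (OZ 2 (JE 2 T) : Set G)) (n : x ∉ L) :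
    OZ 2 T = OZ 2 (JE 2 T) ∧ (Nat.card (OZ 2 (JE 2 T)) = 2 ∨ Nat.card (OZ 2 (JE 2 T)) = 4) := by
  refine g.top z s (g.cardD' z h n) fun a c d d1 d2 w w1 w2 => n ?_
  have o := fun e => g.other z s a c d1 d2 w1 w2 (e := e)
  have w3 := g.ZZ z le_rfl w1
  by_cases e : x * d * x⁻¹ = w
  · have f : d * w ≠ 1 := fun f => g.d_not z s a c d1 d2 w1 w2 (mul_right_cancel (f.trans
      ((sq w).symm.trans ((OZ_elem _ _).2 w w1)).symm))
    obtain ⟨t, t1, t2⟩ := o _ (mul_mem d1.1 w3) f (by simpa using d2)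
    obtain ⟨u, u1, u2⟩ := o _ (conj_mem_of_le_normalizer le_rfl h (mul_mem d1.1 w3)) (cj_ne f)
      fun c => w2 (by simpa using c.trans e.symm)
    exact (mul_mem_cancel_right t1).1 (g.mem_c d1 d2 (by rw [u2, ← t2]; group) u1)
  · obtain ⟨u, u1, u2⟩ := o _ (conj_mem_of_le_normalizer le_rfl h d1.1) (cj_ne d2) e
    exact g.mem_c d1 d2 u2.symm u1

theorem top2 (s : Syl 2 T ⊤) (g' : Gd T K' L') (n : L ≠ L') :
    OZ 2 T = OZ 2 (JE 2 T) ∧ (Nat.card (OZ 2 (JE 2 T)) = 2 ∨ Nat.card (OZ 2 (JE 2 T)) = 4) := by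
  refine g.top z s (g'.cardD inf_le_left (g'.two g n.symm)) fun a c d d1 d2 w w1 w2 => n (g.eqL g' ?_)
  obtain ⟨e, e1, e2⟩ := ex1 (D := DD T K') fun f => by simpa [f, c] using g'.cardZ
  obtain ⟨t, t1, rfl⟩ := g.other z s a c d1 d2 w1 w2 e1.1 e2 (g'.d_not z s a c e1 e2 w1 w2)
  exact le_sup_left.trans ((le_cd e1).trans ((cj_centralizer_singleton t d).ge.trans (cj_le_of_mem t1 (g.cd d1 d2))))

theorem exx (s : Syl 2 S ⊤) (h : T ≤ S) (n : T ≠ S) : ∃ x ∈ S, x ∈ normalizer (T : Set G) ∧ x ∉ L := by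
  obtain ⟨x, x1, x2⟩ := SetLike.exists_of_lt (lt_normalizer_of_nilpotent s.isP.isNilpotent (lt_of_le_of_ne h n))
  exact ⟨x, x1.2, x1.1, fun e => x2 ((g.syl.maximal (s.isP.to_le inf_le_left) inf_le_right (le_inf h g.syl.le)).le
    ⟨x1.2, e⟩)⟩

theorem low (s : Syl 2 S ⊤) (h : T ≤ S) (n : T ≠ S) :
    OZ 2 S = OZ 2 (JE 2 T) ∧ Nat.card (OZ 2 (JE 2 T)) = 2 ∨ OZ 2 T = OZ 2 (JE 2 T) ∧ Nat.card (OZ 2 (JE 2 T)) = 4 ∧
      centralizer (OZ 2 (JE 2 T) : Set G) ≤ L ∧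
      (centralizer (OZ 2 (JE 2 T) : Set G)).relIndex (normalizer (OZ 2 (JE 2 T) : Set G)) = 2 := by
  obtain ⟨x, x1, x2, x3⟩ := g.exx z s h n
  have x4 := normalizer_OZ (p := 2) (normalizer_JE (p := 2) le_rfl) x2
  refine (g.small z h s.isP (g.cardD' z x4 x3)).imp_right fun ⟨a, c⟩ => ?_
  obtain ⟨d, d1, d2⟩ := ex1 a
  obtain ⟨w, w1, w2⟩ := ex1 (OZ_ne_bot s.isP fun f => g.T_ne z (eq_bot_iff.2 (f ▸ h)))
  have k := JC.kl (OZ_elem _ _) c
  have w3 := g.ZZ z h w1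
  have f := fun t ht => fix_of (x := t) (OZ_le_centralizer _ _ w1) ht
  have xd : x * d * x⁻¹ ≠ d := fun e => x3 (g.mem_c d1 d2 (by simpa using e) (one_mem _))
  have dw : d ≠ w := fun e => xd (e ▸ f x x1)
  have xw := (kl_cj k d1.1 w3 d2 w2 dw x4 (f x x1)).resolve_left xd
  have cl : centralizer (OZ 2 (JE 2 T) : Set G) ≤ L :=
    (centralizer_le (Set.singleton_subset_iff.2 d1.1)).trans (g.cd d1 d2)
  refine ⟨le_antisymm (g.ZZ z le_rfl) (le_OZ (OZ_elem _ _) ((OZ_le _ _).trans (JE_le _ _)) (le_centralizer_iff.1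
    fun t ht => kl_cent k d1.1 w3 d2 w2 dw ((kl_cj k d1.1 w3 d2 w2 dw (normalizer_OZ (normalizer_JE le_normalizer) ht)
      (f t (h ht))).resolve_right fun e => x3 (g.mem_c d1 d2 (xw.trans e.symm) (g.syl.le ht))) (f t (h ht)))), c, cl, ?_⟩
  refine (H1.two_or_six (H1.klein_relIndex_dvd k) (H1.two_dvd_relIndex (normalizer_centralizer le_rfl) x4
    (by simpa using (IsPGroup.iff_orderOf.1 s.isP) ⟨x, x1⟩) fun e => x3 (cl e))).resolve_right fun e => ?_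
  obtain ⟨y, y1, y2, y3⟩ := H1.exists_odd_of_three (Dvd.dvd.trans (by decide : 3 ∣ 6) e.symm.dvd)
  obtain ⟨u, -, u2⟩ := H1.klein_trans k y1 y2 y3 w3 d1.1 w2 d2
  refine n (eq_of_le_of_card_ge h (card_cj u S ▸ g.syl.card_le (isPGroup_cj u s.isP) (le_trans ?_ (g.cd d1 d2))))
  rw [← u2, ← cj_centralizer_singleton]
  exact cj_mono u (le_centralizer_singleton_iff.2 (OZ_le_centralizer _ _ w1))


theorem ccP : CC (K ⊔ T) := (g.cc z).mono (g.syl.Op_le.trans le_sup_right) (sup_le g.le g.syl.le)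

omit z in
theorem sylP : Syl 2 T (K ⊔ T) := g.syl.mono le_sup_right (sup_le g.le g.syl.le)

variable (c : T ≤ centralizer (OZ 2 (JE 2 T) : Set G))
include c

theorem TK : T ≤ normalizer (K : Set G) := (g.lj z).le_norm g.kl g.syl.le fun e => g.ZW_ne
  (eq_bot_iff.2 (e ▸ inf_le_inf_right _ (le_centralizer_iff.1 c)))

theorem i3 : T.relIndex (K ⊔ T) = 3 := by
  have n := g.TK z c
  have s : Syl 2 (T ⊓ K) K := g.sylP.inf_normal le_sup_left (sup_le le_normalizer n)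
  have a := card_sup_mul_card_inf n
  have b := relIndex_mul_card (Op_le 2 K)
  have e := relIndex_mul_card (le_sup_right : T ≤ K ⊔ T)
  rw [(Syl.maximal ⟨Op_le 2 K, Op_p _ _, by rw [g.jk.i3]; decide⟩ s.isP s.le s.Op_le), sup_comm, ← b, g.jk.i3, ← e,
    mul_comm (Nat.card T), mul_right_comm 3] at a
  exact Nat.eq_of_mul_eq_mul_right Nat.card_pos (Nat.eq_of_mul_eq_mul_right Nat.card_pos a)

theorem i2 : (Op 2 (K ⊔ T)).relIndex T = 2 := by
  have n := g.TK z c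
  have o : Op 2 K ≤ Op 2 (K ⊔ T) := (SN.of_normal le_sup_left (sup_le le_normalizer n)).Op_le_Op
  have l := g.sylP.Op_le
  have o' : Op 2 K ≤ T ⊓ CK K := le_inf (o.trans l) (le_CK ((Op_le _ _).trans le_normalizer)
    (commutator_le_left' (le_normalizer_Op _ _)))
  rw [show Op 2 (K ⊔ T) = T ⊓ CK K from le_antisymm (le_inf l (le_CK (l.trans n) ((commutator_le_inf' (l.trans n)
    (le_sup_left.trans (le_normalizer_Op _ _))).trans (le_Op inf_le_right (normalizer_inf (le_sup_left.trans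
      (le_normalizer_Op _ _)) le_normalizer) ((Op_p _ _).to_le inf_le_left))))) (le_Op (inf_le_of_left_le le_sup_right)
    (sup_le (le_normalizer_of_commutator_le (K := T ⊓ CK K) ((comm_CK inf_le_right).trans o') le_rfl)
      (normalizer_inf le_normalizer (norm_CK n))) (g.p.to_le inf_le_left)), inf_comm, inf_relIndex_right]
  have a := g.jk.idx n
  have b : (CK K).relIndex T ≠ 0 := ri_ne
  have e : (CK K).relIndex T ≠ 1 := fun e => g.jk.not_CK ((JE_le _ _).trans (relIndex_eq_one.1 e))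
  omega

theorem i6 : (Op 2 (K ⊔ T)).relIndex (K ⊔ T) = 6 := by
  rw [← relIndex_mul_relIndex _ T _ g.sylP.Op_le le_sup_right, g.i2 z c, g.i3 z c]

omit z in
theorem nc : ¬ K ⊔ T ≤ centralizer (OZ 2 T : Set G) := fun e => g.ZW_ne (eq_bot_iff.2 (g.jk.W_cent ▸ le_inf inf_le_right
  (inf_le_of_left_le ((le_OZ (OZ_elem _ _) ((OZ_le _ _).trans (JE_le _ _)) (le_centralizer_iff.1 c)).trans
    (le_centralizer_iff.1 (le_sup_left.trans e))))))

theorem inf (g' : Gd T K' L') (n : L ≠ L') : (K ⊔ T) ⊓ (K' ⊔ T) = T :=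
  le_antisymm (fun _ hx => by_contra fun e => n (g'.eqL g (le_sup_left.trans ((Am.le_of_prime le_sup_right
    (g.i3 z c ▸ Nat.prime_three) le_sup_right hx.1 hx.2 e).trans (sup_le g'.le g'.syl.le)))).symm)
    (le_inf le_sup_right le_sup_right)

omit z c in
theorem Obot (g' : Gd T K' L') (n : L ≠ L') : Op 2 ((K ⊔ T) ⊔ (K' ⊔ T)) = ⊥ := by_contra fun e =>
  have a := le_normalizer_Op 2 ((K ⊔ T) ⊔ (K' ⊔ T))
  n (g.eqL g' ((le_sup_of_le_right le_sup_left).trans (a.trans (g.un _ (tl_of (Op_p _ _) e)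
    ((le_sup_of_le_left le_sup_left).trans a) ((JE_le _ _).trans ((le_sup_of_le_left le_sup_right).trans a))))))

theorem eqP (a : IsElementaryAbelian 2 (Op 2 (K ⊔ T))) (b : Nat.card (Op 2 (K ⊔ T)) ≤ 8) : L = K ⊔ T := by
  have cc := g.cc z
  have l := sup_le g.le g.syl.le
  have o : Op 2 L ≤ Op 2 (K ⊔ T) := le_Op (g.syl.Op_le.trans le_sup_right) (l.trans (le_normalizer_Op _ _)) (Op_p _ _)
  have q : Op 2 (K ⊔ T) = Op 2 L := le_antisymm ((le_centralizer_of_le_comm a.1 le_rfl o).trans cc.c) o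
  have i6 := g.i6 z c
  rw [q] at a b i6
  have lj := g.lj z
  have wq : ∀ {K'}, KL (JE 2 T) L K' → WW K' ≤ Op 2 L := fun k => (lj.W_le k).trans ((g.ls z).VQ.trans (OZ_le _ _))
  have nW : L ≤ normalizer (WW K : Set G) := norm_WW fun x hx => mem_normalizer_iff_cj.2 (lj.eq g.kl (lj.cjK g.kl hx)
    fun e => by
      have := card_mul_card_le (WW K) (WW (H9.cj x K))
      rw [e, card_bot, g.jk.c4, (lj.jk (lj.cjK g.kl hx)).c4] at this
      have := card_le_card_of_le (sup_le (wq g.kl) (wq (lj.cjK g.kl hx)))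
      omega).symm
  have w := wq g.kl
  have nQ := le_normalizer_Op 2 L
  have cw : L ⊓ centralizer (WW K : Set G) ≤ Op 2 L := by
    refine le_Op inf_le_left (normalizer_inf le_normalizer (normalizer_centralizer nW)) (isPGroup_of_Ores_eq_bot
      (eq_bot_iff.2 (Ores_le_iff.2 fun R r1 r2 => ?_)))
    have cp := copA_of_p (Op_p 2 L) r2
    refine cp.inf_eq_bot ▸ le_inf (le_trans (fun x hx => H1.cent_of_section (elem_isP md_WW.el)
      (r2.coprime_dvd_left (orderOf_dvd_card_of_mem hx)) (r1 hx).2 (nQ (r1 hx).1) fun y hy => ?_) cc.c) le_rfl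
    have y1 := conj_mem_of_le_normalizer nQ (r1 hx).1 hy
    by_cases y2 : y ∈ WW K
    · exact mul_mem (conj_mem_of_le_normalizer nW (r1 hx).1 y2) (inv_mem y2)
    · have i := relIndex_mul_card w
      have j : (WW K).relIndex (Op 2 L) ≠ 1 := fun e => y2 (relIndex_eq_one.1 e hy)
      have := ri_ne (K := WW K) (X := Op 2 L)
      rw [g.jk.c4] at i
      exact Am.mul_mem_two (by omega) y1 (inv_mem hy) (fun e => y2 (by
        simpa [mul_assoc] using conj_mem_of_le_normalizer' nW (r1 hx).1 e)) (by simpa using y2)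
  have i := relIndex_mul_relIndex _ _ _ (g.syl.Op_le.trans le_sup_right) l
  have j : (Op 2 L).relIndex L ≤ 6 := (relIndex_le_of_le_left cw ri_ne).trans (by
    rw [inf_comm, inf_relIndex_right]
    exact (relIndex_le_of_le_right nW ri_ne).trans (Nat.le_of_dvd (by decide)
      (H1.klein_relIndex_dvd (JC.kl md_WW.el g.jk.c4))))
  have := ri_ne (K := K ⊔ T) (X := L)
  rw [i6] at i
  exact le_antisymm (relIndex_eq_one.1 (by omega)) l

end Gd

theorem amal (c1 : Chp 2 A) (c2 : Chp 2 B) (l1 : Am.L3 A B) (l2 : Am.L3 B A) (o : Op 2 (A ⊔ B) = ⊥) :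
    IsElementaryAbelian 2 (Op 2 A) ∧ IsElementaryAbelian 2 (Op 2 B) ∧ ((Nat.card (Op 2 A) = 4 ∧ Nat.card (Op 2 B) = 4 ∧
      Nonempty (A ≃* Equiv.Perm (Fin 4)) ∧ Nonempty (B ≃* Equiv.Perm (Fin 4))) ∨ (Nat.card (Op 2 A) = 8 ∧
      Nat.card (Op 2 B) = 8 ∧ Nonempty (A ≃* Multiplicative (ZMod 2) × Equiv.Perm (Fin 4)) ∧
      Nonempty (B ≃* Multiplicative (ZMod 2) × Equiv.Perm (Fin 4)))) := by
  have inj := (A ⊔ B).subtype_injective
  have m : ∀ {C}, C ≤ A ⊔ B → (C.subgroupOf (A ⊔ B)).map (A ⊔ B).subtype = C := fun h => map_subgroupOf_eq_of_le h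
  have k : ∀ {C D}, C ≤ A ⊔ B → D ≤ A ⊔ B → Chp 2 C → Am.L3 C D → Chp 2 (C.subgroupOf (A ⊔ B)) ∧
      Am.L3 (C.subgroupOf (A ⊔ B)) (D.subgroupOf (A ⊔ B)) := fun {C D} h1 h2 c l => by
    have e : C.subgroupOf (A ⊔ B) ⊓ D.subgroupOf (A ⊔ B) = (C ⊓ D).subgroupOf (A ⊔ B) := rfl
    refine ⟨?_, by rw [e, relIndex_subgroupOf h1, l.i3], by
      rw [e, Op_subgroupOf h1, relIndex_subgroupOf (inf_le_of_left_le h1), l.i2], e ▸ l.pp.comap_subtype, fun f => l.nc ?_⟩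
    · rw [Chp, Op_subgroupOf h1, ← subgroupOf_centralizer ((Op_le _ _).trans h1)]
      exact comap_mono c
    · have := map_mono (f := (A ⊔ B).subtype) f
      rw [m h1, map_centralizer_subtype, map_OZ inj, e, m (inf_le_of_left_le h1)] at this
      exact this.trans inf_le_right
  obtain ⟨a1, a2⟩ := k le_sup_left le_sup_right c1 l1
  obtain ⟨b1, b2⟩ := k le_sup_right le_sup_left c2 l2
  have := (Am.a3_of (by rw [← subgroupOf_sup le_sup_left le_sup_right, subgroupOf_self]) (fun N n1 n2 => eq_bot_iff.2 (by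
    have := le_Op le_top le_normalizer_of_normal (a2.pp.to_le n1)
    rwa [← subgroupOf_self, Op_subgroupOf le_rfl, o, bot_subgroupOf] at this)) a1 b1 a2 b2).main
  have e : ∀ {C}, C ≤ A ⊔ B → (IsElementaryAbelian 2 (Op 2 (C.subgroupOf (A ⊔ B))) ↔ IsElementaryAbelian 2 (Op 2 C)) ∧
      Nat.card (Op 2 (C.subgroupOf (A ⊔ B))) = Nat.card (Op 2 C) := fun h => by
    rw [← elem_map_iff inj, ← card_map_subtype, map_Op_of_injective _ inj, m h]
    exact ⟨.rfl, rfl⟩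
  have f : ∀ {C} {Δ : Type} [Group Δ], C ≤ A ⊔ B → Nonempty (C.subgroupOf (A ⊔ B) ≃* Δ) → Nonempty (C ≃* Δ) :=
    fun h ⟨i⟩ => ⟨(subgroupOfEquivOfLe h).symm.trans i⟩
  rw [(e le_sup_left).1, (e le_sup_left).2, (e le_sup_right).1, (e le_sup_right).2] at this
  exact ⟨this.1, this.2.1, this.2.2.imp (fun h => ⟨h.1, h.2.1, f le_sup_left h.2.2.1, f le_sup_right h.2.2.2⟩)
    fun h => ⟨h.1, h.2.1, f le_sup_left h.2.2.1, f le_sup_right h.2.2.2⟩⟩

end H9.JC
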