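import Cfsg.Agent.H9.Kul
import Cfsg.Agent.S0113
import Cfsg.Agent.S0115

/-!
H9.Kul3: lemmas for Kulakoff's theorem for `p = 2`.
-/

set_option autoImplicit false

namespace H9.Kul

open Subgroup Finset
open scoped commutatorElement

variable {G : Type*} [Group G] [Finite G]

section gen
variable {p : ℕ} [hp : Fact p.Prime]

theorem ker_card {m : ℕ} (hG : Nat.card G = p ^ (m + 1)) {l : Dl G p} (hl : l ≠ 1) : Nat.card l.ker = p ^ m := by
  have := l.ker.card_mul_index
  rw [ker_index hl, hG, pow_succ] at this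
  exact Nat.eq_of_mul_eq_mul_right hp.out.pos this

open Classical in
theorem erase_card [Fintype (Dl G p)] (hP : IsPGroup p G) (hc : ¬ IsCyclic G) :
    ((univ.erase (1 : Dl G p)).card : ZMod (p ^ 2)) = -1 := by
  have := card_erase_add_one (mem_univ (1 : Dl G p))
  obtain ⟨c, hc'⟩ := dl_card hP hc
  rw [card_univ, ← Nat.card_eq_fintype_card, hc'] at this
  have := congrArg (Nat.cast : ℕ → ZMod (p ^ 2)) this
  rw [Nat.cast_add, Nat.cast_mul, ZMod.natCast_self, zero_mul, Nat.cast_one] at this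
  exact eq_neg_of_add_eq_zero_left this

open Classical in
theorem recur [Fintype (Dl G p)] {m k : ℕ} (hG : Nat.card G = p ^ (m + 1)) (hc : ¬ IsCyclic G) (hk : k ≤ m) :
    (k = m → ((sb (⊤ : Subgroup G) (p ^ k)).card : ZMod (p ^ 2)) = 1 + p) ∧
    (k < m → ((sb (⊤ : Subgroup G) (p ^ k)).card : ZMod (p ^ 2)) +
      ∑ l ∈ univ.erase (1 : Dl G p), ((sb l.ker (p ^ k)).card : ZMod (p ^ 2)) = 0) := by
  have hP := IsPGroup.of_card hG
  have dc : ∑ l : Dl G p, (sb l.ker (p ^ k)).card = ∑ K ∈ sb (⊤ : Subgroup G) (p ^ k), Nat.card (Ann p K) := by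
    have e1 : ∀ l : Dl G p, sb l.ker (p ^ k) = (sb (⊤ : Subgroup G) (p ^ k)).filter fun K => l ∈ Ann p K := fun l => by
      ext K
      rw [mem_filter, mem_sb, mem_sb]
      exact ⟨fun h => ⟨⟨le_top, h.2⟩, h.1⟩, fun h => ⟨h.2, h.1.2⟩⟩
    simp only [e1, Nat.card_eq_fintype_card, Fintype.card_subtype, card_filter]
    exact sum_comm
  have hA : ∀ K ∈ sb (⊤ : Subgroup G) (p ^ k), (Nat.card (Ann p K) : ZMod (p ^ 2)) =
      p * if Nat.card (Ann p K) = p then 1 else 0 := fun K hK => by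
    obtain ⟨d, hd⟩ := ann_card hP (K := K) fun h => by
      have := (mem_sb.mp hK).2
      rw [h, card_top, hG] at this; exact absurd (Nat.pow_right_injective hp.out.two_le this) (by omega)
    split_ifs with h
    · rw [h, mul_one]
    · rw [hd] at h ⊢
      cases d with
      | zero => simp at h
      | succ d => rw [Nat.cast_pow, show d + 1 + 1 = 2 + d by omega, pow_add, pp]; simp
  have h3 := congrArg (Nat.cast : ℕ → ZMod (p ^ 2)) dc
  rw [Nat.cast_sum, Nat.cast_sum, sum_congr rfl hA, ← mul_sum, sum_boole, ← add_sum_erase _ _ (mem_univ 1),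
    MonoidHom.ker_one] at h3
  constructor
  · rintro rfl
    have h4 : ∀ l ∈ univ.erase (1 : Dl G p), ((sb l.ker (p ^ k)).card : ZMod (p ^ 2)) = 1 := fun l hl => by
      rw [card_eq_one.mpr ⟨l.ker, ?_⟩, Nat.cast_one]
      ext K
      rw [mem_sb, mem_singleton, ← ker_card hG (mem_erase.mp hl).1]
      exact ⟨fun h => eq_of_le_of_card_ge h.1 h.2.ge, fun h => h ▸ ⟨le_rfl, rfl⟩⟩
    rw [sum_congr rfl h4, sum_const, nsmul_eq_mul, erase_card hP hc,
      filter_true_of_mem fun K hK => ann_max hG (mem_sb.mp hK).2,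
      pm (b := 1) (by rw [sb_one (by rw [card_top, hG]; exact pow_dvd_pow p k.le_succ), Nat.cast_one])] at h3
    linear_combination h3
  · intro hkm
    rw [pm (b := 0) ((e1_zero (k := k) hG hc (by omega)).trans Nat.cast_zero.symm)] at h3
    linear_combination h3

end gen

omit [Finite G] in
theorem ordO {a : G} {r i : ℕ} (ha : orderOf a = 2 ^ (r + 2)) : orderOf (a ^ i) = 2 ^ (r + 1) ↔ i % 4 = 2 := by
  have hf : IsOfFinOrder a := orderOf_pos_iff.mp (by rw [ha]; positivity)
  rw [hf.orderOf_pow, ha]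
  obtain ⟨e, he, h⟩ := (Nat.dvd_prime_pow Nat.prime_two).mp (Nat.gcd_dvd_left (2 ^ (r + 2)) i)
  have h1 := Nat.gcd_dvd_right (2 ^ (r + 2)) i
  have h2 : 2 ∣ i → 2 ^ 1 ∣ Nat.gcd (2 ^ (r + 2)) i := Nat.dvd_gcd (dvd_pow_self 2 (by omega))
  have h4 : 4 ∣ i → 2 ^ 2 ∣ Nat.gcd (2 ^ (r + 2)) i := Nat.dvd_gcd ⟨2 ^ r, by ring⟩
  rw [h] at h1 h2 h4 ⊢
  rw [Nat.pow_dvd_pow_iff_le_right one_lt_two] at h2 h4
  rw [Nat.pow_div he two_pos, Nat.pow_right_inj one_lt_two]
  constructor
  · intro h5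
    obtain rfl : e = 1 := by omega
    omega
  · intro h5
    have : ¬ 2 ≤ e := fun h6 => by
      have := (pow_dvd_pow 2 h6).trans h1
      omega
    omega

theorem ord_sq {y : G} (h : 2 ∣ orderOf y) : orderOf y = 2 * orderOf (y ^ 2) := by
  rw [orderOf_pow, Nat.gcd_eq_right h, Nat.mul_div_cancel' h]

theorem zp_index {a : G} {r : ℕ} (hG : Nat.card G = 2 ^ (r + 1)) (ha : orderOf a = 2 ^ r) : (zpowers a).index = 2 := by
  have := (zpowers a).card_mul_index
  rw [Nat.card_zpowers, ha, hG, pow_succ] at this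
  exact Nat.eq_of_mul_eq_mul_left (by positivity) this

theorem top_of {a y : G} {r : ℕ} (hG : Nat.card G = 2 ^ (r + 1)) (ha : orderOf a = 2 ^ r) (hy : y ∉ zpowers a)
    {X : Subgroup G} (h1 : a ∈ X) (h2 : y ∈ X) : X = ⊤ :=
  (sandwich (p := 2) (zpowers_le.mpr h1) le_top (by rw [Nat.card_zpowers, ha]) (by rw [card_top, hG])).resolve_left
    fun h => hy (h ▸ h2)

theorem L1 {a y : G} {r j : ℕ} (hG : Nat.card G = 2 ^ (r + 3)) (ha : orderOf a = 2 ^ (r + 2)) (hy : y ∉ zpowers a)
    (hj : y * a * y⁻¹ = a ^ (j + 1)) : (commutator G).index = 4 ↔ j % 4 = 2 := by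
  have hc : Commute a (a ^ j) := Commute.self_pow a j
  have hn : (zpowers (a ^ j)).Normal := by
    rw [← normalizer_eq_top_iff]
    refine top_of hG ha hy ?_ ?_
    · exact mem_normalizer_fintype (by
        rintro _ ⟨i, rfl⟩
        rw [(hc.zpow_right i).eq, mul_inv_cancel_right]; exact zpow_mem_zpowers _ i)
    · exact mem_normalizer_fintype (by
        rintro _ ⟨i, rfl⟩
        show y * (a ^ j) ^ i * y⁻¹ ∈ zpowers (a ^ j)
        rw [← conj_zpow, ← conj_pow, hj, ← pow_mul, mul_comm, pow_mul]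
        exact zpow_mem (npow_mem_zpowers _ _) i)
  have e : commutator G = zpowers (a ^ j) := by
    refine le_antisymm ?_ (zpowers_le.mpr ?_)
    · let π := QuotientGroup.mk' (zpowers (a ^ j))
      have h1 : π y * π a = π a * π y := by
        have : π (a ^ j) = 1 := (QuotientGroup.eq_one_iff _).mpr (mem_zpowers _)
        rw [← mul_inv_eq_iff_eq_mul, ← map_inv, ← map_mul, ← map_mul, hj, pow_succ, map_mul, this, one_mul]
      have h2 : ∀ g, π a * π g = π g * π a := fun g => by
        have : (centralizer {π a}).comap π = ⊤ := top_of hG ha hy (mem_centralizer_singleton_iff.mpr rfl)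
          (mem_centralizer_singleton_iff.mpr h1)
        exact (mem_centralizer_singleton_iff.mp (mem_comap.mp (this.ge (mem_top g)))).symm
      have h3 : ∀ g, π y * π g = π g * π y := fun g => by
        have : (centralizer {π y}).comap π = ⊤ := top_of hG ha hy (mem_centralizer_singleton_iff.mpr h1.symm)
          (mem_centralizer_singleton_iff.mpr rfl)
        exact (mem_centralizer_singleton_iff.mp (mem_comap.mp (this.ge (mem_top g)))).symm
      refine commutator_le.mpr fun g _ h _ => (QuotientGroup.eq_one_iff _).mp ?_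
      have : (centralizer {π h}).comap π = ⊤ := top_of hG ha hy (mem_centralizer_singleton_iff.mpr (h2 h))
        (mem_centralizer_singleton_iff.mpr (h3 h))
      show π ⁅g, h⁆ = 1
      rw [map_commutatorElement, commutatorElement_eq_one_iff_mul_comm]
      exact mem_centralizer_singleton_iff.mp (mem_comap.mp (this.ge (mem_top g)))
    · have : a ^ j = ⁅y, a⁆ := by rw [commutatorElement_def, hj, pow_succ, mul_inv_cancel_right]
      rw [this]; exact commutator_mem_commutator (mem_top _) (mem_top _)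
  rw [e, ← ordO ha]
  have := (zpowers (a ^ j)).card_mul_index
  rw [Nat.card_zpowers, hG] at this
  constructor
  · intro h
    have q3 : 2 ^ (r + 3) = 8 * 2 ^ r := by ring
    have q1 : 2 ^ (r + 1) = 2 * 2 ^ r := by ring
    rw [h] at this; omega
  · intro h
    rw [h, show r + 3 = r + 1 + 2 by omega, pow_add 2 (r + 1)] at this
    exact Nat.eq_of_mul_eq_mul_left (by positivity) this

theorem mc_cyc {n : ℕ} (hn : 3 ≤ n) (hG : Nat.card G = 2 ^ n) (hc : ¬ IsCyclic G) (h : (commutator G).index = 4) :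
    IsKleinFour (G ⧸ commutator G) := by
  refine ⟨h, (not_isCyclic_iff_exponent_eq_prime Nat.prime_two h).mp fun hq => ?_⟩
  obtain ⟨g, hg⟩ := isCyclic_iff_exists_zpowers_eq_top.mp hq
  obtain ⟨g, rfl⟩ := QuotientGroup.mk_surjective g
  have h1 := Nat.le_of_dvd Nat.card_pos (dl_card (IsPGroup.of_card hG) hc)
  have h2 : Nat.card (Dl G 2) ≤ 2 := by
    refine (Nat.card_le_card_of_injective (fun l : Dl G 2 => l g) fun a b e => MonoidHom.ext fun x => ?_).trans
      cardM.le
    obtain ⟨i, hi⟩ : (x : G ⧸ commutator G) ∈ zpowers (g : G ⧸ commutator G) := hg ▸ mem_top _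
    have h3 : (g ^ i)⁻¹ * x ∈ commutator G := QuotientGroup.eq.mp hi
    have ha : a ((g ^ i)⁻¹ * x) = 1 := Abelianization.commutator_subset_ker a h3
    have hb : b ((g ^ i)⁻¹ * x) = 1 := Abelianization.commutator_subset_ker b h3
    rw [map_mul, map_inv, inv_mul_eq_one, map_zpow] at ha hb
    rw [← ha, ← hb, show a g = b g from e]
  omega

theorem dbl {A B : Subgroup G} (h : A ≤ B) {x : G} (h1 : x ∈ B) (h2 : x ∉ A) : 2 * Nat.card A ≤ Nat.card B := by
  obtain ⟨c, hc⟩ := card_dvd_of_le h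
  have h3 : c ≠ 1 := by rintro rfl; exact h2 (eq_of_le_of_card_ge h (by omega) ▸ h1)
  have h4 : c ≠ 0 := by rintro rfl; have := Nat.card_pos (α := B); omega
  rw [hc, mul_comm]; exact Nat.mul_le_mul_left _ (by omega)

theorem Bkey {r : ℕ} (hG : Nat.card G = 2 ^ (r + 4)) {c : G} (hc : commutator G = zpowers c)
    (ho : orderOf c = 2 ^ (r + 1)) :
    ∃ W : Subgroup G, W ≠ ⊤ ∧ ∀ M : Subgroup G, Nat.card M = 2 ^ (r + 3) → ((commutator M).index = 4 ↔ ¬ W ≤ M) := by
  have q4 : 2 ^ (r + 4) = 16 * 2 ^ r := by ring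
  have q3 : 2 ^ (r + 3) = 8 * 2 ^ r := by ring
  have q1 : 2 ^ (r + 1) = 2 * 2 ^ r := by ring
  have q0 : 0 < 2 ^ r := by positivity
  have hconj : ∀ g : G, g * c * g⁻¹ ∈ zpowers c := fun g => hc ▸ Subgroup.Normal.conj_mem inferInstance c
    (hc ▸ mem_zpowers c) g
  haveI hD : (zpowers (c ^ 2)).Normal := ⟨by
    rintro _ ⟨i, rfl⟩ g
    obtain ⟨e, he⟩ := hconj g
    show g * (c ^ 2) ^ i * g⁻¹ ∈ zpowers (c ^ 2)
    rw [← conj_zpow, ← conj_pow, ← he]
    refine zpow_mem (mem_zpowers_iff.mpr ⟨e, ?_⟩) i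
    show (c ^ 2) ^ e = (c ^ e) ^ 2
    rw [← zpow_natCast, ← zpow_natCast, ← zpow_mul, ← zpow_mul, mul_comm]⟩
  have hDc : Nat.card (zpowers (c ^ 2)) = 2 ^ r := by
    have := ord_sq (y := c) (ho ▸ dvd_pow_self 2 (by omega))
    rw [Nat.card_zpowers]; omega
  have hCc : Nat.card (commutator G) = 2 ^ (r + 1) := by rw [hc, Nat.card_zpowers, ho]
  have hDle : zpowers (c ^ 2) ≤ commutator G := hc ▸ zpowers_le.mpr (npow_mem_zpowers c 2)
  have hDne : ¬ commutator G ≤ zpowers (c ^ 2) := fun h => by have := card_le_of_le h; omega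
  let π := QuotientGroup.mk' (zpowers (c ^ 2))
  let C : G → Subgroup G := fun x => (centralizer {π x}).comap π
  have hC : ∀ x g, g ∈ C x ↔ ⁅g, x⁆ ∈ zpowers (c ^ 2) := fun x g => by
    rw [← QuotientGroup.eq_one_iff ⁅g, x⁆]
    show π g ∈ centralizer {π x} ↔ π ⁅g, x⁆ = 1
    rw [mem_centralizer_singleton_iff, map_commutatorElement, commutatorElement_eq_one_iff_mul_comm]
  have hsym : ∀ x g, g ∈ C x → x ∈ C g := fun x g h =>
    mem_centralizer_singleton_iff.mpr (mem_centralizer_singleton_iff.mp h).symm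
  have hself : ∀ x, x ∈ C x := fun x => mem_centralizer_singleton_iff.mpr rfl
  have hidx : ∀ x ∈ commutator G, ∀ y ∈ commutator G, x ∉ zpowers (c ^ 2) → y ∉ zpowers (c ^ 2) → π x = π y := by
    have : ∀ x ∈ commutator G, x ∉ zpowers (c ^ 2) → π x = π c := by
      intro x hx h
      rw [hc] at hx
      obtain ⟨i, rfl⟩ := hx
      have e2 : ∀ t : ℤ, c ^ (2 * t) ∈ zpowers (c ^ 2) := fun t => ⟨t, by rw [zpow_mul]; norm_cast⟩
      obtain ⟨t, rfl | rfl⟩ := Int.even_or_odd' i
      · exact absurd (e2 t) h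
      · show π (c ^ (2 * t + 1)) = _
        rw [zpow_add_one, map_mul, show π (c ^ (2 * t)) = 1 from (QuotientGroup.eq_one_iff _).mpr (e2 t), one_mul]
    exact fun x hx y hy h1 h2 => (this x hx h1).trans (this y hy h2).symm
  have hcen : ∀ x ∈ commutator G, ∀ g, x ∈ C g := fun x hx g => by
    by_cases h : x ∈ zpowers (c ^ 2)
    · show π x ∈ centralizer {π g}
      rw [show π x = 1 from (QuotientGroup.eq_one_iff _).mpr h]; exact one_mem _
    · have := hidx _ (Subgroup.Normal.conj_mem inferInstance x hx g) x hx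
        (fun h' => h (by simpa [mul_assoc] using hD.conj_mem' _ h' g)) h
      rw [map_mul, map_mul, map_inv, mul_inv_eq_iff_eq_mul] at this
      exact mem_centralizer_singleton_iff.mpr this.symm
  have hcm : ∀ g h : G, ⁅g, h⁆ ∈ commutator G := fun g h => commutator_mem_commutator (mem_top _) (mem_top _)
  have hi2 : ∀ x, (C x).index ≤ 2 := fun x => by
    by_cases h : C x = ⊤
    · rw [h, index_top]; omega
    obtain ⟨g, hg⟩ : ∃ g, g ∉ C x := by
      by_contra h'; push Not at h'; exact h (eq_top_iff.mpr fun g _ => h' g)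
    refine (index_eq_two_iff_exists_notMem_and.mpr ⟨g, hg, fun b => ?_⟩).le
    refine or_iff_not_imp_right.mpr fun hb => ?_
    rw [← inv_mem_iff, hC] at hb
    rw [hC] at hg
    have := hidx _ (hcm _ _) _ (hcm _ _) hg hb
    show π (b * g) ∈ centralizer {π x}
    rw [map_commutatorElement, map_commutatorElement, commutatorElement_def, commutatorElement_def, map_inv,
      mul_left_inj, inv_inv] at this
    rw [mem_centralizer_singleton_iff, map_mul]
    calc π b * π g * π x = π b * (π g * π x * (π g)⁻¹) * π g := by group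
      _ = π x * (π b * π g) := by rw [this]; group
  obtain ⟨u, v, huv⟩ : ∃ u v, v ∉ C u := by
    by_contra h; push Not at h
    exact hDne (commutator_le.mpr fun g _ x _ => (hC x g).mp (h x g))
  obtain ⟨w, hw, hw'⟩ : ∃ w ∈ C u ⊓ C v, w ∉ commutator G := by
    by_contra h; push Not at h
    have h1 := card_le_of_le (show C u ⊓ C v ≤ commutator G from h)
    have h2 := (C u ⊓ C v).card_mul_index
    have h3 : (C u ⊓ C v).index ≤ 2 * 2 := index_inf_le.trans (Nat.mul_le_mul (hi2 u) (hi2 v))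
    have h4 := Nat.mul_le_mul h1 h3
    rw [h2, hG, hCc] at h4
    omega
  let W : Subgroup G := ⨅ g, C g
  have hW : ∀ x, x ∈ W ↔ ∀ g, x ∈ C g := fun x => mem_iInf
  have hwW : w ∈ W := by
    have a1 := dbl (A := commutator G) (B := C u ⊓ C v ⊓ C w) (fun x hx => ⟨⟨hcen x hx u, hcen x hx v⟩, hcen x hx w⟩)
      ⟨hw, hself w⟩ hw'
    have a2 := dbl (A := C u ⊓ C v ⊓ C w) (B := C u ⊓ C w) (inf_le_inf_right _ inf_le_left)
      ⟨hself u, hsym _ _ hw.1⟩ fun h => huv (hsym _ _ h.1.2)
    have a3 := dbl (A := C u ⊓ C w) (B := C w) inf_le_right (hsym _ _ hw.2) fun h => huv h.1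
    have : C w = ⊤ := eq_top_of_le_card _ (by omega)
    exact (hW w).mpr fun g => hsym _ _ (this ▸ mem_top g)
  have hWc := dbl (A := commutator G) (B := W) (fun x hx => (hW x).mpr (hcen x hx)) hwW hw'
  refine ⟨W, fun h => huv ((hW v).mp (h ▸ mem_top v) u), fun M hM => ?_⟩
  have hM1 := (commutator M).card_mul_index
  rw [← card_map_of_injective M.subtype_injective, map_subtype_commutator, hM] at hM1
  constructor
  · intro h4 hle
    have : ⁅M, M⁆ ≤ zpowers (c ^ 2) := commutator_le.mpr fun g hg x hx => (hC x g).mp (by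
      by_cases hxW : x ∈ W
      · exact hsym _ _ ((hW x).mp hxW g)
      · have b1 := dbl (A := W) (B := C x ⊓ M) (le_inf (iInf_le _ x) hle) ⟨hself x, hx⟩ hxW
        exact ((eq_of_le_of_card_ge (inf_le_right : C x ⊓ M ≤ M) (by omega)).ge hg).1)
    have := card_le_of_le this
    rw [h4] at hM1
    omega
  · intro hle
    obtain ⟨z, hz, hzM⟩ := SetLike.not_le_iff_exists.mp hle
    have tp : ∀ X : Subgroup G, M ≤ X → z ∈ X → X = ⊤ := fun X h1 h2 =>
      (sandwich (p := 2) h1 le_top hM (by rw [card_top, hG])).resolve_left fun h => hzM (h ▸ h2)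
    have h5 : ¬ ⁅M, M⁆ ≤ zpowers (c ^ 2) := fun h => by
      have b1 : ∀ x ∈ M, C x = ⊤ := fun x hx => tp _ (fun g hg => (hC x g).mpr (h (commutator_mem_commutator hg hx)))
        ((hW z).mp hz x)
      have := tp (C u) (fun g hg => hsym _ _ (b1 g hg ▸ mem_top u)) ((hW z).mp hz u)
      exact huv (this ▸ mem_top v)
    have h6 : ⁅M, M⁆ ≤ commutator G := commutator_mono le_top le_top
    obtain ⟨x, hx, hx'⟩ := SetLike.not_le_iff_exists.mp h5
    obtain ⟨i, rfl⟩ := mem_powers_iff_mem_zpowers.mpr (hc ▸ h6 hx)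
    have hodd : Nat.Coprime (orderOf c) i := by
      rw [ho]
      refine Nat.Coprime.pow_left _ ((Nat.coprime_two_left).mpr (Nat.not_even_iff_odd.mp ?_))
      rintro ⟨t, rfl⟩
      exact hx' (by show c ^ (t + t) ∈ _; rw [← two_mul, pow_mul]; exact npow_mem_zpowers _ _)
    have h7 := card_le_of_le (zpowers_le.mpr hx)
    rw [Nat.card_zpowers, hodd.orderOf_pow, ho] at h7
    rw [le_antisymm (hCc ▸ card_le_of_le h6) h7, show r + 3 = r + 1 + 2 by omega, pow_add 2 (r + 1)] at hM1
    exact Nat.eq_of_mul_eq_mul_left (by positivity) hM1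

end H9.Kul
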