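import Cfsg.Agent.H9.Kul3

/-!
H9.Kul4: Kulakoff's theorem for `p = 2`.
-/

set_option autoImplicit false

namespace H9.Kul

open Subgroup Finset
open scoped commutatorElement

variable {G : Type*} [Group G] [Finite G]

theorem two_eq : ∀ x y : Multiplicative (ZMod 2), x ≠ 1 → y ≠ 1 → x = y := by decide

theorem two_sq : ∀ x : Multiplicative (ZMod 2), x * x = 1 := by decide

theorem exists_diff {m : ℕ} (hG : Nat.card G = 2 ^ (m + 1)) {l u : Dl G 2} (hl : l ≠ 1) (hu : u ≠ 1) (h : u ≠ l) :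
    ∃ y, u y = 1 ∧ l y ≠ 1 := by
  by_contra hc
  push Not at hc
  have e : u.ker = l.ker := eq_of_le_of_card_ge hc (by rw [ker_card hG hl, ker_card hG hu])
  refine h (MonoidHom.ext fun x => ?_)
  by_cases hx : u x = 1
  · rw [hx, hc x hx]
  · exact two_eq _ _ hx fun h' => hx (e.ge h')

theorem exists_third (hP : IsPGroup 2 G) (hc : ¬ IsCyclic G) (l : Dl G 2) : ∃ u : Dl G 2, u ≠ 1 ∧ u ≠ l := by
  classical
  by_contra h
  push Not at h
  haveI := Fintype.ofFinite (Dl G 2)
  have h1 := Nat.le_of_dvd Nat.card_pos (dl_card hP hc)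
  have : (univ : Finset (Dl G 2)) ⊆ {1, l} := fun u _ => by
    rw [mem_insert, mem_singleton]; exact or_iff_not_imp_left.mpr (h u)
  have := (card_le_card this).trans card_le_two
  rw [card_univ, ← Nat.card_eq_fintype_card] at this
  omega

theorem two_dvd {m : ℕ} (hG : Nat.card G = 2 ^ m) {y : G} (hy : y ≠ 1) : 2 ∣ orderOf y := by
  obtain ⟨t, -, ht⟩ := (Nat.dvd_prime_pow Nat.prime_two).mp (hG ▸ orderOf_dvd_natCard y)
  rw [ht]
  exact dvd_pow_self 2 (by rintro rfl; exact hy (orderOf_eq_one_iff.mp ht))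

theorem L2 {r s : ℕ} (hG : Nat.card G = 2 ^ (r + 3)) {a y : G} (ha : orderOf a = 2 ^ (r + 2)) (hy : y ∉ zpowers a)
    (hs : y ^ 2 = a ^ s) {M : Subgroup G} (hM : Nat.card M = 2 ^ (r + 2)) (hyM : y ∈ M) :
    IsCyclic M ↔ s % 4 = 2 := by
  have h1 := ord_sq (two_dvd hG (y := y) (by rintro rfl; exact hy (one_mem _)))
  have q2 : 2 ^ (r + 2) = 2 * 2 ^ (r + 1) := by ring
  rw [← ordO ha, ← hs]
  constructor
  · intro hc
    obtain ⟨g, hg⟩ := IsCyclic.exists_monoid_generator (α := M)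
    obtain ⟨i, hi⟩ := hg ⟨y, hyM⟩
    have hi' : (g : G) ^ i = y := congrArg Subtype.val hi
    have ho : orderOf (g : G) = 2 ^ (r + 2) := by
      rw [Subgroup.orderOf_coe, orderOf_eq_card_of_forall_mem_powers hg, hM]
    have hodd : Nat.Coprime (orderOf (g : G)) i := by
      rw [ho]
      refine Nat.Coprime.pow_left _ ((Nat.coprime_two_left).mpr (Nat.not_even_iff_odd.mp ?_))
      rintro ⟨t, rfl⟩
      exact hy (by rw [← hi', pow_add]; exact mul_self_mem_of_index_two (zp_index hG ha) _)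
    have := hodd.orderOf_pow
    rw [hi', ho] at this
    omega
  · intro h
    have : zpowers y = M := eq_of_le_of_card_ge (zpowers_le.mpr hyM) (by rw [Nat.card_zpowers]; omega)
    rw [← this]; infer_instance

theorem L3 {r j : ℕ} {a y : G} (ha : orderOf a = 2 ^ (r + 3)) (hy : y ∉ zpowers a)
    (hj : y * a * y⁻¹ = a ^ (j + 1)) {M : Subgroup G} (hM : Nat.card M = 2 ^ (r + 3)) (hyM : y ∈ M)
    (haM : a ^ 2 ∈ M) : (commutator M).index = 4 ↔ j % 4 = 2 := by
  refine L1 (a := ⟨a ^ 2, haM⟩) (y := ⟨y, hyM⟩) hM ?_ ?_ (Subtype.ext ?_)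
  · have := ord_sq (y := a) (ha ▸ dvd_pow_self 2 (by omega))
    have q : 2 ^ (r + 3) = 2 * 2 ^ (r + 2) := by ring
    rw [← Subgroup.orderOf_coe]
    show orderOf (a ^ 2) = _
    omega
  · rintro ⟨i, hi⟩
    have : (a ^ 2) ^ i = y := congrArg Subtype.val hi
    exact hy (this ▸ zpow_mem (npow_mem_zpowers a 2) i)
  · show y * a ^ 2 * y⁻¹ = (a ^ 2) ^ (j + 1)
    rw [← conj_pow, hj, ← pow_mul, ← pow_mul, mul_comm]

open Classical in
theorem mc_even [Fintype (Dl G 2)] {r : ℕ} (hG : Nat.card G = 2 ^ (r + 4)) (hc : ¬ IsCyclic G)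
    (hmc : (commutator G).index ≠ 4) (hn : ∀ l : Dl G 2, l ≠ 1 → ¬ IsCyclic l.ker) :
    ((((univ.erase (1 : Dl G 2)).filter fun l => (commutator l.ker).index = 4).card : ℕ) : ZMod 2) = (0 : ℕ) := by
  have hP := IsPGroup.of_card hG
  by_cases h : ((univ.erase (1 : Dl G 2)).filter fun l : Dl G 2 => (commutator l.ker).index = 4) = ∅
  · rw [h]; simp
  obtain ⟨l, hl⟩ := nonempty_iff_ne_empty.mpr h
  rw [mem_filter, mem_erase] at hl
  have hM := ker_card hG hl.1.1
  have q4 : 2 ^ (r + 4) = 16 * 2 ^ r := by ring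
  have q3 : 2 ^ (r + 3) = 8 * 2 ^ r := by ring
  have q1 : 2 ^ (r + 1) = 2 * 2 ^ r := by ring
  have q0 : 0 < 2 ^ r := by positivity
  obtain ⟨C, hC, hCi⟩ := Cfsg.Agent.S0113.result (r + 3) (by omega) hM
    ((Cfsg.Agent.S0115.result (r + 3) (by omega) hM).mpr (mc_cyc (by omega) hM (hn l hl.1.1) hl.2))
  have hle : commutator l.ker ≤ C := commutator_le.mpr fun g _ x _ => by
    rw [commutatorElement_def, mul_mem_iff_of_index_two hCi, mul_mem_iff_of_index_two hCi,
      mul_mem_iff_of_index_two hCi, inv_mem_iff, inv_mem_iff]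
    tauto
  haveI := Subgroup.isCyclic_of_le hle
  have hM1 := (commutator l.ker).card_mul_index
  rw [hl.2, hM, ← card_map_of_injective l.ker.subtype_injective, map_subtype_commutator] at hM1
  have h6 : ⁅l.ker, l.ker⁆ ≤ commutator G := commutator_mono le_top le_top
  have e : ⁅l.ker, l.ker⁆ = commutator G := by
    by_contra hne
    obtain ⟨x, hx, hx'⟩ := SetLike.exists_of_lt (lt_of_le_of_ne h6 hne)
    have a1 := dbl h6 hx hx'
    obtain ⟨u, hu, hul⟩ := exists_third hP hc l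
    obtain ⟨y, hy, hy'⟩ := exists_diff hG hu hl.1.1 hul.symm
    have a2 := dbl (A := commutator G) (B := l.ker) (Abelianization.commutator_subset_ker l) hy
      fun h => hy' (Abelianization.commutator_subset_ker u h)
    have a3 := (commutator G).card_mul_index
    rw [show Nat.card (commutator G) = 4 * 2 ^ r by omega, hG, q4, show 16 * 2 ^ r = 4 * 2 ^ r * 4 by ring] at a3
    exact hmc (Nat.eq_of_mul_eq_mul_left (by omega) a3)
  have hcy : IsCyclic (commutator G) := by
    rw [← e, ← map_subtype_commutator]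
    exact isCyclic_of_surjective _ ((commutator l.ker).equivMapOfInjective _ l.ker.subtype_injective).surjective
  obtain ⟨c, hc'⟩ := (Subgroup.isCyclic_iff_exists_zpowers_eq_top _).mp hcy
  obtain ⟨W, hW, hW'⟩ := Bkey hG hc'.symm (by rw [← Nat.card_zpowers, hc', ← e]; omega)
  obtain ⟨d, hd⟩ := ann_card hP hW
  have e' : (univ.erase (1 : Dl G 2)).filter (fun l => (commutator l.ker).index = 4) =
      univ.filter fun l => ¬ l ∈ Ann 2 W := by
    ext l
    rw [mem_filter, mem_filter, mem_erase]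
    exact ⟨fun h => ⟨mem_univ _, (hW' _ (ker_card hG h.1.1)).mp h.2⟩, fun h => by
      have h1 : l ≠ 1 := by rintro rfl; exact h.2 (one_mem _)
      exact ⟨⟨h1, mem_univ _⟩, (hW' _ (ker_card hG h1)).mpr h.2⟩⟩
  have h3 := card_filter_add_card_filter_not (s := (univ : Finset (Dl G 2))) (· ∈ Ann 2 W)
  rw [← Fintype.card_subtype, ← Nat.card_eq_fintype_card, hd, card_univ, ← Nat.card_eq_fintype_card] at h3
  obtain ⟨b, hb⟩ := dl_card hP hc
  rw [e', ZMod.natCast_eq_natCast_iff]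
  unfold Nat.ModEq
  rw [pow_succ] at h3
  omega

universe u

open Classical in
theorem kul2 (m : ℕ) : ∀ (G : Type u) [Group G] [Finite G], Nat.card G = 2 ^ m → ¬ IsCyclic G →
    ∀ k, 1 ≤ k → k < m → ((sb (⊤ : Subgroup G) (2 ^ k)).card : ZMod (2 ^ 2)) =
      if k + 2 ≤ m ∧ (commutator G).index = 4 then 1 else 3 := by
  induction m with
  | zero => intro G _ _ _ _ k _ h; omega
  | succ m ih =>
  intro G _ _ hG hc k hk1 hk
  haveI := Fintype.ofFinite (Dl G 2)
  have hP := IsPGroup.of_card hG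
  have h4 : (4 : ZMod (2 ^ 2)) = 0 := by decide
  obtain ⟨r1, r2⟩ := recur hG hc (show k ≤ m by omega)
  rcases (show k = m ∨ k < m by omega) with hkm | hkm
  · rw [r1 hkm, if_neg (by omega)]; norm_num
  have r3 := r2 hkm
  have hv : ∀ l : Dl G 2, l ≠ 1 → ((sb l.ker (2 ^ k)).card : ZMod (2 ^ 2)) =
      if IsCyclic l.ker then 1 else if k + 2 ≤ m ∧ (commutator l.ker).index = 4 then 1 else 3 := fun l hl => by
    have h5 := ker_card hG hl
    by_cases h : IsCyclic l.ker
    · rw [if_pos h, sb_cyc h (by rw [h5]; exact pow_dvd_pow 2 hkm.le)]; simp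
    · rw [if_neg h, sb_card, ← sb_top, ih _ h5 h k hk1 hkm]
  obtain ⟨r, rfl⟩ : ∃ r, m = r + 2 := ⟨m - 2, by omega⟩
  by_cases hex : ∃ l : Dl G 2, l ≠ 1 ∧ IsCyclic l.ker
  · obtain ⟨l, hl, hlc⟩ := hex
    obtain ⟨a, haz⟩ := (Subgroup.isCyclic_iff_exists_zpowers_eq_top _).mp hlc
    have ha : orderOf a = 2 ^ (r + 2) := by rw [← Nat.card_zpowers, haz, ker_card hG hl]
    have hla : l a = 1 := haz.le (mem_zpowers a)
    obtain ⟨u, hu, hul⟩ := exists_third hP hc l
    obtain ⟨y, huy, hly⟩ := exists_diff hG hl hu hul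
    have hy : y ∉ zpowers a := fun h => hly (haz.le h)
    have hna : ∀ w : Dl G 2, w ≠ 1 → w ≠ l → w a ≠ 1 := fun w h1 h2 h3 => by
      obtain ⟨x, hx, hx'⟩ := exists_diff hG h1 hl h2.symm
      exact hx' ((zpowers_le.mpr h3 : zpowers a ≤ w.ker) (haz.ge hx))
    have hul1 : u * l ≠ 1 := fun h => hly (by simpa [huy] using DFunLike.congr_fun h y)
    have hul2 : u * l ≠ l := fun h => hu (mul_eq_right.mp h)
    have hul3 : u ≠ u * l := fun h => hl (left_eq_mul.mp h)
    have hset : univ.erase (1 : Dl G 2) = {l, u, u * l} := by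
      ext w
      simp only [mem_erase, mem_univ, and_true, mem_insert, mem_singleton]
      refine ⟨fun h => or_iff_not_imp_left.mpr fun h' => ?_, by rintro (rfl | rfl | rfl) <;> assumption⟩
      have h7 := two_eq _ _ (hna w h h') (hna u hu hul)
      by_cases hw : w y = 1
      · exact Or.inl (MonoidHom.eq_of_eqOn_top fun x _ =>
          (top_of hG ha hy (X := w.eqLocus u) h7 (hw.trans huy.symm)).ge (mem_top x))
      · refine Or.inr (MonoidHom.eq_of_eqOn_top fun x _ =>
          (top_of hG ha hy (X := w.eqLocus (u * l)) ?_ ?_).ge (mem_top x))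
        · show w a = u a * l a
          rw [hla, mul_one, h7]
        · show w y = u y * l y
          rw [huy, one_mul]; exact two_eq _ _ hw hly
    obtain ⟨i, hi⟩ := mem_powers_iff_mem_zpowers.mpr (haz.ge (l.normal_ker.conj_mem a hla y))
    obtain ⟨s, hs⟩ := mem_powers_iff_mem_zpowers.mpr (haz.ge (show y ^ 2 ∈ l.ker by
      rw [MonoidHom.mem_ker, map_pow, sq, two_sq]))
    have hi : a ^ i = y * a * y⁻¹ := hi
    have hs : a ^ s = y ^ 2 := hs
    have q3 : 2 ^ (r + 2 + 1) = 2 * 2 ^ (r + 2) := by ring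
    have hio : i % 2 = 1 := by
      by_contra h
      obtain ⟨t, rfl⟩ : ∃ t, i = 2 * t := ⟨i / 2, by omega⟩
      have h1 : u (a ^ (2 * t)) = 1 := by rw [pow_mul, map_pow, map_pow, sq, two_sq, one_pow]
      rw [hi, map_mul, map_mul, map_inv, huy, one_mul, inv_one, mul_one] at h1
      exact hna u hu hul h1
    have hse : s % 2 = 0 := by
      by_contra h
      obtain ⟨t, rfl⟩ : ∃ t, s = 2 * t + 1 := ⟨s / 2, by omega⟩
      have h1 : u (y ^ 2) = 1 := by rw [map_pow, sq, two_sq]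
      rw [← hs, pow_succ, pow_mul, map_mul, map_pow, map_pow, sq, two_sq, one_pow, one_mul] at h1
      exact hna u hu hul h1
    obtain ⟨j, rfl⟩ : ∃ j, i = j + 1 := ⟨i - 1, by omega⟩
    have hy2 : a * y ∉ zpowers a := fun h => hy ((mul_mem_cancel_left (mem_zpowers a)).mp h)
    have hm2 : a * y ∈ (u * l).ker := by
      rw [MonoidHom.mem_ker, MonoidHom.mul_apply, map_mul, map_mul, huy, hla, mul_one, one_mul,
        two_eq _ _ (hna u hu hul) hly, two_sq]
    have hs2 : (a * y) ^ 2 = a ^ (1 + (j + 1) + s) := by rw [pow_add, pow_add, hi, hs, sq, sq]; group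
    have hi2 : a * y * a * (a * y)⁻¹ = a ^ (j + 1) := by
      calc a * y * a * (a * y)⁻¹ = a * (y * a * y⁻¹) * a⁻¹ := by group
        _ = _ := by rw [← hi]; group
    have sqk : ∀ w : Dl G 2, a ^ 2 ∈ w.ker := fun w => by rw [MonoidHom.mem_ker, map_pow, sq, two_sq]
    have c1 := L2 hG ha hy hs.symm (ker_card hG hu) huy
    have c2 := L2 hG ha hy2 hs2 (ker_card hG hul1) hm2
    have d1 : (k + 2 ≤ r + 2 ∧ (commutator u.ker).index = 4) ↔ (k + 2 ≤ r + 2 ∧ j % 4 = 2) :=
      and_congr_right fun h => by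
        obtain ⟨r', rfl⟩ : ∃ r', r = r' + 1 := ⟨r - 1, by omega⟩
        exact L3 ha hy hi.symm (ker_card hG hu) huy (sqk u)
    have d2 : (k + 2 ≤ r + 2 ∧ (commutator (u * l).ker).index = 4) ↔ (k + 2 ≤ r + 2 ∧ j % 4 = 2) :=
      and_congr_right fun h => by
        obtain ⟨r', rfl⟩ : ∃ r', r = r' + 1 := ⟨r - 1, by omega⟩
        exact L3 ha hy2 hi2 (ker_card hG hul1) hm2 (sqk _)
    rw [hset, sum_insert (by simp [hul.symm, hul2.symm]), sum_pair hul3, hv l hl, hv u hu, hv _ hul1, if_pos hlc,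
      if_congr c1 rfl (if_congr d1 rfl rfl), if_congr c2 rfl (if_congr d2 rfl rfl)] at r3
    rw [if_congr (and_congr_right fun _ => L1 hG ha hy hi.symm) rfl rfl]
    split_ifs at r3 ⊢ <;> first | omega | linear_combination r3 - h4 | linear_combination r3 - 2 * h4
  · push Not at hex
    have hmc : (commutator G).index ≠ 4 := fun h => by
      obtain ⟨C, hC, hCi⟩ := Cfsg.Agent.S0113.result (r + 3) (by omega) hG
        ((Cfsg.Agent.S0115.result (r + 3) (by omega) hG).mpr (mc_cyc (by omega) hG hc h))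
      obtain ⟨d, hd⟩ := ann_card hP (K := C) (by rintro rfl; simp at hCi)
      haveI : Nontrivial (Ann 2 C) := Finite.one_lt_card_iff_nontrivial.mp (by
        rw [hd]; exact Nat.one_lt_pow (by omega) one_lt_two)
      obtain ⟨⟨l, hl⟩, hl1⟩ := exists_ne (1 : Ann 2 C)
      have hl2 : l ≠ 1 := fun h => hl1 (Subtype.ext h)
      have h8 := C.card_mul_index
      have h9 := ker_card hG hl2
      have q3 : 2 ^ (r + 2 + 1) = 2 * 2 ^ (r + 2) := by ring
      rw [hCi, hG] at h8
      exact hex l hl2 (eq_of_le_of_card_ge (show C ≤ l.ker from hl) (by omega) ▸ hC)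
    rw [if_neg fun h => hmc h.2]
    have hv' : ∀ l ∈ univ.erase (1 : Dl G 2), ((sb l.ker (2 ^ k)).card : ZMod (2 ^ 2)) =
        3 - ((2 : ℕ) : ZMod (2 ^ 2)) * if k + 2 ≤ r + 2 ∧ (commutator l.ker).index = 4 then 1 else 0 := fun l hl => by
      rw [hv l (mem_erase.mp hl).1, if_neg (hex l (mem_erase.mp hl).1)]
      split_ifs <;> norm_num
    rw [sum_congr rfl hv', sum_sub_distrib, sum_const, nsmul_eq_mul, erase_card hP hc, ← mul_sum, sum_boole] at r3
    by_cases hkr : k + 2 ≤ r + 2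
    · obtain ⟨r', rfl⟩ : ∃ r', r = r' + 1 := ⟨r - 1, by omega⟩
      simp only [hkr, true_and] at r3
      rw [pm (mc_even hG hc hmc hex)] at r3
      linear_combination r3
    · simp only [hkr, false_and, filter_false, card_empty] at r3
      linear_combination r3

end H9.Kul
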