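import Cfsg.Agent.H9.FF2
import Cfsg.Agent.H9.CD
import Cfsg.Agent.H5.SL2

/-!
H9.PU1: the rank one pushing-up situation.
-/

set_option autoImplicit false
set_option linter.unusedSectionVars false

namespace H9.PU

open Cfsg Subgroup OnePoint
open scoped commutatorElement

variable {G : Type*} [Group G] [Finite G] {p : ℕ} [hp : Fact p.Prime] {S : Subgroup G}

/-- what is used of `G/K ≅ PSL₂(q)` -/
structure R1 (p : ℕ) (S : Subgroup G) : Prop where
  syl : Syl p S ⊤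
  cons : centralizer (Op p (⊤ : Subgroup G) : Set G) ≤ Op p ⊤
  nle : ¬ S ≤ Op p ⊤
  ab : ∀ a ∈ S, ∀ b ∈ S, a⁻¹ * (b * a * b⁻¹) ∈ Op p ⊤
  ex : ∀ s ∈ S, s ^ p ∈ Op p ⊤
  gen : ∃ S', Syl p S' ⊤ ∧ ∀ a ∈ S, a ∉ Op p ⊤ → S' ⊔ cj a S' = ⊤
  irr : ∀ b ∈ S, b ∉ Op p ⊤ → ∀ H, Op p ⊤ ≤ H → (∀ n ∈ normalizer (S : Set G), n * b * n⁻¹ ∈ H) → S ≤ H

section
open H5
variable {F : Type} [Field F] [Fintype F] [CharP F p]

theorem mv {u h : PG F} (hu : u ∈ UP (∞ : OnePoint F)) (h1 : u ≠ 1) (hh : h • (∞ : OnePoint F) ≠ ∞) :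
    (h * u * h⁻¹) • (∞ : OnePoint F) ≠ ∞ := fun e => hh (by
  rw [mul_smul, mul_smul, smul_eq_iff_eq_inv_smul] at e
  have := fix_eq_of_UP hu h1 e
  rw [inv_smul_eq_iff] at this
  exact this.symm)

theorem sq_span (A : AddSubgroup F) {t : F} (ht : t ≠ 0) (h : ∀ c : F, c ≠ 0 → c ^ 2 * t ∈ A) (x : F) : x ∈ A := by
  have k : ∀ c : F, c ^ 2 * t ∈ A := fun c => by
    by_cases e : c = 0
    · simp [e]
    · exact h c e
  by_cases h2 : (2 : F) = 0
  · haveI : CharP F 2 := CharTwo.of_one_ne_zero_of_two_eq_zero one_ne_zero h2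
    obtain ⟨c, hc⟩ := FiniteField.isSquare_of_char_two (ringChar.eq F 2) (x / t)
    convert k c using 1
    rw [sq, ← hc, div_mul_cancel₀ _ ht]
  · convert A.sub_mem (A.sub_mem (k (x / (2 * t) + 1)) (k (x / (2 * t)))) (k 1) using 1
    field_simp
    ring

theorem r1_aux (hS : Syl p S ⊤) (hc : centralizer (Op p (⊤ : Subgroup G) : Set G) ≤ Op p ⊤) {M : Subgroup G}
    (hM : M ≠ ⊤) (um : ∀ H, S ≤ H → H ≠ ⊤ → H ≤ M) (f : G →* PG F) (hr : f.range = PS F)
    (hU : S.map f ≤ UP (∞ : OnePoint F)) : R1 p S := by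
  have e : UP (∞ : OnePoint F) = S.map f :=
    (hS.map f).maximal (isPGroup_UP p _) (by rw [← MonoidHom.range_eq_map, hr]; exact UP_le_PS _) hU
  have mU : ∀ s ∈ S, f s ∈ UP (∞ : OnePoint F) := fun s hs => hU (mem_map_of_mem f hs)
  obtain ⟨g, hg⟩ : ∃ g, f g • (∞ : OnePoint F) ≠ ∞ := by
    by_contra c
    push Not at c
    obtain ⟨x, hx⟩ := exists_smul_infty ((0 : F) : OnePoint F)
    obtain ⟨u, hu, u1⟩ := exists_UP_ne_one (∞ : OnePoint F)
    obtain ⟨y, hy⟩ := hr.ge (Normal.conj_mem inferInstance u (UP_le_PS _ hu) x)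
    exact mv hu u1 (hx ▸ coe_ne_infty _) (hy ▸ c y)
  have sk : ∀ h ∈ S ⊔ f.ker, f h ∈ UP (∞ : OnePoint F) := fun h hh =>
    (sup_le (map_le_iff_le_comap.1 hU) fun k hk => mem_comap.2 (by rw [hk]; exact one_mem _) :
      S ⊔ f.ker ≤ (UP (∞ : OnePoint F)).comap f) hh
  have kM : f.ker ≤ M := le_sup_right.trans (um (S ⊔ f.ker) le_sup_left fun c =>
    hg (UP_le _ (sk g (c ▸ mem_top g))))
  have key : ∀ H, S ≤ H → PS F ≤ H.map f → H = ⊤ := fun H h1 h2 => by_contra fun c => hM (top_le_iff.1 fun x _ => by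
    have : x ∈ (H.map f).comap f := h2 (hr.le ⟨x, rfl⟩)
    rw [comap_map_eq] at this
    exact sup_le (um H h1 c) kM this)
  have q1 : ∀ x ∈ Op p (⊤ : Subgroup G), f x = 1 := fun x hx => by_contra fun c =>
    mv (mU x (hS.Op_le hx)) c hg (by
      simpa using UP_le _ (mU _ (hS.Op_le (Normal.conj_mem inferInstance x hx g))))
  have q2 : ∀ x ∈ S, f x = 1 → x ∈ Op p (⊤ : Subgroup G) := fun x hx h => by
    have a := (hS.inf_normal (N := f.ker) le_top (le_normalizer_of_normal)).frattini le_top le_normalizer_of_normal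
    have b : normalizer ((S ⊓ f.ker : Subgroup G) : Set G) = ⊤ := by_contra fun c => hM (top_le_iff.1 (a.ge.trans
      (sup_le kM (inf_le_right.trans (um _ (normalizer_inf le_normalizer le_normalizer_of_normal) c)))))
    exact le_Op le_top b.ge (hS.isP.to_le inf_le_left) (⟨hx, h⟩ : x ∈ S ⊓ f.ker)
  obtain ⟨u, hu, u1⟩ := exists_UP_ne_one (∞ : OnePoint F)
  obtain ⟨s, hs, rfl⟩ := e.le hu
  refine ⟨hS, hc, fun c => u1 (q1 s (c hs)), fun a ha b hb => q2 _
    (S.mul_mem (S.inv_mem ha) (S.mul_mem (S.mul_mem hb ha) (S.inv_mem hb))) (by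
      simp only [map_mul, map_inv]; rw [UP_comm (mU b hb) (mU a ha)]; group),
    fun a ha => q2 _ (S.pow_mem ha _) (by rw [map_pow, pow_char_UP p (mU a ha)]),
    ⟨cj g⁻¹ S, hS.cj_of_mem (le_normalizer (mem_top _)), fun a ha h => ?_⟩, fun b hb h H h1 h2 => ?_⟩
  · have := key (S ⊔ cj (g * a * g⁻¹) S) le_sup_left (PS_le (fun b => map_mono le_sup_left
      (e.le (mem_UP_infty.2 ⟨b, rfl⟩))) ⟨_, mem_map_of_mem f (le_sup_right (a := S) (conj_mem_cj hs)), by
        rw [map_mul, map_mul, map_inv]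
        refine mv hu u1 ?_
        rw [map_mul, map_mul, map_inv]
        exact mv (mU a ha) (fun c => h (q2 a ha c)) hg⟩)
    rw [← cj_top g⁻¹, ← this, cj_sup, ← cj_mul, ← cj_mul]
    congr 2
    group
  · obtain ⟨t, ht⟩ := mem_UP_infty.1 (mU b hb)
    let A : AddSubgroup F :=
      { carrier := {x | aff 1 x ∈ (H ⊓ S).map f}
        zero_mem' := by simp only [Set.mem_setOf_eq, aff_one]; exact one_mem _
        add_mem' := fun {x y} hx hy => by
          have := ((H ⊓ S).map f).mul_mem (x := aff 1 y) (y := aff 1 x) hy hx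
          rw [aff_mul] at this
          simpa using this
        neg_mem' := fun {x} hx => by
          have := ((H ⊓ S).map f).inv_mem (x := aff 1 x) hx
          rw [aff_inv] at this
          simpa using this }
    have k := sq_span A (t := t) (fun c => h (q2 b hb (by rw [ht, c, aff_one]))) fun c c0 => by
      obtain ⟨n, hn⟩ := hr.ge (aff_mem_PS (a := Units.mk0 c c0 * Units.mk0 c c0) (b := 0).2 ⟨c, rfl⟩)
      have cU : ∀ x, f n * aff 1 x * (f n)⁻¹ = aff 1 (c ^ 2 * x) := fun x => by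
        rw [mul_inv_eq_iff_eq_mul, hn, aff_mul, aff_mul]
        simp [sq]
      obtain ⟨k, hk, l⟩ := (hS.mono le_sup_left (le_top (a := S ⊔ f.ker))).exists_cj_le (isPGroup_cj n hS.isP)
        (fun x hx => by
          obtain ⟨y, hy⟩ := mem_UP_infty.1 (mU _ (mem_cj.1 hx))
          rw [← comap_map_eq, ← e]
          refine mem_UP_infty.2 ⟨c ^ 2 * y, ?_⟩
          rw [← cU, ← hy]
          simp [mul_assoc])
      have kn := mem_normalizer_of_cj_le (cj_mul k n S ▸ l)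
      refine ⟨_, ⟨h2 _ kn, (mem_normalizer_iff.1 kn b).1 hb⟩, ?_⟩
      simp only [map_mul, map_inv, mul_inv_rev]
      rw [ht, show f k * f n * aff 1 t * ((f n)⁻¹ * (f k)⁻¹) = f k * (f n * aff 1 t * (f n)⁻¹) * (f k)⁻¹ by group, cU,
        UP_comm (sk k hk) (mem_UP_infty.2 ⟨_, rfl⟩), mul_inv_cancel_right]
    intro x hx
    obtain ⟨y, hy⟩ := mem_UP_infty.1 (mU x hx)
    obtain ⟨z, hz, ez⟩ := k y
    simpa using H.mul_mem hz.1 (h1 (q2 (z⁻¹ * x) (S.mul_mem (S.inv_mem hz.2) hx) (by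
      rw [map_mul, map_inv, ez, hy, inv_mul_cancel])))

end

theorem r1_of (P : Sylow p G) (h1 : centralizer (pCore p G : Set G) ≤ pCore p G)
    (h2 : ∃! M : Subgroup G, IsCoatom M ∧ (P : Subgroup G) ≤ M) (K : Subgroup G) [K.Normal] (F : Type) [Field F]
    [Fintype F] {n : ℕ} (hF : Fintype.card F = p ^ n)
    (h3 : Nonempty (G ⧸ K ≃* Matrix.ProjectiveSpecialLinearGroup (Fin 2) F)) : R1 p (P : Subgroup G) := by
  haveI : CharP F p := charP_of_card_eq_prime_pow hF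
  obtain ⟨M, hM, u⟩ := h2
  obtain ⟨e⟩ := h3
  let f : G →* H5.PG F := ((H5.PS F).subtype.comp (e.trans (H5.psEquiv F)).toMonoidHom).comp (QuotientGroup.mk' K)
  have hr : f.range = H5.PS F := by
    rw [MonoidHom.range_eq_map, ← map_map, map_top_of_surjective _ (QuotientGroup.mk'_surjective K), ← map_map,
      map_top_of_surjective _ (e.trans (H5.psEquiv F)).surjective, ← MonoidHom.range_eq_map, range_subtype]
  obtain ⟨x, hx⟩ := H5.le_UP_of_isPGroup p (P.isPGroup'.map f)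
  obtain ⟨c, rfl⟩ := H5.exists_smul_infty x
  refine r1_aux (syl_top_of_sylow P) (by rwa [Op_top]) hM.1.1 (fun H a b => ?_)
    ((MulAut.conj c⁻¹).toMonoidHom.comp f) ?_ ?_
  · obtain ⟨N, hN, l⟩ := (eq_top_or_exists_le_coatom H).resolve_left b
    exact u N ⟨hN, a.trans l⟩ ▸ l
  · rw [MonoidHom.range_eq_map, ← map_map, ← MonoidHom.range_eq_map, hr]
    exact cj_eq_of_normal _ _
  · rw [← map_map]
    rw [H5.UP_smul] at hx
    exact cj_le_iff.2 (by rwa [inv_inv])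

end H9.PU
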