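import Cfsg.Agent.H9.PU1
import Cfsg.Agent.H9.SF7

/-!
H9.PU2: failure of factorization in the rank one pushing-up situation.
-/

set_option autoImplicit false
set_option linter.unusedSectionVars false

namespace H9.PU

open Cfsg Subgroup
open scoped commutatorElement

variable {G : Type*} [Group G] [Finite G] {p : ℕ} [hp : Fact p.Prime] {S T A B B' : Subgroup G}

/-- `O_p(G)` -/
abbrev OO (p : ℕ) (G : Type*) [Group G] : Subgroup G := Op p ⊤
/-- `Z(O_p(G))` -/
abbrev WW (p : ℕ) (G : Type*) [Group G] : Subgroup G := Zc (Op p ⊤)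

theorem W_cent {x w : G} (hx : x ∈ OO p G) (hw : w ∈ WW p G) : x * w * x⁻¹ = w := by
  rw [mem_centralizer_iff.1 hw.2 x hx, mul_inv_cancel_right]

theorem nW (h : A ≤ WW p G) (h' : B ≤ OO p G) : B ≤ normalizer (A : Set G) :=
  (h'.trans (le_centralizer_iff.1 (h.trans inf_le_right))).trans (centralizer_le_normalizer' _)

theorem pos (A : Subgroup G) : 0 < Nat.card A := Nat.card_pos

/-- the measure of `B` on `Z(O_p(G))` -/
noncomputable def mu (p : ℕ) (B : Subgroup G) : ℕ :=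
  Nat.card B * Nat.card (WW p G ⊓ centralizer (B : Set G) : Subgroup G)

theorem mu_O : mu p (OO p G) = Nat.card (OO p G) * Nat.card (WW p G) := by
  rw [mu, inf_eq_left.2 (inf_le_right : WW p G ≤ _)]

theorem mu_cj (g : G) : mu p (cj g B) = mu p B := by
  rw [mu, mu, card_cj, ← cj_centralizer, ← card_cj g (WW p G ⊓ centralizer (B : Set G)), cj_inf,
    cj_eq_of_normal g (WW p G)]

/-- subgroups of largest measure -/
def Mx (p : ℕ) (S B : Subgroup G) : Prop :=
  OO p G ≤ B ∧ B ≤ S ∧ ∀ X, OO p G ≤ X → X ≤ S → mu p X ≤ mu p B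

theorem Mx.cj (h : Mx p S B) {g : G} (hg : g ∈ normalizer (S : Set G)) : Mx p S (cj g B) :=
  ⟨(cj_eq_of_normal g (OO p G)).ge.trans (cj_mono g h.1), (cj_mono g h.2.1).trans (mem_normalizer_iff_cj.1 hg).le,
    fun X a b => (mu_cj (p := p) g).symm ▸ h.2.2 X a b⟩

namespace R1
variable (r : R1 p S)
include r

theorem ZW (h : Syl p T ⊤) : Zc T ≤ WW p G :=
  le_inf (inf_le_right.trans ((centralizer_anti h.Op_le).trans r.cons)) (inf_le_right.trans (centralizer_anti h.Op_le))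

theorem CZ (h : Syl p T ⊤) : center G ≤ Zc T :=
  le_inf (((center_le_centralizer _).trans r.cons).trans h.Op_le) (center_le_centralizer _)

theorem WS : WW p G ≤ S := inf_le_left.trans r.syl.Op_le

theorem W_inf (h : Syl p T ⊤) : WW p G ⊓ centralizer (T : Set G) = Zc T :=
  le_antisymm (inf_le_inf_right _ (inf_le_left.trans h.Op_le)) (le_inf (r.ZW h) inf_le_right)

theorem nrm (h1 : OO p G ≤ B) (h2 : B ≤ S) : S ≤ normalizer (B : Set G) := fun s hs =>
  mem_normalizer_fintype fun x hx => by simpa using B.mul_mem hx (h1 (r.ab x (h2 hx) s hs))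

theorem lat (h : Mx p S B) (h' : Mx p S B') : Mx p S (B ⊔ B') ∧ Mx p S (B ⊓ B') ∧
    WW p G ⊓ centralizer (B : Set G) ⊔ WW p G ⊓ centralizer (B' : Set G) =
      WW p G ⊓ centralizer ((B ⊓ B' : Subgroup G) : Set G) := by
  have a1 := H1.card_sup_mul_card_inf (h.2.1.trans (r.nrm h'.1 h'.2.1))
  have a2 := H1.card_sup_mul_card_inf (H := WW p G ⊓ centralizer (B : Set G))
    (nW (A := WW p G ⊓ centralizer (B' : Set G)) inf_le_left (inf_le_left.trans inf_le_left))
  rw [← inf_inf_distrib_left, ← centralizer_sup] at a2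
  have a3 : WW p G ⊓ centralizer (B : Set G) ⊔ WW p G ⊓ centralizer (B' : Set G) ≤
      WW p G ⊓ centralizer ((B ⊓ B' : Subgroup G) : Set G) :=
    sup_le (inf_le_inf_left _ (centralizer_anti inf_le_left)) (inf_le_inf_left _ (centralizer_anti inf_le_right))
  have a4 := card_le_of_le a3
  have a5 := h.2.2 (B ⊔ B') (h.1.trans le_sup_left) (sup_le h.2.1 h'.2.1)
  have a6 := h.2.2 (B ⊓ B') (le_inf h.1 h'.1) (inf_le_left.trans h.2.1)
  have a7 := le_antisymm (h.2.2 _ h'.1 h'.2.1) (h'.2.2 _ h.1 h.2.1)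
  have key : mu p B ≤ mu p (B ⊔ B') ∧ mu p B ≤ mu p (B ⊓ B') ∧
      Nat.card (WW p G ⊓ centralizer ((B ⊓ B' : Subgroup G) : Set G) : Subgroup G) ≤
      Nat.card (WW p G ⊓ centralizer (B : Set G) ⊔ WW p G ⊓ centralizer (B' : Set G) : Subgroup G) := by
    unfold mu at *
    have b1 := pos B
    have b2 := pos (WW p G ⊓ centralizer (B : Set G))
    have b3 := pos (B ⊓ B')
    generalize Nat.card B = b at *
    generalize Nat.card B' = b' at *
    generalize Nat.card (B ⊔ B' : Subgroup G) = s at *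
    generalize Nat.card (B ⊓ B' : Subgroup G) = i at *
    generalize Nat.card (WW p G ⊓ centralizer (B : Set G) : Subgroup G) = c at *
    generalize Nat.card (WW p G ⊓ centralizer (B' : Set G) : Subgroup G) = c' at *
    generalize Nat.card (WW p G ⊓ centralizer ((B ⊔ B' : Subgroup G) : Set G) : Subgroup G) = s' at *
    generalize Nat.card (WW p G ⊓ centralizer ((B ⊓ B' : Subgroup G) : Set G) : Subgroup G) = i' at *
    generalize Nat.card (WW p G ⊓ centralizer (B : Set G) ⊔ WW p G ⊓ centralizer (B' : Set G) : Subgroup G) = j at *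
    have e : (s * s') * (i * j) = (b * c) * (b * c) := by
      calc _ = (s * i) * (j * s') := by ring
        _ = (b * c) * (b' * c') := by rw [a1, a2]; ring
        _ = _ := by rw [a7]
    have m0 := Nat.mul_pos b1 b2
    have c1 : i * j ≤ b * c := (Nat.mul_le_mul_left _ a4).trans a6
    generalize b * c = m at *
    have c2 : m ≤ i * j := Nat.le_of_mul_le_mul_left (e ▸ Nat.mul_le_mul_right _ a5) m0
    refine ⟨Nat.le_of_mul_le_mul_right (e ▸ Nat.mul_le_mul_left _ c1) m0, c2.trans (Nat.mul_le_mul_left _ a4),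
      Nat.le_of_mul_le_mul_left (a6.trans c2) b3⟩
  exact ⟨⟨h.1.trans le_sup_left, sup_le h.2.1 h'.2.1, fun X a b => (h.2.2 X a b).trans key.1⟩,
    ⟨le_inf h.1 h'.1, inf_le_left.trans h.2.1, fun X a b => (h.2.2 X a b).trans key.2.1⟩,
    eq_of_le_of_card_ge a3 key.2.2⟩

theorem mx_top (h : Mx p S B) (n : ¬ B ≤ OO p G) : Mx p S S := by
  obtain ⟨X, hX, m⟩ := Finite.exists_le_maximal (p := Mx p S) h
  obtain ⟨b, hb, b'⟩ := SetLike.not_le_iff_exists.1 n
  exact le_antisymm m.1.2.1 (r.irr b (h.2.1 hb) b' X m.1.1 fun g hg =>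
    m.2 (r.lat m.1 (h.cj hg)).1 le_sup_left (le_sup_right (a := X) (conj_mem_cj hb))) ▸ m.1

/-- the second Sylow subgroup -/
theorem ex2 : ∃ g, S ⊔ cj g S = ⊤ ∧ ∀ a ∈ S, a ∉ OO p G → ∀ u ∈ Zc (cj g S), a * u * a⁻¹ ∈ Zc (cj g S) →
    u ∈ center G := by
  obtain ⟨T, hT, h⟩ := r.gen
  obtain ⟨g, -, rfl⟩ := r.syl.conj hT
  obtain ⟨b, hb, b'⟩ := SetLike.not_le_iff_exists.1 r.nle
  refine ⟨g, top_le_iff.1 ((h b hb b').ge.trans (sup_le le_sup_right
    ((cj_mono b le_sup_right).trans (cj_eq_of_mem (le_sup_left (b := cj g S) hb)).le))), fun a ha a' u hu e => ?_⟩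
  have : a * u * a⁻¹ ∈ centralizer ((⊤ : Subgroup G) : Set G) := by
    rw [← h a ha a', centralizer_sup, ← cj_centralizer a (cj g S)]
    exact ⟨e.2, conj_mem_cj hu.2⟩
  have k : a * u * a⁻¹ ∈ center G := mem_center_iff.2 fun x => mem_centralizer_iff.1 this x (mem_top x)
  simpa [mul_assoc] using Normal.conj_mem' inferInstance _ k a

end R1

theorem inj_out {g : G} (h : ∀ a ∈ S, a ∉ OO p G → ∀ u ∈ Zc (cj g S), a * u * a⁻¹ ∈ Zc (cj g S) → u ∈ center G)
    {x y : S ⧸ (OO p G).subgroupOf S} {u v : G} (hu : u ∈ Zc (cj g S)) (u' : u ∉ center G) (hv : v ∈ Zc (cj g S))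
    (e : (x.out : G) * u * (x.out : G)⁻¹ = y.out * v * (y.out : G)⁻¹) : x = y := by
  refine (QuotientGroup.out_eq' x).symm.trans (Eq.trans ?_ (QuotientGroup.out_eq' y))
  refine ((QuotientGroup.eq (s := (OO p G).subgroupOf S) (a := y.out) (b := x.out)).2
    (by_contra fun c => u' (h _ (y.out⁻¹ * x.out).2 c u hu ?_))).symm
  convert hv using 1
  simp only [coe_mul, coe_inv]
  calc _ = (y.out : G)⁻¹ * ((x.out : G) * u * (x.out : G)⁻¹) * y.out := by group
    _ = _ := by rw [e]; group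

theorem R1.big (r : R1 p S) (nc : ¬ Zc S ≤ center G) :
    Nat.card S * Nat.card (Zc S) ≤ Nat.card (OO p G) * Nat.card (WW p G) := by
  obtain ⟨g, -, h⟩ := r.ex2
  have s' := r.syl.cj_of_mem (g := g) (le_normalizer (mem_top _))
  have c := Nat.card_le_card_of_injective (β := (↑(WW p G) \ {1} : Set G))
    (fun x : (S ⧸ (OO p G).subgroupOf S) × (↑(Zc (cj g S)) \ ↑(center G) : Set G) =>
      ⟨x.1.out * x.2 * (x.1.out : G)⁻¹, Normal.conj_mem inferInstance _ (r.ZW s' x.2.2.1) _, fun e => x.2.2.2 (by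
        rw [Set.mem_singleton_iff, conj_eq_one_iff] at e
        exact e ▸ one_mem _)⟩) fun x y e => by
      have e := congrArg Subtype.val e
      have k := inj_out h x.2.2.1 x.2.2.2 y.2.2.1 e
      refine Prod.ext k (Subtype.ext ?_)
      simpa [k] using e
  rw [Nat.card_prod, Nat.card_coe_set_eq, Nat.card_coe_set_eq, Set.ncard_diff (r.CZ s'),
    Set.ncard_diff_singleton_of_mem (one_mem _)] at c
  simp only [← Nat.card_coe_set_eq, SetLike.coe_sort_coe] at c
  rw [← cj_Zc, card_cj] at c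
  have e := card_eq_card_quotient_mul_card_subgroup ((OO p G).subgroupOf S)
  rw [card_subgroupOf r.syl.Op_le] at e
  obtain ⟨a, ha⟩ := IsPGroup.iff_card.1 (r.syl.isP.to_quotient ((OO p G).subgroupOf S))
  obtain ⟨b, hb⟩ := IsPGroup.iff_card.1 (r.syl.isP.to_le (inf_le_left : Zc S ≤ S))
  obtain ⟨d, hd⟩ := IsPGroup.iff_card.1 (r.syl.isP.to_le r.WS)
  obtain ⟨k, hk⟩ := IsPGroup.iff_card.1 (r.syl.isP.to_le ((r.CZ r.syl).trans inf_le_left))
  have l := H1.card_lt_of_lt (lt_of_le_not_ge (r.CZ r.syl) nc)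
  rw [e, mul_right_comm, mul_comm]
  refine Nat.mul_le_mul_left _ ?_
  rw [ha, hb, hd, hk] at c
  rw [hb, hk] at l
  rw [ha, hb, hd]
  have p1 := hp.out.one_lt
  obtain ⟨j, rfl⟩ := Nat.exists_eq_add_of_lt ((Nat.pow_lt_pow_iff_right p1).1 l)
  rw [← pow_add, Nat.pow_le_pow_iff_right p1, ← add_assoc, Nat.add_one_le_iff, ← Nat.pow_lt_pow_iff_right p1, pow_add]
  refine lt_of_le_of_lt (le_trans (Nat.mul_le_mul_left _ ?_) c) (Nat.sub_lt (pow_pos hp.out.pos _) one_pos)
  have : p ^ k ≤ p ^ (k + j) := Nat.pow_le_pow_right hp.out.pos (Nat.le_add_right _ _)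
  have : p ^ (k + j) * 2 ≤ p ^ (k + j + 1) := pow_succ p _ ▸ Nat.mul_le_mul_left _ p1
  omega

theorem R1.mu_S (r : R1 p S) : mu p S = Nat.card S * Nat.card (Zc S) := by rw [mu, r.W_inf r.syl]

theorem R1.mx_O (r : R1 p S) (nc : ¬ Zc S ≤ center G) : Mx p S (OO p G) := by
  obtain ⟨⟨B, h⟩, m⟩ := @Finite.exists_max {B : Subgroup G // OO p G ≤ B ∧ B ≤ S} ℕ _ ⟨⟨S, r.syl.Op_le, le_rfl⟩⟩ _
    fun B => mu p B.1
  have k : Mx p S B := ⟨h.1, h.2, fun X a b => m ⟨X, a, b⟩⟩
  by_cases e : B ≤ OO p G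
  · exact le_antisymm e h.1 ▸ k
  · exact ⟨le_rfl, r.syl.Op_le, fun X a b => ((r.mx_top k e).2.2 X a b).trans (by rw [r.mu_S, mu_O]; exact r.big nc)⟩

/-- replace the part of `A` outside `O_p(G)` by `Z(O_p(G))` -/
abbrev rp (p : ℕ) (A : Subgroup G) : Subgroup G := A ⊓ OO p G ⊔ WW p G

theorem rp_le : rp p A ≤ OO p G := sup_le inf_le_right inf_le_left

theorem card_rp (A : Subgroup G) : Nat.card (rp p A) * Nat.card (A ⊔ OO p G : Subgroup G) *
    Nat.card (A ⊓ WW p G : Subgroup G) = Nat.card A * (Nat.card (OO p G) * Nat.card (WW p G)) := by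
  have a := H1.card_sup_mul_card_inf (H := A ⊓ OO p G) (K := WW p G) le_normalizer_of_normal
  have b := H1.card_sup_mul_card_inf (H := A) (K := OO p G) le_normalizer_of_normal
  rw [inf_assoc, inf_eq_right.2 (inf_le_left : WW p G ≤ _)] at a
  calc _ = Nat.card (rp p A) * Nat.card (A ⊓ WW p G : Subgroup G) * Nat.card (A ⊔ OO p G : Subgroup G) := by ring
    _ = _ := by rw [a, ← mul_assoc, ← b]; ring

theorem rp_comm (h : IsMulCommutative A) : IsMulCommutative (rp p A) := by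
  rw [← le_centralizer_iff_isMulCommutative] at h ⊢
  rw [centralizer_sup]
  exact sup_le (le_inf (inf_le_left.trans (h.trans (centralizer_anti inf_le_left)))
    (inf_le_right.trans (le_centralizer_iff.1 inf_le_right))) (le_inf
    (inf_le_right.trans (centralizer_anti inf_le_right)) (inf_le_right.trans (centralizer_anti inf_le_left)))

theorem R1.mx_A (r : R1 p S) (nc : ¬ Zc S ≤ center G) (h : A ∈ MA S) : Mx p S (A ⊔ OO p G) := by
  refine ⟨le_sup_right, sup_le h.1 r.syl.Op_le, fun X a b => ((r.mx_O nc).2.2 X a b).trans ?_⟩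
  have a := card_rp (p := p) A
  have b := h.2.2 _ (rp_le.trans r.syl.Op_le) (rp_comm h.2.1)
  have c : A ⊓ WW p G ≤ WW p G ⊓ centralizer ((A ⊔ OO p G : Subgroup G) : Set G) := by
    rw [centralizer_sup]
    exact le_inf inf_le_right (inf_le_inf (le_centralizer_iff_isMulCommutative.2 h.2.1) inf_le_right)
  rw [mu_O, mu]
  refine Nat.le_of_mul_le_mul_left ?_ (pos A)
  rw [← a, mul_assoc]
  exact Nat.mul_le_mul b (Nat.mul_le_mul_left _ (card_le_of_le c))

theorem R1.quad (r : R1 p S) (nc : ¬ Zc S ≤ center G) (nJ : ¬ JA S ≤ OO p G) :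
    ∀ s ∈ S, ∀ w ∈ WW p G, w⁻¹ * (s * w * s⁻¹) ∈ Zc S := by
  obtain ⟨A, hA, n, q⟩ : ∃ A ∈ MA S, ¬ A ≤ OO p G ∧ ⁅⁅WW p G, A⁆, A⁆ = ⊥ :=
    exists_MA_quad r.syl fun c => nJ (le_Op le_top c (r.syl.isP.to_le (JA_le S)))
  obtain ⟨B, -, m⟩ := Finite.exists_le_minimal (p := fun B => Mx p S B ∧ ¬ B ≤ OO p G ∧ B ≤ A ⊔ OO p G)
    ⟨r.mx_A nc hA, fun c => n (le_sup_left.trans c), le_rfl⟩
  obtain ⟨⟨h, n', l⟩, m⟩ := m
  obtain ⟨b, hb, b'⟩ := SetLike.not_le_iff_exists.1 n'
  have w : ∀ X : Subgroup G, ⁅WW p G, X⁆ ≤ WW p G := fun X => commutator_le_left _ _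
  have qc : ∀ X ≤ WW p G, OO p G ≤ centralizer (X : Set G) := fun X e => le_centralizer_iff.1 (e.trans inf_le_right)
  have k1 : ⁅WW p G, A ⊔ OO p G⁆ ≤ ⁅WW p G, A⁆ := by
    rw [commutator_comm]
    exact commutator_sup_le (normalizer_commutator le_normalizer_of_normal le_normalizer) (nW (w A) le_rfl)
      (commutator_comm _ _).le ((commutator_eq_bot_iff_le_centralizer.2 (qc _ le_rfl)).le.trans bot_le)
  have k2 : S ≤ centralizer ((⁅WW p G, B⁆ : Subgroup G) : Set G) := r.irr b (h.2.1 hb) b' _ (qc _ (w B)) fun g hg => by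
    have h' := h.cj hg
    obtain ⟨-, i, e⟩ := r.lat h h'
    refine (?_ : cj g B ≤ _) (conj_mem_cj hb)
    by_cases c : B ⊓ cj g B ≤ OO p G
    · rw [le_antisymm c i.1, inf_eq_left.2 (inf_le_right : WW p G ≤ _)] at e
      rw [le_centralizer_iff]
      refine (commutator_mono e.ge le_rfl).trans <| (commutator_sup_le (nW inf_le_left (inf_le_left.trans inf_le_left))
        (nW inf_le_left (inf_le_left.trans inf_le_left)) ?_ ?_).trans inf_le_right
      · exact (commutator_eq_bot_iff_le_centralizer.2 inf_le_right).le.trans bot_le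
      · exact commutator_le_left' (normalizer_inf le_normalizer_of_normal
          (normalizer_centralizer (h.2.1.trans (r.nrm h'.1 h'.2.1))))
    · rw [← eq_of_le_of_card_ge ((m ⟨i, c, inf_le_left.trans l⟩ inf_le_left).trans inf_le_right) (card_cj g B).le]
      exact (l.trans (sup_le (le_centralizer_iff.1 (commutator_eq_bot_iff_le_centralizer.1 q)) (qc _ (w A)))).trans
        (centralizer_anti ((commutator_mono le_rfl l).trans k1))
  have k3 : ⁅WW p G, B⁆ ≤ Zc S := le_inf ((w B).trans r.WS) (le_centralizer_iff.1 k2)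
  have k4 : S ≤ SF.chK (WW p G) (Zc S) := r.irr b (h.2.1 hb) b' _
    (fun x hx => ⟨qc _ (r.ZW r.syl) hx, fun v hv => by rw [W_cent hx hv, inv_mul_cancel]; exact one_mem _⟩)
    fun g hg => ⟨le_centralizer_iff.1 inf_le_right ((mem_normalizer_iff.1 hg b).1 (h.2.1 hb)), fun v hv => by
      have := conj_mem_of_le_normalizer (normalizer_Zc le_rfl) hg (k3 (commutator_mem_commutator
        (inv_mem (Normal.conj_mem' inferInstance v hv g)) hb))
      convert this using 1
      simp only [commutatorElement_def]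
      group⟩
  exact fun s hs => (k4 hs).2

/-- the structure of `Z(O_p(G))` when `Z(S)` is not central and `J(S)` is not in `O_p(G)` -/
structure FF (p : ℕ) (S : Subgroup G) : Prop extends R1 p S where
  c1 : ∀ a ∈ S, a ∉ OO p G → WW p G ⊓ centralizer {a} ≤ Zc S
  c2 : Nat.card S * Nat.card (Zc S) = Nat.card (OO p G) * Nat.card (WW p G)
  c3 : ∀ s ∈ S, ∀ w ∈ WW p G, w⁻¹ * (s * w * s⁻¹) ∈ Zc S
  c4 : ∃ g, S ⊔ cj g S = ⊤ ∧ Zc S ⊔ cj g (Zc S) = WW p G

theorem R1.ff (r : R1 p S) (nc : ¬ Zc S ≤ center G) (nJ : ¬ JA S ≤ OO p G) : FF p S := by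
  obtain ⟨A, hA, n⟩ : ∃ A ∈ MA S, ¬ A ≤ OO p G := by
    by_contra c
    push Not at c
    exact nJ (JA_le_iff.2 c)
  have c2 := le_antisymm (r.big nc) (mu_O (p := p) (G := G) ▸ r.mu_S ▸
    (r.mx_top (r.mx_A nc hA) fun c => n (le_sup_left.trans c)).2.2 _ le_rfl r.syl.Op_le)
  obtain ⟨g, hg, h⟩ := r.ex2
  have s' := r.syl.cj_of_mem (g := g) (le_normalizer (mem_top _))
  obtain ⟨u, hu, u'⟩ : ∃ u ∈ Zc (cj g S), u ∉ center G := SetLike.not_le_iff_exists.1 fun c => nc (by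
    rwa [← cj_Zc, ← cj_eq_of_normal g (center G), cj_le_cj_iff] at c)
  have c := Nat.card_le_card_of_injective (β := Zc S) (fun x : (S ⧸ (OO p G).subgroupOf S) × center G =>
      ⟨u⁻¹ * (x.1.out * u * (x.1.out : G)⁻¹) * x.2, mul_mem (r.quad nc nJ _ x.1.out.2 u (r.ZW s' hu))
        (r.CZ r.syl x.2.2)⟩) fun x y e => by
      have e : u⁻¹ * (x.1.out * u * (x.1.out : G)⁻¹) * x.2 = u⁻¹ * (y.1.out * u * (y.1.out : G)⁻¹) * y.2 :=
        congrArg Subtype.val e
      have k := inj_out (x := x.1) (y := y.1) h hu u' (mul_mem hu (r.CZ s' (y.2 * x.2⁻¹).2)) (by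
        rw [mul_assoc, mul_assoc u⁻¹, mul_right_inj, ← eq_mul_inv_iff_mul_eq] at e
        have z := mem_center_iff.1 (y.2 * x.2⁻¹).2 (y.1.out : G)⁻¹
        rw [e, mul_assoc _ (y.2 : G), mul_assoc _ (y.1.out : G)⁻¹]
        exact (congrArg _ z).trans (by group))
      refine Prod.ext k (Subtype.ext ?_)
      simpa [k] using e
  rw [Nat.card_prod] at c
  have e := card_eq_card_quotient_mul_card_subgroup ((OO p G).subgroupOf S)
  rw [card_subgroupOf r.syl.Op_le] at e
  have e2 : Nat.card (WW p G) = Nat.card (S ⧸ (OO p G).subgroupOf S) * Nat.card (Zc S) :=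
    Nat.eq_of_mul_eq_mul_left (pos (OO p G)) (by rw [← c2, e]; ring)
  obtain ⟨b, hb, b'⟩ := SetLike.not_le_iff_exists.1 r.nle
  have k : ∀ a ∈ S, a ∉ OO p G → ∀ U ≤ WW p G ⊓ centralizer {a}, Nat.card U * Nat.card (Zc S) ≤
      Nat.card (U ⊔ Zc (cj g S) : Subgroup G) * Nat.card (center G) := fun a ha a' U l => by
    rw [← card_cj g (Zc S), cj_Zc, ← H1.card_sup_mul_card_inf (nW (r.ZW s') (l.trans (inf_le_left.trans inf_le_left)))]
    refine Nat.mul_le_mul_left _ (card_le_of_le fun v hv => h a ha a' v hv.2 ?_)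
    rw [← mem_centralizer_singleton_iff.1 (l hv.1).2, mul_inv_cancel_right]
    exact hv.2
  have z : ∀ a ∈ S, Zc S ≤ WW p G ⊓ centralizer {a} := fun a ha => le_inf (r.ZW r.syl)
    (inf_le_right.trans (centralizer_le (Set.singleton_subset_iff.2 ha)))
  refine ⟨r, fun a ha a' => (eq_of_le_of_card_ge (z a ha) (Nat.le_of_mul_le_mul_right ((k a ha a' _ le_rfl).trans ?_)
    (pos (Zc S)))).ge, c2, r.quad nc nJ, g, hg, cj_Zc g S ▸ eq_of_le_of_card_ge (sup_le (r.ZW r.syl) (r.ZW s'))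
      (Nat.le_of_mul_le_mul_right (le_trans ?_ (k b hb b' _ (z b hb))) (pos (center G)))⟩
  · refine (Nat.mul_le_mul_right _ (card_le_of_le (sup_le inf_le_left (r.ZW s')))).trans ?_
    rw [e2, mul_right_comm]
    exact Nat.mul_le_mul_right _ c
  · rw [e2, mul_right_comm]
    exact Nat.mul_le_mul_right _ c

end H9.PU
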