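import Cfsg.Agent.H9.PU2

/-!
H9.PU3: Baumann's lemma and minimal centrally large subgroups in the rank one pushing-up situation.
-/

set_option autoImplicit false
set_option linter.unusedSectionVars false

namespace H9.PU

open Cfsg Subgroup
open scoped commutatorElement

variable {G : Type*} [Group G] [Finite G] {p : ℕ} [hp : Fact p.Prime] {S T A B R K X : Subgroup G}

theorem nrm_c (h : X ≤ center G) : X.Normal :=
  ⟨fun x hx g => by rwa [mem_center_iff.1 (h hx) g, mul_inv_cancel_right]⟩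

theorem mem_c {x : G} (h : A ⊔ B = ⊤) (h1 : x ∈ centralizer (A : Set G)) (h2 : x ∈ centralizer (B : Set G)) :
    x ∈ center G := by
  have : x ∈ centralizer ((⊤ : Subgroup G) : Set G) := by rw [← h, centralizer_sup]; exact ⟨h1, h2⟩
  exact mem_center_iff.2 fun y => mem_centralizer_iff.1 this y (mem_top y)

theorem R1.tri (r : R1 p S) : Zc S ≤ center G ∨ (S ⊓ centralizer (Zc (JA S) : Set G)).Normal ∨
    FF p S ∧ ¬ JA S ≤ OO p G := by
  by_cases nc : Zc S ≤ center G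
  · exact .inl nc
  by_cases nJ : JA S ≤ OO p G
  swap
  · exact .inr (.inr ⟨r.ff nc nJ, nJ⟩)
  rw [← JA_eq_of_le nJ r.syl.Op_le]
  obtain ⟨g, -, h⟩ := r.ex2
  have s' := r.syl.cj_of_mem (g := g) (le_normalizer (mem_top _))
  refine .inr (.inl (normal_of_top_le ?_))
  rw [le_antisymm (le_inf (fun a ha => by_contra fun c => nc ?_) inf_le_right)
    (inf_le_inf_right (centralizer (Zc (JA (OO p G)) : Set G)) r.syl.Op_le)]
  · exact normalizer_inf le_normalizer_of_normal (normalizer_centralizer (normalizer_Zc (normalizer_JA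
      le_normalizer_of_normal)))
  · rw [← cj_le_cj_iff (g := g), cj_Zc, cj_eq_of_normal g (center G)]
    refine fun u hu => h a ha.1 c u hu ?_
    rwa [← mem_centralizer_iff.1 ha.2 u (Zc_le_ZA _ (r.ZW s' hu)), mul_inv_cancel_right]

namespace FF
variable (f : FF p S)
include f

theorem inf_W (hZ : Zc S ≤ A) {a : G} (ha : a ∈ S) (a' : a ∉ OO p G) (hc : A ≤ centralizer {a}) :
    A ⊓ WW p G = Zc S :=
  le_antisymm ((le_inf inf_le_right (inf_le_left.trans hc)).trans (f.c1 a ha a')) (le_inf hZ (f.ZW f.syl))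

theorem card_rp' (e : A ⊓ WW p G = Zc S) :
    Nat.card (rp p A) * Nat.card (A ⊔ OO p G : Subgroup G) = Nat.card A * Nat.card S :=
  Nat.eq_of_mul_eq_mul_right (pos (Zc S)) (by rw [mul_assoc (Nat.card A), f.c2, ← card_rp A, e])

theorem ma (hA : A ∈ MA S) (n : ¬ A ≤ OO p G) : A ⊔ OO p G = S ∧ rp p A ∈ MA S := by
  obtain ⟨a, ha, a'⟩ := SetLike.not_le_iff_exists.1 n
  have e := f.card_rp' (f.inf_W ((Zc_le_ZA S).trans (MA.Zc_le hA)) (hA.1 ha) a'
    (le_centralizer_singleton_iff.2 (le_centralizer_iff_isMulCommutative.2 hA.2.1 ha)))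
  have l := rp_le.trans f.syl.Op_le (a := rp p A)
  have e' : A ⊔ OO p G = S := eq_of_le_of_card_ge (sup_le hA.1 f.syl.Op_le) (Nat.le_of_mul_le_mul_left
    (e ▸ Nat.mul_le_mul_right _ (hA.2.2 _ l (rp_comm hA.2.1))) (pos A))
  exact ⟨e', MaxF.of_card hA l (rp_comm hA.2.1) (Nat.eq_of_mul_eq_mul_right (pos S) (e' ▸ e)).ge⟩

theorem baumann (nJ : ¬ JA S ≤ OO p G) : ∃ X : Subgroup G, X.Normal ∧ X ≤ Zc (JA S) ∧ Zc (JA S) ≤ X ⊔ Zc S ∧
    X ⊓ Zc S ≤ center G := by
  obtain ⟨A, hA, n⟩ : ∃ A ∈ MA S, ¬ A ≤ OO p G := by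
    by_contra c
    push Not at c
    exact nJ (JA_le_iff.2 c)
  obtain ⟨e, hr⟩ := f.ma hA n
  obtain ⟨g, hg, hW⟩ := f.c4
  have t : JA S ⊔ cj g A ⊔ OO p G = ⊤ := top_le_iff.1 (hg.ge.trans (sup_le
    (e.ge.trans (sup_le_sup_right ((le_JA hA).trans le_sup_left) _)) (by
      rw [← e, cj_sup, cj_eq_of_normal g (OO p G)]; exact sup_le_sup_right le_sup_right _)))
  have l : ncl (JA S) ⊤ ≤ JA S ⊔ cj g A := ncl_le_iff.2 fun k hk => by
    obtain ⟨a, ha, b, hb, rfl⟩ := (mem_sup_of_le_normalizer le_normalizer_of_normal).1 (t.ge hk)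
    rw [cj_mul, mem_normalizer_iff_cj.1 (normalizer_JA le_normalizer (f.syl.Op_le hb))]
    exact (cj_mono a le_sup_left).trans (cj_eq_of_mem ha).le
  have y : Zc (JA S) ≤ Zc (JA (OO p G)) := sInf_MA (OO p G) ▸ le_sInf fun B hB =>
    MA.Zc_le (MaxF.up hr rp_le f.syl.Op_le hB)
  have zA : Zc S ≤ A := (Zc_le_ZA S).trans (MA.Zc_le hA)
  have y2 : Zc (JA (OO p G)) ≤ cj g A ⊓ OO p G ⊔ Zc S := by
    rw [← mem_normalizer_iff_cj.1 (normalizer_Zc (normalizer_JA (H := OO p G) le_normalizer_of_normal) (mem_top g))]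
    refine (cj_mono g (MA.Zc_le (MaxF.mono hr rp_le f.syl.Op_le))).trans ?_
    rw [cj_sup, cj_inf, cj_eq_of_normal g (OO p G), cj_eq_of_normal g (WW p G)]
    refine sup_le le_sup_left (hW.ge.trans (sup_le le_sup_right (le_sup_of_le_left (le_inf (cj_mono g zA) ?_))))
    exact (le_sup_right.trans hW.le).trans inf_le_left
  refine ⟨OO p G ⊓ centralizer (ncl (JA S) ⊤ : Set G), inferInstance,
    (inf_le_inf f.syl.Op_le (centralizer_anti (le_ncl _ _))).trans (centralizer_JA_le S), fun x hx => ?_,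
    fun x hx => mem_c (A := ncl (JA S) ⊤) (B := S) (top_le_iff.1 (t.ge.trans ?_)) hx.1.2 hx.2.2⟩
  · obtain ⟨a, ha, z, hz, rfl⟩ := (mem_sup_of_le_normalizer (nW (f.ZW f.syl) inf_le_right)).1 (y2 (y hx))
    refine mul_mem_sup ⟨ha.2, centralizer_anti l ?_⟩ hz
    rw [centralizer_sup]
    exact ⟨by simpa using (centralizer (JA S : Set G)).mul_mem hx.2 (Subgroup.inv_mem _ (Zc_le_ZA S hz).2), cj_centralizer g A ▸
      cj_mono g (le_centralizer_iff_isMulCommutative.2 hA.2.1) ha.1⟩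
  · exact sup_le (sup_le ((le_ncl _ _).trans le_sup_left) (le_sup_of_le_left ((cj_mono g ((le_JA hA).trans
      (le_ncl _ ⊤))).trans (cj_eq_of_normal _ _).le))) (f.syl.Op_le.trans le_sup_right)

theorem pow_c {w : G} (hw : w ∈ WW p G) : w ^ p ∈ center G := by
  have k : ∀ w ∈ WW p G, w ^ p ∈ centralizer (S : Set G) := fun w hw => mem_centralizer_iff.2 fun s hs => by
    have z := f.c3 s hs w hw
    have a : ∀ m : ℕ, s ^ m * w * (s ^ m)⁻¹ = w * (w⁻¹ * (s * w * s⁻¹)) ^ m := fun m => by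
      induction m with
      | zero => simp
      | succ m ih =>
        have e := mem_centralizer_iff.1 ((Zc S).pow_mem z m).2 s hs
        calc s ^ (m + 1) * w * (s ^ (m + 1))⁻¹ = s * (s ^ m * w * (s ^ m)⁻¹) * s⁻¹ := by group
          _ = s * w * s⁻¹ * (s * (w⁻¹ * (s * w * s⁻¹)) ^ m * s⁻¹) := by rw [ih]; group
          _ = _ := by rw [e, mul_inv_cancel_right, pow_succ', ← mul_assoc w, mul_inv_cancel_left]
    have b := a p
    rw [W_cent (f.ex s hs) hw, left_eq_mul] at b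
    have c : Commute w (w⁻¹ * (s * w * s⁻¹)) := mem_centralizer_iff.1 z.2 w (f.WS hw)
    have d := c.mul_pow p
    rwa [b, mul_one, mul_inv_cancel_left, conj_pow, mul_inv_eq_iff_eq_mul] at d
  obtain ⟨g, hg, -⟩ := f.c4
  refine mem_c hg (k w hw) ?_
  rw [← cj_centralizer, mem_cj, show g⁻¹ * w ^ p * g = (g⁻¹ * w * g) ^ p by simpa using (conj_pow (a := g⁻¹)).symm]
  exact k _ (Normal.conj_mem' inferInstance w hw g)

theorem W_le : WW p G ≤ omegaOne p (WW p G) ⊔ Zc S := by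
  obtain ⟨g, -, hW⟩ := f.c4
  refine hW.ge.trans (sup_le le_sup_right ?_)
  rintro _ ⟨z, hz, rfl⟩
  have w := f.ZW f.syl hz
  have w' : g * z * g⁻¹ ∈ WW p G := Normal.conj_mem inferInstance z w g
  have c : Commute (g * z * g⁻¹) z⁻¹ := mem_centralizer_iff.1 (inv_mem w).2 _ w'.1
  simpa using mul_mem_sup (L.mem_omegaOne (p := p) (mul_mem w' (inv_mem w)) (by
    rw [c.mul_pow, conj_pow, mem_center_iff.1 (f.pow_c w), inv_pow]; group)) hz

end FF

/-- `|R| |Z(R)|` -/
noncomputable def cp (R : Subgroup G) : ℕ := Nat.card R * Nat.card (Zc R)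

/-- centrally large in `T` -/
def CLr (T R : Subgroup G) : Prop := R ≤ T ∧ ∀ X ≤ T, cp X ≤ cp R

/-- minimal centrally large in `T` -/
def MC (T R : Subgroup G) : Prop := CLr T R ∧ ∀ X ≤ R, CLr T X → X = R

section
variable {G' : Type*} [Group G'] [Finite G'] {φ : G →* G'} (hφ : Function.Injective φ)
include hφ

theorem cp_map (R : Subgroup G) : cp (R.map φ) = cp R := by
  rw [cp, cp, ← map_Zc hφ, card_map_of_injective hφ, card_map_of_injective hφ]

theorem clr_map : CLr (T.map φ) (R.map φ) ↔ CLr T R := by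
  refine and_congr (map_le_map_iff_of_injective hφ) ⟨fun h X l => ?_, fun h X l => ?_⟩
  · simpa only [cp_map hφ] using h _ (map_mono l)
  · rw [← map_comap_eq_self (l.trans (map_le_range φ T)), cp_map hφ, cp_map hφ]
    exact h _ ((comap_mono l).trans (comap_map_eq_self_of_injective hφ T).le)

theorem mc_map : MC (T.map φ) (R.map φ) ↔ MC T R := by
  refine and_congr (clr_map hφ) ⟨fun h X l c => map_injective hφ (h _ (map_mono l) ((clr_map hφ).2 c)),
    fun h X l c => ?_⟩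
  rw [← map_comap_eq_self (l.trans (map_le_range φ R))] at c ⊢
  exact congrArg _ (h _ ((comap_mono l).trans (comap_map_eq_self_of_injective hφ R).le) ((clr_map hφ).1 c))
end

theorem clr_top : CLr ⊤ R ↔ CL R := by
  refine Iff.trans ?_ (((eq_sSup_range_iff (f := fun R : Subgroup G => Nat.card R * Nat.card (center R))).symm).trans
    cl_iff)
  simp only [card_center]
  exact ⟨fun h X => h.2 X le_top, fun h => ⟨le_top, fun X _ => h X⟩⟩

theorem mc_top : MC ⊤ R ↔ MCL R := by simp only [MC, MCL, clr_top]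

theorem clr_sub {Q : Subgroup S} : CLr S (Q.map S.subtype) ↔ CL Q := by
  rw [← clr_top, ← clr_map S.subtype_injective, ← MonoidHom.range_eq_map, range_subtype]

theorem mc_sub {Q : Subgroup S} : MC S (Q.map S.subtype) ↔ MCL Q := by
  rw [← mc_top, ← mc_map S.subtype_injective, ← MonoidHom.range_eq_map, range_subtype]

theorem ex_sub (h : R ≤ S) : ∃ Q : Subgroup S, R = Q.map S.subtype := ⟨_, (map_subgroupOf_eq_of_le h).symm⟩

theorem CLr.cent (h : CLr S R) : S ⊓ centralizer (R : Set G) ≤ R := by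
  obtain ⟨Q, rfl⟩ := ex_sub h.1
  exact map_centralizer_subtype S Q ▸ map_mono (clr_sub.1 h).2

theorem MC.comm (h : MC S R) (h' : CLr S K) : ⁅R, R⁆ ≤ ⁅K, K⁆ := by
  obtain ⟨Q, rfl⟩ := ex_sub h.1.1
  obtain ⟨Q', rfl⟩ := ex_sub h'.1
  simpa only [← map_commutator] using map_mono ((mc_sub.1 h).commutator_le (clr_sub.1 h'))

theorem MC.of_card (h : MC S R) (h' : CLr S K) (c : Nat.card K ≤ Nat.card R) : MC S K := by
  obtain ⟨Q, rfl⟩ := ex_sub h.1.1
  obtain ⟨Q', rfl⟩ := ex_sub h'.1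
  exact mc_sub.2 ((mc_sub.1 h).of_card (clr_sub.1 h') (by simpa only [card_map_subtype] using c))

theorem MC.cjO (h : MC S K) (l : K ≤ T) (hT : T ≤ S) [T.Normal] (g : G) : MC S (cj g K) := by
  have a : ∀ X ≤ T, CLr T X ↔ CLr S X := fun X hX => ⟨fun c => ⟨hX.trans hT, fun Y hY => (h.1.2 Y hY).trans (c.2 K l)⟩,
    fun c => ⟨hX, fun Y hY => c.2 Y (hY.trans hT)⟩⟩
  have b : ∀ X ≤ T, MC T X ↔ MC S X := fun X hX =>
    and_congr (a X hX) (forall₂_congr fun Y hY => imp_congr_left (a Y (hY.trans hX)))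
  refine (b _ ((cj_mono g l).trans (cj_eq_of_normal g T).le)).1 ?_
  rw [← cj_eq_of_normal g T]
  exact (mc_map (MulAut.conj g).injective).2 ((b K l).2 h)

theorem FF.mc (f : FF p S) (h : MC S R) (n : ¬ R ≤ OO p G) : R ⊓ WW p G = Zc S ∧ MC S (rp p R) ∧
    rp p (Zc R) ≤ Zc (rp p R) := by
  have z : Zc S ≤ Zc R := le_inf ((inf_le_inf_left S (centralizer_anti h.1.1)).trans h.1.cent)
    (inf_le_right.trans (centralizer_anti h.1.1))
  obtain ⟨b, hb, b'⟩ := SetLike.not_le_iff_exists.1 n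
  have e1 := f.card_rp' (f.inf_W z (h.1.1 hb) b' (inf_le_right.trans (centralizer_le (Set.singleton_subset_iff.2 hb))))
  have wO : ∀ X ≤ OO p G, WW p G ≤ centralizer (X : Set G) := fun X l => inf_le_right.trans (centralizer_anti l)
  have p0 := Nat.mul_pos (pos R) (pos (Zc R))
  have n' : ¬ Zc R ≤ OO p G := fun c => n (by
    have a := h.1.2 (R ⊔ WW p G) (sup_le h.1.1 f.WS)
    have w : WW p G ≤ R := le_sup_right.trans (eq_of_le_of_card_ge le_sup_left (Nat.le_of_mul_le_mul_right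
      ((Nat.mul_le_mul_left _ (card_le_of_le (le_inf (inf_le_left.trans le_sup_left) (by
        rw [centralizer_sup]; exact le_inf inf_le_right (le_centralizer_iff.1 (wO _ c)))))).trans a) (pos (Zc R)))).ge
    have l : rp p (Zc R) ≤ Zc (R ⊓ OO p G) := le_inf
      (sup_le (inf_le_inf_right _ inf_le_left) (le_inf w inf_le_left))
      (sup_le (inf_le_left.trans (inf_le_right.trans (centralizer_anti inf_le_left))) (wO _ inf_le_right))
    refine inf_eq_left.1 (h.2 _ inf_le_left ⟨inf_le_left.trans h.1.1, fun X hX => (h.1.2 X hX).trans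
      (le_trans ?_ (Nat.mul_le_mul_left _ (card_le_of_le l)))⟩)
    have e2 := H1.card_sup_mul_card_inf (H := R) (K := OO p G) le_normalizer_of_normal
    have e3 := card_le_of_le (sup_le h.1.1 f.syl.Op_le)
    rw [sup_eq_right.2 c] at e1
    refine Nat.le_of_mul_le_mul_right ?_ (Nat.mul_pos (pos (OO p G)) (pos S))
    calc _ = Nat.card R * Nat.card (OO p G) * (Nat.card (Zc R) * Nat.card S) := by rw [cp]; ring
      _ ≤ Nat.card S * Nat.card (R ⊓ OO p G : Subgroup G) * (Nat.card (rp p (Zc R)) * Nat.card (OO p G)) := by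
        rw [← e2, e1]; gcongr
      _ = _ := by ring)
  obtain ⟨a, ha, a'⟩ := SetLike.not_le_iff_exists.1 n'
  have i := f.inf_W (z.trans inf_le_left) (h.1.1 ha.1) a' (le_centralizer_singleton_iff.2 ha.2)
  have e2 := f.card_rp' i
  have l : rp p (Zc R) ≤ Zc (rp p R) := le_inf (sup_le_sup_right (inf_le_inf_right _ inf_le_left) _)
    (sup_le (by
      rw [centralizer_sup]
      exact inf_le_inf (inf_le_right.trans (centralizer_anti inf_le_left)) (le_centralizer_iff.1 inf_le_right))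
      (wO _ rp_le))
  have lS := rp_le.trans f.syl.Op_le (a := rp p R)
  have c1 : Nat.card R ≤ Nat.card (rp p R) := Nat.le_of_mul_le_mul_right
    (e2 ▸ Nat.mul_le_mul_left _ (card_le_of_le (sup_le h.1.1 f.syl.Op_le))) (pos S)
  have c2 : Nat.card (Zc R) ≤ Nat.card (Zc (rp p R)) := (Nat.le_of_mul_le_mul_right
    (e1 ▸ Nat.mul_le_mul_left _ (card_le_of_le (sup_le (inf_le_left.trans h.1.1) f.syl.Op_le))) (pos S)).trans
    (card_le_of_le l)
  exact ⟨i, h.of_card ⟨lS, fun X hX => (h.1.2 X hX).trans (Nat.mul_le_mul c1 c2)⟩ (Nat.le_of_mul_le_mul_right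
    ((Nat.mul_le_mul_left _ c2).trans (h.1.2 _ lS)) (pos (Zc R))), l⟩

theorem R1.jt_syl (r : R1 p S) (h : ¬ (Zc S).Normal) : Syl p (S ⊓ centralizer (Zc (JA S) : Set G))
    (normalClosure ((S ⊓ centralizer (Zc (JA S) : Set G) : Subgroup G) : Set G)) := by
  rcases r.tri with c | c | ⟨f, nJ⟩
  · exact (h (nrm_c c)).elim
  · rw [normalClosure_eq_self]
    exact syl_self (r.syl.isP.to_le inf_le_left)
  obtain ⟨X, _, h1, h2, -⟩ := f.baumann nJ
  have e : S ⊓ centralizer (Zc (JA S) : Set G) = S ⊓ centralizer (X : Set G) :=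
    le_antisymm (inf_le_inf_left _ (centralizer_anti h1)) (le_inf inf_le_left (le_trans (by
      rw [centralizer_sup]; exact le_inf inf_le_right (inf_le_left.trans (le_centralizer_iff.1 inf_le_right)))
      (centralizer_anti h2)))
  rw [e]
  exact (r.syl.inf_normal le_top le_normalizer_of_normal).mono le_normalClosure
    (normalClosure_le_normal (inf_le_right : S ⊓ centralizer (X : Set G) ≤ _))

theorem R1.comm_or (r : R1 p S) : (⁅Zc (JA S), S⁆ ⊓ Zc S).Normal ∨ (S ⊓ centralizer (Zc (JA S) : Set G)).Normal := by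
  rcases r.tri with c | c | ⟨f, nJ⟩
  · exact .inl (nrm_c (inf_le_right.trans c))
  · exact .inr c
  obtain ⟨X, _, -, h2, h3⟩ := f.baumann nJ
  exact .inl (nrm_c ((inf_le_inf_right _ ((commutator_mono h2 le_rfl).trans (commutator_sup_le le_normalizer
    le_normalizer_of_normal (commutator_le_left _ _)
    ((commutator_eq_bot_iff_le_centralizer.2 inf_le_right).le.trans bot_le)))).trans h3))

theorem R1.mho_or (r : R1 p S) : (powerClosure p 1 (Zc S)).Normal ∨ (S ⊓ centralizer (Zc (JA S) : Set G)).Normal := by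
  rcases r.tri with c | c | ⟨f, -⟩
  · exact .inl (nrm_c ((FG.pc_le _ _).trans c))
  · exact .inr c
  refine .inl (nrm_c fun x hx => ?_)
  obtain ⟨y, hy, rfl⟩ := (FG.mem_pc_iff (FG.Zc_ab S)).1 hx
  rw [pow_one]
  exact f.pow_c (r.ZW r.syl hy)

theorem R1.ff' (r : R1 p S) (h : S ≤ centralizer (Zc (JA S) : Set G)) : (∀ X ≤ Zc S, X.Normal) ∨ FF p S := by
  rcases r.tri with c | c | c
  · exact .inl fun X l => nrm_c (l.trans c)
  · rw [inf_eq_left.2 h] at c
    exact (r.nle (le_Op le_top le_normalizer_of_normal r.syl.isP)).elim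
  · exact .inr c.1

theorem FF.comm_or (f : FF p S) (h : MC S K) : (Zc S ⊓ ⁅K, K⁆).Normal ∨ (sSup {R | MC S R}).Normal := by
  by_cases c : ∀ R, MC S R → R ≤ OO p G
  · exact .inr (normal_of_top_le (normalizer_sSup_of_cj fun g _ R hR => MC.cjO hR (c R hR) f.syl.Op_le g))
  push Not at c
  obtain ⟨R, hR, n⟩ := c
  obtain ⟨e, m, -⟩ := f.mc hR n
  haveI : (⁅K, K⁆).Normal := normal_iff_cj.2 fun g => by
    have := m.cjO rp_le f.syl.Op_le g
    rw [le_antisymm (h.comm m.1) (m.comm h.1), cj_commutator, le_antisymm (m.comm this.1) (this.comm m.1)]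
  rw [le_antisymm (inf_le_inf_right _ (f.ZW f.syl)) (le_inf (e ▸ le_inf (inf_le_right.trans ((h.comm hR.1).trans
    (commutator_le_of_le le_rfl le_rfl))) inf_le_left) inf_le_right)]
  exact .inl inferInstance

/-- minimal centrally large with largest `Ω₁ Z` -/
def MG (p : ℕ) (S R : Subgroup G) : Prop := MC S R ∧ ∀ X, MC S X → Nat.card (OZ p X) ≤ Nat.card (OZ p R)

theorem FF.mg (f : FF p S) (h : MG p S R) : ∃ K ≤ OO p G, MG p S K ∧ L.Phi R ≤ L.Phi K := by
  by_cases n : R ≤ OO p G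
  · exact ⟨R, n, h, le_rfl⟩
  obtain ⟨e, m, l⟩ := f.mc h.1 n
  have RS := h.1.1.1
  have o : omegaOne p (WW p G) ≤ WW p G := L.omegaOne_le _ _
  have a1 := H1.card_sup_mul_card_inf (H := OZ p R ⊓ OO p G) (nW o inf_le_right)
  have a2 := H1.card_sup_mul_card_inf (H := omegaOne p (WW p G)) (nW (f.ZW f.syl) (o.trans inf_le_left))
  have a3 := H1.card_sup_mul_card_inf (H := OZ p R) (K := OO p G) le_normalizer_of_normal
  rw [le_antisymm (sup_le o (f.ZW f.syl)) f.W_le] at a2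
  have a4 := card_le_of_le (show OZ p R ⊓ OO p G ⊓ omegaOne p (WW p G) ≤ omegaOne p (WW p G) ⊓ Zc S from
    le_inf inf_le_right (e ▸ inf_le_inf (inf_le_left.trans (OZ_le p R)) o))
  have a5 := card_le_of_le (show OZ p R ⊓ OO p G ⊔ omegaOne p (WW p G) ≤ OZ p (rp p R) from sup_le
    (fun x hx => L.mem_omegaOne (l (le_sup_left (b := WW p G) ⟨OZ_le_Zc p R hx.1, hx.2⟩)) ((OZ_elem p R).2 x hx.1))
    (L.omegaOne_le_iff.2 fun x hx c => L.mem_omegaOne (l (le_sup_right (a := Zc R ⊓ OO p G) hx)) c))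
  have a6 := h.2 _ m
  have a7 : OZ p R ⊔ OO p G ≤ S := sup_le ((OZ_le p R).trans RS) f.syl.Op_le
  have k : Nat.card (OZ p R) * Nat.card S ≤ Nat.card (OZ p (rp p R)) * Nat.card (OZ p R ⊔ OO p G : Subgroup G) := by
    refine Nat.le_of_mul_le_mul_right ?_ (Nat.mul_pos (pos (Zc S)) (pos (omegaOne p (WW p G) ⊓ Zc S)))
    calc _ = Nat.card (OZ p R) * (Nat.card S * Nat.card (Zc S)) * Nat.card (omegaOne p (WW p G) ⊓ Zc S : Subgroup G) := by
          ring
      _ = Nat.card (OZ p R) * Nat.card (OO p G) *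
          (Nat.card (WW p G) * Nat.card (omegaOne p (WW p G) ⊓ Zc S : Subgroup G)) := by rw [f.c2]; ring
      _ = Nat.card (OZ p R ⊔ OO p G : Subgroup G) * Nat.card (Zc S) *
          (Nat.card (OZ p R ⊓ OO p G : Subgroup G) * Nat.card (omegaOne p (WW p G))) := by rw [a2, ← a3]; ring
      _ ≤ Nat.card (OZ p R ⊔ OO p G : Subgroup G) * Nat.card (Zc S) *
          (Nat.card (OZ p (rp p R)) * Nat.card (omegaOne p (WW p G) ⊓ Zc S : Subgroup G)) := by rw [← a1]; gcongr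
      _ = _ := by ring
  have e' := eq_of_le_of_card_ge a7 (Nat.le_of_mul_le_mul_left (k.trans (Nat.mul_le_mul_right _ a6)) (pos _))
  have pK := f.syl.isP.to_le m.1.1
  refine ⟨_, rp_le, ⟨m, fun X hX => (h.2 X hX).trans (Nat.le_of_mul_le_mul_right (e' ▸ k) (pos S))⟩,
    H1.map_frattini_le_of_elementary hp.out ((h.1.comm m.1).trans (H1.commutator_le_map_frattini pK.isNilpotent))
    fun x hx => ?_⟩
  obtain ⟨a, ha, b, hb, rfl⟩ := (mem_sup_of_le_normalizer le_normalizer_of_normal).1 (e'.ge (RS hx))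
  have bR : b ∈ R := by simpa using R.mul_mem (R.inv_mem (OZ_le p R ha)) hx
  rw [Commute.mul_pow (mem_centralizer_iff.1 (OZ_le_centralizer p R ha) b bR).symm, (OZ_elem p R).2 a ha, one_mul]
  exact H1.pow_mem_map_frattini pK (le_sup_left (b := WW p G) ⟨bR, hb⟩)

theorem map_Phi_le {G' : Type*} [Group G'] (φ : G →* G') (K : Subgroup G) : (L.Phi K).map φ ≤ L.Phi (K.map φ) := by
  rintro _ ⟨_, ⟨x, hx, rfl⟩, rfl⟩
  exact ⟨_, H1.map_frattini_le (φ.subgroupMap_surjective K) ⟨x, hx, rfl⟩, rfl⟩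

theorem FF.phi_normal (f : FF p S) : (⨆ R : {R // MG p S R}, L.Phi R.1).Normal :=
  normal_of_top_le (le_normalizer_of_cj_le fun g _ => by
    rw [cj_iSup]
    refine iSup_le fun R => ?_
    obtain ⟨K, l, h, e⟩ := f.mg R.2
    refine (cj_mono g e).trans (le_iSup_of_le ⟨cj g K, h.1.cjO l f.syl.Op_le g, fun X hX => by
      rw [← cj_OZ, card_cj]; exact h.2 X hX⟩ (map_Phi_le _ K)))

theorem r1_of' (h : IsPushingUpSituation p S) : R1 p S := by
  obtain ⟨-, ⟨P, rfl⟩, h1, h2, K, _, F, _, _, n, h3, h4⟩ := h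
  exact r1_of P h1 h2 K F h3 h4

theorem mcl_char {Q : Subgroup G} (h : MCL Q) : (⁅Q, Q⁆).Characteristic := characteristic_iff_map_eq.2 fun φ => by
  have : MCL (Q.map φ.toMonoidHom) := mc_top.1 (by
    rw [← map_top_of_surjective φ.toMonoidHom φ.surjective]
    exact (mc_map φ.injective).2 (mc_top.2 h))
  rw [map_commutator]
  exact le_antisymm (this.commutator_le h.1) (h.commutator_le this.1)

theorem map_mclJoin : (minimalCentrallyLargeJoin S).map S.subtype = sSup {R | MC S R} := by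
  refine le_antisymm (map_le_iff_le_comap.2 (sSup_le fun Q hQ => map_le_iff_le_comap.1
    (le_sSup (mc_sub.2 (mcl_iff.1 hQ))))) (sSup_le fun R hR => ?_)
  obtain ⟨Q, rfl⟩ := ex_sub hR.1.1
  exact map_mono (le_sSup (mcl_iff.2 (mc_sub.1 hR)))

theorem mg_iff {Q : Subgroup G} : (IsMinimalCentrallyLarge Q ∧
    Nat.card (omegaOneCenter p Q) = maxOmegaCenterOfMinimalCL p G) ↔ MG p ⊤ Q := by
  have hb : BddAbove {k : ℕ | ∃ Q : Subgroup G, IsMinimalCentrallyLarge Q ∧ Nat.card (omegaOneCenter p Q) = k} :=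
    ((Set.finite_range fun Q : Subgroup G => Nat.card (omegaOneCenter p Q)).subset
      (by rintro _ ⟨Q, -, rfl⟩; exact ⟨Q, rfl⟩)).bddAbove
  refine ⟨fun h => ⟨mc_top.2 (mcl_iff.1 h.1), fun X hX => (le_csSup hb ⟨X, mcl_iff.2 (mc_top.1 hX), rfl⟩).trans h.2.ge⟩,
    fun h => ⟨mcl_iff.2 (mc_top.1 h.1), le_antisymm (le_csSup hb ⟨Q, mcl_iff.2 (mc_top.1 h.1), rfl⟩)
      (csSup_le ⟨_, Q, mcl_iff.2 (mc_top.1 h.1), rfl⟩ ?_)⟩⟩
  rintro _ ⟨X, hX, rfl⟩
  exact h.2 X (mc_top.2 (mcl_iff.1 hX))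

theorem mg_sub {Q : Subgroup S} : MG p S (Q.map S.subtype) ↔ MG p ⊤ Q := by
  refine and_congr (mc_sub.trans mc_top.symm) ⟨fun h X hX => ?_, fun h X hX => ?_⟩
  · simpa only [← map_OZ S.subtype_injective, card_map_subtype] using h _ (mc_sub.2 (mc_top.1 hX))
  · obtain ⟨Y, rfl⟩ := ex_sub hX.1.1
    simpa only [← map_OZ S.subtype_injective, card_map_subtype] using h _ (mc_top.2 (mc_sub.1 hX))

theorem map_phiJoin : (frattiniOfMinimalCLJoin p S).map S.subtype = ⨆ R : {R // MG p S R}, L.Phi R.1 := by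
  refine le_antisymm (map_le_iff_le_comap.2 (iSup_le fun Q => map_le_iff_le_comap.1
    (le_iSup_of_le ⟨_, mg_sub.2 (mg_iff.1 Q.2)⟩ (map_Phi_le _ _)))) (iSup_le fun ⟨R, hR⟩ => ?_)
  obtain ⟨Q, rfl⟩ := ex_sub hR.1.1.1
  refine le_trans ?_ (map_mono (le_iSup _ ⟨Q, mg_iff.2 (mg_sub.1 hR)⟩))
  rintro _ ⟨x, hx, rfl⟩
  exact ⟨_, ⟨_, H1.map_frattini_le (f := (Q.equivMapOfInjective _ S.subtype_injective).symm.toMonoidHom)
    (MulEquiv.surjective _) ⟨x, hx, rfl⟩, rfl⟩,
    congrArg Subtype.val ((Q.equivMapOfInjective _ S.subtype_injective).apply_symm_apply x)⟩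

theorem exists_mg : ∃ Q : Subgroup G, MG p ⊤ Q := by
  obtain ⟨Q, hQ⟩ := exists_mcl (G := G)
  obtain ⟨R, hR, m⟩ := Set.exists_max_image {R : Subgroup G | MC ⊤ R} (fun R => Nat.card (OZ p R)) (Set.toFinite _)
    ⟨Q, mc_top.2 hQ⟩
  exact ⟨R, hR, m⟩

end H9.PU
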