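import Cfsg.Agent.H1.Misc

/-!
H9.PwG: the power graph determines the prime graph.
-/

set_option autoImplicit false

namespace H9.PwG

open Subgroup

variable {G H : Type*} [Group G] [Finite G] [Group H] [Finite H]

def Adj (x y : G) : Prop := x ∈ zpowers y ∨ y ∈ zpowers x

theorem mem_iff {g x y : G} (hx : x ∈ zpowers g) (hy : y ∈ zpowers g) : x ∈ zpowers y ↔ orderOf x ∣ orderOf y :=
  ⟨orderOf_dvd_of_mem_zpowers, fun h => zpowers_le.1 (H1.le_of_card_dvd_of_isCyclic inferInstance (zpowers_le.2 hx)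
    (zpowers_le.2 hy) (by rwa [Nat.card_zpowers, Nat.card_zpowers]))⟩

theorem adj_iff {g x y : G} (hx : x ∈ zpowers g) (hy : y ∈ zpowers g) :
    Adj x y ↔ orderOf x ∣ orderOf y ∨ orderOf y ∣ orderOf x := or_congr (mem_iff hx hy) (mem_iff hy hx)

theorem zp_eq {x y : G} (h : x ∈ zpowers y) (h' : orderOf y ≤ orderOf x) : zpowers x = zpowers y :=
  eq_of_le_of_card_ge (zpowers_le.2 h) (by rwa [Nat.card_zpowers, Nat.card_zpowers])

theorem adj_congr {x y : G} (h : zpowers x = zpowers y) (z : G) : Adj z x ↔ Adj z y := by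
  rw [Adj, Adj, h, ← zpowers_le (g := x), h, zpowers_le]

theorem cnt (g : G) {d : ℕ} (h : d ∣ orderOf g) : Nat.card {x : zpowers g // orderOf x = d} = d.totient := by
  classical
  have := Fintype.ofFinite (zpowers g)
  rw [← IsCyclic.card_orderOf_eq_totient (α := zpowers g) (by rwa [← Nat.card_eq_fintype_card, Nat.card_zpowers]),
    Nat.card_eq_fintype_card, Fintype.card_subtype]

/-- connectivity of the incomparability graph on the proper divisors -/
theorem conn {n p q : ℕ} (hn : n ≠ 0) (hp : p.Prime) (hq : q.Prime) (h : p ≠ q) (h1 : p ∣ n) (h2 : q ∣ n) {a : ℕ}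
    (ha : a ∣ n) (a1 : a ≠ 1) (an : a ≠ n) : ∃ b r, b ∣ n ∧ r ∣ n ∧ r.Prime ∧ ¬ r ∣ b ∧ b ≠ 1 ∧
      (b = a ∨ ¬ (a ∣ b ∨ b ∣ a)) := by
  by_cases c : p ∣ a ∧ q ∣ a
  · obtain ⟨r, k, x, y, z⟩ : ∃ r k, r.Prime ∧ r ^ k ∣ n ∧ ¬ r ^ k ∣ a := by
      by_contra! c
      exact an (Nat.dvd_antisymm ha ((Nat.dvd_iff_prime_pow_dvd_dvd a n).2 fun r k x y => c r k x y))
    have w : ∀ s, s.Prime → s ≠ r → ¬ s ∣ r ^ k := fun s u v w => v ((Nat.prime_dvd_prime_iff_eq u x).1 (u.dvd_of_dvd_pow w))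
    have b1 : r ^ k ≠ 1 := fun e => z (e ▸ one_dvd _)
    by_cases e : p = r
    · exact ⟨_, q, y, h2, hq, w q hq (e ▸ h.symm), b1, .inr fun t => t.elim (fun t => w q hq (e ▸ h.symm) (c.2.trans t)) z⟩
    · exact ⟨_, p, y, h1, hp, w p hp e, b1, .inr fun t => t.elim (fun t => w p hp e (c.1.trans t)) z⟩
  · rcases not_and_or.1 c with c | c
    exacts [⟨a, p, ha, h1, hp, c, a1, .inl rfl⟩, ⟨a, q, ha, h2, hq, c, a1, .inl rfl⟩]

theorem ninc {b r : ℕ} (hr : r.Prime) (h : ¬ r ∣ b) (h1 : b ≠ 1) : ¬ (b ∣ r ∨ r ∣ b) := fun t =>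
  t.elim (fun t => (hr.eq_one_or_self_of_dvd b t).elim h1 fun e => h (e ▸ dvd_rfl)) h

theorem main (e : G ≃ H) (he : ∀ x y, Adj x y ↔ Adj (e x) (e y)) {p q : ℕ} (hp : p.Prime) (hq : q.Prime) (h : p < q)
    {g₀ : G} (h0 : orderOf g₀ = p * q) : ∃ k : H, p * q ∣ orderOf k := by
  have : Nonempty {x : G // g₀ ∈ zpowers x} := ⟨⟨g₀, mem_zpowers g₀⟩⟩
  obtain ⟨⟨g, g1⟩, g2⟩ := Finite.exists_max (fun x : {x : G // g₀ ∈ zpowers x} => orderOf x.1)
  have n0 : orderOf g ≠ 0 := (orderOf_pos g).ne'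
  have hn : p * q ∣ orderOf g := h0 ▸ orderOf_dvd_of_mem_zpowers g1
  have pn := (dvd_mul_right p q).trans hn
  have qn := (dvd_mul_left q p).trans hn
  have A : ∀ x, Adj x g ↔ x ∈ zpowers g := fun x => or_iff_left_of_imp fun a =>
    (zp_eq a (g2 ⟨x, zpowers_le.2 a g1⟩)).ge (mem_zpowers x)
  have E := fun d (h : d ∣ orderOf g) => H1.exists_pow_orderOf_eq h
  let D : G → Prop := fun x => x ∈ zpowers g ∧ (orderOf x = 1 ∨ orderOf x = orderOf g)
  have D1 : ∀ x, D x → ∀ y ∈ zpowers g, Adj x y := fun x a y b => (adj_iff a.1 b).2 (Or.imp (fun c => by rw [c]; exact one_dvd _)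
    (fun c => by rw [c]; exact orderOf_dvd_of_mem_zpowers b) a.2)
  have D2 : ∀ x ∈ zpowers g, (∀ y ∈ zpowers g, Adj x y) → D x := fun x a b => ⟨a, by_contra fun c => by
    obtain ⟨s, r, c1, c2, c3, c4, c5, c6⟩ := conn n0 hp hq h.ne pn qn (orderOf_dvd_of_mem_zpowers a) (not_or.1 c).1
      (not_or.1 c).2
    rcases c6 with rfl | c6
    · obtain ⟨y, y1, rfl⟩ := E r c2
      exact ninc c3 c4 c5 ((adj_iff a y1).1 (b y y1))
    · obtain ⟨y, y1, rfl⟩ := E s c1
      exact c6 ((adj_iff a y1).1 (b y y1))⟩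
  have Dg : D g := ⟨mem_zpowers g, .inr rfl⟩
  have : Nonempty {x : G // D x} := ⟨⟨g, Dg⟩⟩
  obtain ⟨⟨x₀, x1⟩, x2⟩ := Finite.exists_max (fun x : {x : G // D x} => orderOf (e x.1))
  have T : ∀ x, D x → e x ∈ zpowers (e x₀) := fun x a => ((he _ _).1 (D1 x a x₀ x1.1)).elim id fun b =>
    (zp_eq b (x2 ⟨x, a⟩)).ge (mem_zpowers _)
  have G1 : ∀ x, D x → orderOf x = orderOf g → ∀ y, Adj y x ↔ y ∈ zpowers g := fun x a b y =>
    (adj_congr (zp_eq a.1 b.ge) y).trans (A y)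
  have N : ∀ y, Adj y x₀ ↔ y ∈ zpowers g := by
    rcases x1.2 with a | a
    · obtain rfl := orderOf_eq_one_iff.1 a
      have u1 : ∀ y, Adj y (e.symm 1) := fun y => (he _ _).2 (.inr (by rw [e.apply_symm_apply]; exact one_mem _))
      have u2 := D2 _ ((A _).1 (u1 g).symm) fun y _ => (u1 y).symm
      rcases u2.2 with b | b
      · have := T g Dg
        rw [← orderOf_eq_one_iff.1 b, e.apply_symm_apply, zpowers_one_eq_bot, mem_bot, ← e.eq_symm_apply] at this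
        rw [this, b] at pn
        exact absurd pn hp.not_dvd_one
      · exact fun y => iff_of_true (.inr (one_mem _)) ((G1 _ u2 b y).1 (u1 y))
    · exact G1 _ x1 a
  have S : ∀ y ∈ zpowers g, ∀ z ∈ zpowers g, ¬ (orderOf y ∣ orderOf z ∨ orderOf z ∣ orderOf y) →
      e y ∈ zpowers (e x₀) → e z ∈ zpowers (e x₀) := fun y a z b c d => ((he _ _).1 ((N z).2 b)).elim id fun f =>
    absurd ((adj_iff a b).1 ((he _ _).2 (.inl (zpowers_le.2 f d)))) c
  have S' : ∀ y ∈ zpowers g, ∀ z ∈ zpowers g, ¬ (orderOf y ∣ orderOf z ∨ orderOf z ∣ orderOf y) →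
      (e y ∈ zpowers (e x₀) ↔ e z ∈ zpowers (e x₀)) := fun y a z b c => ⟨S y a z b c, S z b y a fun t => c t.symm⟩
  obtain ⟨x, xg, xp⟩ := E p pn
  obtain ⟨w, wg, wq⟩ := E q qn
  have pq : ¬ p ∣ q := fun t => h.ne ((Nat.prime_dvd_prime_iff_eq hp hq).1 t)
  have qp : ¬ q ∣ p := fun t => h.ne' ((Nat.prime_dvd_prime_iff_eq hq hp).1 t)
  have P1 : ∀ y ∈ zpowers g, (orderOf y).Prime → (e y ∈ zpowers (e x₀) ↔ e x ∈ zpowers (e x₀)) := fun y a b => by
    by_cases c : orderOf y = p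
    · exact (S' y a w wg (by rw [c, wq]; exact not_or.2 ⟨pq, qp⟩)).trans
        (S' w wg x xg (by rw [xp, wq]; exact not_or.2 ⟨qp, pq⟩))
    · exact S' y a x xg (xp ▸ ninc hp (fun t => c ((Nat.prime_dvd_prime_iff_eq hp b).1 t).symm) b.ne_one)
  have P2 : ∀ y ∈ zpowers g, ¬ D y → (e y ∈ zpowers (e x₀) ↔ e x ∈ zpowers (e x₀)) := fun y a b => by
    have c : ¬ (orderOf y = 1 ∨ orderOf y = orderOf g) := fun t => b ⟨a, t⟩
    obtain ⟨s, r, c1, c2, c3, c4, c5, c6⟩ := conn n0 hp hq h.ne pn qn (orderOf_dvd_of_mem_zpowers a) (not_or.1 c).1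
      (not_or.1 c).2
    obtain ⟨v, v1, rfl⟩ := E r c2
    rcases c6 with rfl | c6
    · exact (S' y a v v1 (ninc c3 c4 c5)).trans (P1 v v1 c3)
    · obtain ⟨u, u1, rfl⟩ := E s c1
      exact (S' y a u u1 c6).trans ((S' u u1 v v1 (ninc c3 c4 c5)).trans (P1 v v1 c3))
  have Z : ∀ z ∈ zpowers (e x₀), e.symm z ∈ zpowers g := fun z a =>
    (N _).1 ((he _ _).2 (.inl (by rwa [e.apply_symm_apply])))
  by_cases c : e x ∈ zpowers (e x₀)
  · refine ⟨e x₀, hn.trans (dvd_of_eq ?_)⟩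
    rw [← Nat.card_zpowers, ← Nat.card_zpowers]
    exact Nat.card_congr (e.subtypeEquiv fun y => ⟨fun a => (em (D y)).elim (T y) fun b => (P2 y a b).2 c,
      fun a => by simpa using Z _ a⟩)
  exfalso
  have Z' : ∀ z ∈ zpowers (e x₀), D (e.symm z) := fun z a => by_contra fun b =>
    c ((P2 _ (Z z a) b).1 (by rwa [e.apply_symm_apply]))
  have i1 : (orderOf g).totient + 1 ≤ orderOf (e x₀) := by
    rw [← cnt g dvd_rfl, ← Finite.card_option, ← Nat.card_zpowers (e x₀)]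
    refine Nat.card_le_card_of_injective (fun o => Option.elim o ⟨e 1, T 1 ⟨one_mem _, .inl orderOf_one⟩⟩ fun y =>
      ⟨e y.1, T _ ⟨y.1.2, .inr ((orderOf_coe _).trans y.2)⟩⟩) ?_
    have k : ∀ y : {x : zpowers g // orderOf x = orderOf g}, (y.1 : G) ≠ 1 := fun y t =>
      hp.not_dvd_one (by rwa [← y.2, ← orderOf_coe, t, orderOf_one] at pn)
    rintro (_ | a) (_ | b) t
    · rfl
    · exact absurd (e.injective (congrArg Subtype.val t)).symm (k b)
    · exact absurd (e.injective (congrArg Subtype.val t)) (k a)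
    · exact congrArg some (Subtype.ext (Subtype.ext (e.injective (congrArg Subtype.val t))))
  have i2 : (orderOf (e x)).totient ≤ p - 1 := by
    rw [← cnt (e x) dvd_rfl, ← Nat.totient_prime hp, ← cnt g pn]
    have k : ∀ y : {y : zpowers (e x) // orderOf y = orderOf (e x)}, ∀ v, Adj v (e.symm y.1) ↔ Adj v x := fun y v => by
      rw [he, he, e.apply_symm_apply]
      exact adj_congr (zp_eq y.1.2 ((orderOf_coe _).trans y.2).ge) _
    have k1 : ∀ y : {y : zpowers (e x) // orderOf y = orderOf (e x)}, e.symm y.1 ∈ zpowers g := fun y =>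
      (A _).1 ((k y g).2 (.inr xg)).symm
    refine Nat.card_le_card_of_injective (fun y => ⟨⟨e.symm y.1, k1 y⟩, (orderOf_coe _).symm.trans ?_⟩)
      fun a b t => Subtype.ext (Subtype.ext (e.symm.injective (congrArg (fun z => z.1.1) t)))
    have k2 : ∀ d, d ∣ orderOf g → ((d ∣ orderOf (e.symm y.1) ∨ orderOf (e.symm y.1) ∣ d) ↔ (d ∣ p ∨ p ∣ d)) :=
      fun d a => by
      obtain ⟨v, v1, rfl⟩ := E d a
      rw [← adj_iff v1 (k1 y), k, adj_iff v1 xg, xp]
    have k3 := orderOf_dvd_of_mem_zpowers (k1 y)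
    show orderOf (e.symm y.1) = p
    generalize orderOf (e.symm y.1) = a at *
    have a0 : a ≠ 0 := fun t => n0 (zero_dvd_iff.1 (t ▸ k3))
    have k4 : ∀ {d}, d.Prime → d ∣ a → d = p := fun u v => ((k2 _ (v.trans k3)).1 (.inl v)).elim
      (Nat.prime_dvd_prime_iff_eq u hp).1 fun t => ((Nat.prime_dvd_prime_iff_eq hp u).1 t).symm
    have a1 : a ≠ 1 := fun t => not_or.2 ⟨qp, pq⟩ ((k2 q qn).1 (.inr (t ▸ one_dvd _)))
    rcases (k2 _ hn).2 (.inr (dvd_mul_right p q)) with t | t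
    · exact absurd (k4 hq ((dvd_mul_left q p).trans t)) h.ne'
    · have u := Nat.eq_prime_pow_of_unique_prime_dvd a0 k4
      have : a.Coprime q := u ▸ ((Nat.coprime_primes hp hq).2 h.ne).pow_left _
      exact (hp.eq_one_or_self_of_dvd a (this.dvd_of_dvd_mul_right t)).resolve_left a1
  have i3 := Nat.le_of_dvd (Nat.totient_pos.2 (orderOf_pos _)) (Nat.totient_dvd_of_dvd (orderOf_dvd_of_mem_zpowers
    (((he _ _).1 ((N x).2 xg)).resolve_left c)))
  have i4 := Nat.le_of_dvd (Nat.totient_pos.2 (orderOf_pos _)) (Nat.totient_dvd_of_dvd hn)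
  rw [Nat.totient_mul ((Nat.coprime_primes hp hq).2 h.ne), Nat.totient_prime hp, Nat.totient_prime hq] at i4
  have i5 : (p - 1) * 2 ≤ (p - 1) * (q - 1) := Nat.mul_le_mul_left _ (by have := hp.two_le; omega)
  have i6 : orderOf (e x₀) ≤ 2 * (orderOf (e x₀)).totient := by
    have m1 : orderOf (e x₀) ≠ 1 := by have := Nat.totient_pos.2 (orderOf_pos g); omega
    obtain ⟨r, r1, r2⟩ := Nat.exists_prime_and_dvd m1
    have u := Nat.eq_prime_pow_of_unique_prime_dvd (p := r) (orderOf_pos (e x₀)).ne' fun {s} s1 s2 => by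
      obtain ⟨a, a1, rfl⟩ := H1.exists_pow_orderOf_eq r2
      obtain ⟨b, b1, rfl⟩ := H1.exists_pow_orderOf_eq s2
      have := (he _ _).1 (D1 _ (Z' a a1) _ (Z b b1))
      rw [e.apply_symm_apply, e.apply_symm_apply, adj_iff a1 b1] at this
      exact this.elim (fun t => ((Nat.prime_dvd_prime_iff_eq r1 s1).1 t).symm) (Nat.prime_dvd_prime_iff_eq s1 r1).1
    generalize (orderOf (e x₀)).primeFactorsList.length = j at u
    rcases j with _ | j
    · exact absurd u m1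
    · rw [u, Nat.totient_prime_pow_succ r1, pow_succ, mul_left_comm]
      exact Nat.mul_le_mul_left _ (by have := r1.two_le; omega)
  omega

end H9.PwG
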