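import Cfsg.Agent.H9.LE2
import Cfsg.Agent.H9.Qd

/-!
H9.SCZ: the ZJ-theorem, control of fusion and normal complements for strongly closed subgroups.
-/

set_option autoImplicit false
set_option linter.unusedSectionVars false

namespace H9

open Cfsg Subgroup
open scoped commutatorElement

universe u

section A
variable {G : Type*} [Group G] [Finite G] {p : ℕ} [hp : Fact p.Prime] {D S H : Subgroup G}

/-- `D` is strongly closed in `S` with respect to `H`. -/
def SCl (D S H : Subgroup G) : Prop := D ≤ S ∧ ∀ x ∈ D, ∀ g ∈ H, g * x * g⁻¹ ∈ S → g * x * g⁻¹ ∈ D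

omit [Finite G] in
theorem scl_top_iff : SCl D S ⊤ ↔ IsStronglyClosed D S := by simp [SCl, IsStronglyClosed]

omit [Finite G] in
theorem SCl.inf (h : SCl D S H) {P K : Subgroup G} (h1 : P ≤ S) (h2 : K ≤ H) : SCl (D ⊓ P) P K :=
  ⟨inf_le_right, fun x hx g hg e => ⟨h.2 x hx.1 g (h2 hg) (h1 e), e⟩⟩

omit [Finite G] in
theorem SCl.mono (h : SCl D S H) {K : Subgroup G} (h2 : K ≤ H) : SCl D S K := ⟨h.1, fun x hx g hg => h.2 x hx g (h2 hg)⟩

theorem SCl.le_normalizer (h : SCl D S H) {B : Subgroup G} (h1 : D ≤ B) (h2 : B ≤ S) :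
    H ⊓ normalizer (B : Set G) ≤ normalizer (D : Set G) := fun g hg => mem_normalizer_of_cj_le (by
  rintro _ ⟨x, hx, rfl⟩
  exact h.2 x hx g hg.1 (h2 (conj_mem_of_le_normalizer le_rfl hg.2 (h1 hx))))

theorem SCl.le_nm (h : SCl D S H) (h1 : S ≤ H) : S ≤ normalizer (D : Set G) :=
  (le_inf h1 Subgroup.le_normalizer).trans (h.le_normalizer h.1 le_rfl)

theorem SCl.normal (h : SCl D S ⊤) {B : Subgroup G} [B.Normal] (h1 : D ≤ B) (h2 : B ≤ S) : D.Normal :=
  normal_of_top_le ((le_inf le_rfl le_normalizer_of_normal).trans (h.le_normalizer h1 h2))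

theorem SCl.im {Γ : Type*} [Group Γ] [Finite Γ] {X : Subgroup G} (f : X →* Γ) (h : SCl D S H) (hS : Syl p S H)
    (hH : H ≤ X) : SCl (im f D) (im f S) (im f H) := by
  refine ⟨im_mono f h.1, ?_⟩
  rintro _ ⟨x, hx, rfl⟩ _ ⟨g, hg, rfl⟩ ⟨s, hs, e⟩
  have a1 : S ≤ normalizer ((kr f ⊓ H : Subgroup G) : Set G) :=
    normalizer_inf ((hS.le.trans hH).trans (le_normalizer_kr f)) (hS.le.trans Subgroup.le_normalizer)
  have a2 : ((g * x * g⁻¹ : X) : G) ∈ H := mul_mem (mul_mem hg (hS.le (h.1 hx))) (inv_mem hg)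
  have a3 : ((g * x * g⁻¹ : X) : G) ∈ S ⊔ kr f ⊓ H := by
    rw [← mul_inv_cancel_left s (g * x * g⁻¹)]
    exact mul_mem (mem_sup_left hs) (mem_sup_right (mem_inf.2 ⟨(coe_mem_kr f).2 (by simp [e, mul_assoc]), mul_mem (inv_mem (hS.le hs)) a2⟩))
  obtain ⟨l, hl, a4⟩ := (hS.mono le_sup_left (sup_le hS.le inf_le_right)).exists_cj_le (Q := zpowers ((g * x * g⁻¹ : X) : G))
    (by rw [coe_mul, coe_mul, coe_inv, ← cj_zpowers]; exact isPGroup_cj _ (isPGroup_zpowers_of_mem hS.isP (h.1 hx)))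
    (zpowers_le.2 a3)
  obtain ⟨t, ht, k, hk, rfl⟩ := (mem_sup_of_le_normalizer a1).1 hl
  have a5 := h.2 x hx (t * k * g) (mul_mem (mul_mem (hS.le ht) hk.2) hg) (by
    have := a4 (conj_mem_cj (mem_zpowers _))
    simpa [mul_assoc] using this)
  have a6 := conj_mem_of_le_normalizer' (h.le_nm hS.le) ht a5
  refine ⟨⟨k, kr_le f hk.1⟩ * (g * x * g⁻¹) * ⟨k, kr_le f hk.1⟩⁻¹, ?_, ?_⟩
  · simpa [mul_assoc, mem_subgroupOf] using a6
  · simp [(coe_mem_kr f (x := ⟨k, kr_le f hk.1⟩)).1 hk.1]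

theorem SCl.inf_ne_bot (h : SCl D S ⊤) (hS : IsPGroup p S) (h0 : D ≠ ⊥) {T : Subgroup G} (hT : T ≤ S) :
    D ⊓ (S ⊓ normalizer (T : Set G)) ≠ ⊥ := fun e =>
  inf_centralizer_ne_bot_of_p (hS.to_le h.1) hS (h.le_nm le_top) h0 (eq_bot_iff.2 (le_trans (le_inf inf_le_left
    (le_inf (inf_le_left.trans h.1) (inf_le_right.trans ((centralizer_anti hT).trans (centralizer_le_normalizer' T))))) e.le))

theorem zj_family_sc {Q : Subgroup G → Prop} (hS : Syl p S ⊤) (hD : SCl D S ⊤) (hst : PStN p G)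
    (hc : centralizer (Op p (⊤ : Subgroup G) : Set G) ≤ Op p ⊤) (h0 : Q ⊥) (hQ : ∀ A, Q A → IsMulCommutative A)
    (hinv : ∀ P : Subgroup G, normalizer (P : Set G) ≤ normalizer ((sInf (MaxF Q P) : Subgroup G) : Set G))
    (hrep : ∀ B ≤ S, S ≤ normalizer (B : Set G) → ∀ U ∈ MaxF Q D, ⁅B, B⁆ ≤ U → ¬ B ≤ U →
      ∃ A ∈ MaxF Q D, ⁅B, B⁆ ≤ A ∧ ¬ B ≤ A ∧ B ≤ normalizer (A : Set G)) : (sInf (MaxF Q D)).Normal := by
  have hI := (hD.le_nm le_top).trans (hinv D)
  obtain ⟨A₀, h₀⟩ := exists_maxF h0 D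
  rw [← inf_eq_left.2 (le_Op_of_stable hS hI (comm_of_le (hQ _ h₀.2.1) (sInf_le h₀)) hc (hst _ inferInstance (Op_p p ⊤)))]
  refine zj_ind hS hI (fun B hn hB h1 hmin => ?_) _ inferInstance (Op_p p ⊤)
  by_cases h2 : B ≤ sInf (MaxF Q D)
  · rwa [inf_eq_right.2 h2]
  rw [le_sInf_iff] at h2
  push Not at h2
  obtain ⟨U, hU, h2⟩ := h2
  have hBS : B ≤ S := (le_Op le_top (top_le_normalizer B) hB).trans hS.Op_le
  obtain ⟨A, a1, -, a3, a4⟩ := hrep B hBS (le_top.trans (top_le_normalizer B)) U hU (h1.trans (sInf_le hU)) h2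
  have a5 := le_inf a1.1 (le_inf (a1.1.trans hD.1) ((hst B hn hB).le le_top (quad_of_normalizes (hQ A a1.2.1) a4)))
  exact absurd ((zj_frattini hS hI hmin (inf_le_left.trans (sInf_le_sInf fun _ h => MaxF.up a1 a5 inf_le_left h))
    (((le_inf le_top le_rfl).trans ((hD.inf inf_le_left le_rfl).le_normalizer inf_le_right le_rfl)).trans (hinv _))).trans
      (sInf_le (MaxF.mono a1 a5 inf_le_left))) a3

theorem ZA_normal_sc (hp2 : p ≠ 2) (hS : Syl p S ⊤) (hD : SCl D S ⊤) (hst : PStN p G)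
    (hc : centralizer (Op p (⊤ : Subgroup G) : Set G) ≤ Op p ⊤) : (Zc (JA D)).Normal := by
  rw [← sInf_MA]
  exact zj_family_sc hS hD hst hc inferInstance (fun _ h => h)
    (fun P => by rw [sInf_MA]; exact normalizer_Zc (normalizer_JA le_rfl))
    fun B h1 h2 U hU => MA.exists_normalized hS.isP hD.1 (hD.le_nm le_top) h1 h2 (fun h => absurd h hp2) hU

theorem OE_normal_sc (hp2 : p ≠ 2) (hS : Syl p S ⊤) (hD : SCl D S ⊤) (hst : PStN p G)
    (hc : centralizer (Op p (⊤ : Subgroup G) : Set G) ≤ Op p ⊤) : (OE p D).Normal := by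
  rw [← sInf_ME]
  exact zj_family_sc hS hD hst hc (elem_bot p) (fun _ h => h.1) (fun P => by rw [sInf_ME]; exact normalizer_OE le_rfl)
    fun B h1 h2 U hU => ME.exists_normalized hp2 hS.isP hD.1 (hD.le_nm le_top) h1 h2 hU

theorem sc_local_global {K : Subgroup G → Subgroup G} (hK : IsConjugacyFunctor p K) (hS : Syl p S ⊤) (hD : SCl D S ⊤)
    {R : Subgroup G → G → Prop} (hR : FRel S ⊤ R) (cent : ∀ A ≤ S, ∀ c ∈ centralizer (A : Set G), R A c)
    (loc : ∀ T ≤ S, T ≠ ⊥ → Syl p (S ⊓ normalizer (T : Set G)) (normalizer (T : Set G)) →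
      RAll R (S ⊓ normalizer (T : Set G))
        (normalizer (T : Set G) ⊓ normalizer (K (D ⊓ (S ⊓ normalizer (T : Set G))) : Set G)) →
      RAll R (S ⊓ normalizer (T : Set G)) (normalizer (T : Set G)))
    (top : RAll R S (normalizer (K D : Set G))) : RAll R S ⊤ := by
  classical
  by_cases h0 : D = ⊥
  · rwa [eq_bot_iff.2 ((cf_le hK (hS.isP.to_le hD.1)).trans h0.le), normalizer_eq_top] at top
  let c : Subgroup G → Subgroup G := fun U => closure {x | x ∈ U ∧ ∃ g : G, g * x * g⁻¹ ∈ D}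
  have c1 : ∀ U, c U ≤ U := fun U => (closure_le _).2 fun _ h => h.1
  have c2 : ∀ U ≤ S, c U = D ⊓ U := fun U hU => le_antisymm ((closure_le _).2 fun x ⟨a, g, b⟩ =>
    ⟨by simpa [mul_assoc] using hD.2 _ b g⁻¹ (mem_top _) (by simpa [mul_assoc] using hU a), a⟩)
    fun x hx => subset_closure ⟨hx.2, 1, by simpa using hx.1⟩
  have c3 : ∀ g U, cj g (c U) ≤ c (cj g U) := fun g U => by
    rw [cj_le_iff]
    exact (closure_le _).2 fun x ⟨a, k, b⟩ => mem_cj.2 (subset_closure ⟨by simpa using conj_mem_cj a, k * g⁻¹, by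
      simpa [mul_assoc] using b⟩)
  have c4 : ∀ g U, c (cj g U) = cj g (c U) := fun g U =>
    le_antisymm (le_cj_iff.2 (by simpa using c3 g⁻¹ (cj g U))) (c3 g U)
  let W : Subgroup G → Subgroup G := fun U => if c U = ⊥ then U else K (c U)
  have hW : IsConjugacyFunctor p W := fun U hU => by
    have := hU.to_le (c1 U)
    refine ⟨?_, fun h => ?_, fun g => ?_⟩
    · unfold W; split_ifs
      exacts [le_rfl, (cf_le hK this).trans (c1 U)]
    · unfold W; split_ifs with e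
      exacts [h, cf_ne_bot hK this e]
    · simp only [cj_def', W, c4, cj_eq_bot_iff]
      split_ifs
      exacts [rfl, cf_cj hK this g]
  refine local_global hS hR (fun A a c _ => cent A a c) (single_cf hW) (Z := ⊥) bot_le (fun _ _ _ _ _ => bot_le)
    (fun T h1 h2 _ h3 h4 => ?_) ?_
  · have := h4 _ rfl
    simp only [W, c2 _ inf_le_left, if_neg (hD.inf_ne_bot hS.isP h0 h1), top_inf_eq] at this ⊢
    exact loc T h1 h2 (by simpa [FN] using h3) this
  · rintro _ rfl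
    simpa only [W, c2 _ le_rfl, inf_eq_left.2 hD.1, if_neg h0, top_inf_eq] using top

/-- `N` controls `H`-fusion in `S`. -/
def Ctl (N S H : Subgroup G) : Prop := ∀ A ≤ S, ∀ g ∈ H, cj g A ≤ S → ∃ x ∈ N, x⁻¹ * g ∈ centralizer (A : Set G)

theorem ctl_iff {N : Subgroup G} : Ctl N S H ↔ RAll (Fz (N : Set G) S) S H :=
  forall₅_congr fun _ _ _ _ h => (fz_subgroup_iff h).symm

theorem Ctl.csf {N : Subgroup G} (h : Ctl N S ⊤) (A : Set G) (hA : A ⊆ S) : ControlsStrongFusionOf N S A :=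
  ⟨hA, fun g hg => let ⟨x, a, b⟩ := h _ ((closure_le _).2 hA) g (mem_top g) (image_subset_iff_cj.1 hg)
    ⟨x, a, fun y hy => (forall_conj_eq_iff.2 b y hy).symm⟩⟩

theorem Ctl.bind {N P : Subgroup G} {R : Subgroup G → G → Prop} (h : Ctl N P H) (hR : FRel S ⊤ R)
    (cent : ∀ A ≤ S, ∀ c ∈ centralizer (A : Set G), R A c) (hP : P ≤ S) (h1 : RAll R P N) : RAll R P H :=
  fun A a g b c => Fz.bind hR (fun A a c _ => cent A a c) hP (fun _ _ => mem_top _) (fun x hx B d e => h1 B d x hx e) a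
    (mem_top g) (ctl_iff.1 h A a g b c)

theorem Ctl.of_im {Γ : Type*} [Group Γ] [Finite Γ] {X : Subgroup G} (f : X →* Γ) {N : Subgroup G} (hS : IsPGroup p S)
    (h1 : S ≤ N) (h2 : N ≤ H) (hH : H ≤ X) (hk : (Nat.card (kr f ⊓ H : Subgroup G)).Coprime p)
    (h : Ctl (im f N) (im f S) (im f H)) : Ctl N S H := fun A hA g hg hgA => by
  have hSX := h1.trans (h2.trans hH)
  obtain ⟨_, ⟨x, hx, rfl⟩, a1⟩ := h _ (im_mono f hA) (f ⟨g, hH hg⟩) (mem_im_of_mem f hg)
    (by rw [← im_cj]; exact im_mono f hgA)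
  obtain ⟨d, hd, a2⟩ := exists_cj_le_of_im f hS h1 (h2.trans hH) (cop_of_le hk (inf_le_inf_left _ h2))
    (isPGroup_cj (x : G) (hS.to_le hA)) (cj_le_of_mem hx (hA.trans h1)) (by
      rw [im_cj, ← cj_eq_of_inv_mul_mem a1, ← im_cj]; exact im_mono f hgA)
  refine ⟨d * x, mul_mem hd.2 hx, conj_eq_iff_mem_centralizer.2 fun a ha => ?_⟩
  refine eq_of_im_eq f (kr_inf_eq_bot f hk hS (h1.trans h2))
    (a := ⟨d, kr_le f hd.1⟩ * x * ⟨a, hSX (hA ha)⟩ * (⟨d, kr_le f hd.1⟩ * x)⁻¹)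
    (b := ⟨g, hH hg⟩ * ⟨a, hSX (hA ha)⟩ * ⟨g, hH hg⟩⁻¹) (a2 (by rw [← cj_mul]; exact conj_mem_cj ha))
    (hgA (conj_mem_cj ha)) ?_
  simp only [map_mul, map_inv, (coe_mem_kr f (x := ⟨d, kr_le f hd.1⟩)).1 hd.1, one_mul]
  exact conj_eq_iff_mem_centralizer.1 a1 _ (mem_im_of_mem f ha)

theorem central_step (hS : Syl p S ⊤) {R : Subgroup G → G → Prop} (hR : FRel S ⊤ R)
    (cent : ∀ A ≤ S, ∀ c ∈ centralizer (A : Set G), R A c) (low : ∀ H, S ≤ H → H ≠ ⊤ → RAll R S H)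
    (hne : S ⊔ centralizer (Op p (⊤ : Subgroup G) : Set G) = ⊤) {Γ : Type*} [Group Γ] [Finite Γ]
    (f : (⊤ : Subgroup G) →* Γ) (hk : kr f = Op p ⊤) {M : Subgroup G} (h1 : S ≤ M) (h2 : M ≠ ⊤)
    (hΓ : Ctl (im f M) (im f S) ⊤) : RAll R S ⊤ := by
  have hST : S ≠ ⊤ := fun e => h2 (eq_top_iff.2 (e ▸ h1))
  refine rall_of_ge hR hS.Op_le (le_normalizer_Op p ⊤) (alperin hS (hR.ge (le_normalizer_Op p ⊤))
    fun U hU hfn g _ hg hQU => ?_)
  obtain ⟨_, ⟨c, hc, rfl⟩, h2'⟩ := hΓ _ (im_mono f hU) (f ⟨g, trivial⟩) trivial (by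
    rw [← im_cj, mem_normalizer_iff_cj.1 hg]; exact im_mono f hU)
  have h3 : cj (c : G) U ≤ S := by
    rw [← sup_eq_left.2 hS.Op_le, ← hk, ← im_le_im_iff f le_top le_top, im_cj, ← cj_eq_of_inv_mul_mem h2', ← im_cj,
      mem_normalizer_iff_cj.1 hg]
    exact im_mono f hU
  have r1 := low _ h1 h2 U hU c hc h3
  set D := pre f (centralizer (im f U : Set Γ)) with hD
  have hDU : ⁅U, D⁆ ≤ Op p ⊤ := by
    rw [commutator_comm, ← hk, ← im_le_centralizer_iff f le_top le_top]; exact im_pre_le f _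
  have hDN : D ≤ normalizer (U : Set G) := le_normalizer_of_commutator_le (hDU.trans hQU) le_rfl
  have hz : (c : G)⁻¹ * g ∈ D :=
    (coe_mem_pre f (x := c⁻¹ * ⟨g, trivial⟩)).2 (by simpa using h2')
  have hP := hfn.inf_normal (le_inf le_top hDN) (le_normalizer_pre f le_top
    (normalizer_centralizer (im_le_normalizer f inf_le_right)))
  have hO1 : Ores p D ≤ centralizer (U : Set G) := Ores_le_iff.2 fun Y hY hYc => by
    refine le_centralizer_iff.1 (cop_le_centralizer (hY.trans hDN) (copA_of_p' (hS.isP.to_le hU) hYc)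
      ((commutator_mono le_rfl hY).trans hDU) (le_centralizer_iff.1 ?_))
    exact (le_Ores le_top hYc).trans (Ores_le_of_sup hS.isP
      (normalizer_centralizer (le_top.trans (le_normalizer_Op p ⊤))) (by rw [sup_comm, hne]))
  rw [← hP.Ores_sup, mem_sup_of_le_normalizer' (normalizer_Ores (inf_le_right.trans le_normalizer))] at hz
  obtain ⟨a, ha, s, hs, e⟩ := hz
  have e1 : cj s U = U := mem_normalizer_iff_cj.1 hs.1.2
  have e2 : cj (a * s) U = U := by rw [cj_mul, e1, cj_eq_of_mem_centralizer (hO1 ha)]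
  rw [show g = c * (a * s) by rw [e]; group]
  refine hR.comp hU trivial trivial (e2.symm ▸ hU) (by rw [cj_mul, e2]; exact h3) ?_ (e2.symm ▸ r1)
  exact hR.comp hU trivial trivial (e1.symm ▸ hU) (e2.symm ▸ hU)
    (low S le_rfl hST U hU s hs.1.1 (e1.symm ▸ hU)) (e1.symm ▸ cent U hU a (hO1 ha))

theorem NPS.subgroup (h : NPS p G) (H : Subgroup G) : NPS p H :=
  nps_iff_stOn.2 fun _ hP => StOn.of_map H.subtype le_rfl (by simp)
    (h.stOn (hP.map _) (map_le_normalizer_map _ le_rfl))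

end A

section B
variable {G : Type u} [Group G] [Finite G] {p : ℕ} [hp : Fact p.Prime] {W : ∀ (Q : Type u) [Group Q], Subgroup Q}
  {D S H : Subgroup G}

/-- `N(W(D))` controls fusion for strongly closed `D`. -/
def SCF (p : ℕ) (W : ∀ (Q : Type u) [Group Q], Subgroup Q) (G : Type u) [Group G] : Prop :=
  ∀ S D : Subgroup G, Syl p S ⊤ → SCl D S ⊤ → Ctl (normalizer (inducedFunctor W D : Set G)) S ⊤

/-- `N(W(D))` detects normal complements for strongly closed `D`. -/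
def SCD (p : ℕ) (W : ∀ (Q : Type u) [Group Q], Subgroup Q) (G : Type u) [Group G] : Prop :=
  ∀ S D : Subgroup G, Syl p S ⊤ → SCl D S ⊤ → NPC p (normalizer (inducedFunctor W D : Set G)) → NPC p (⊤ : Subgroup G)

/-- the ZJ-property for strongly closed subgroups -/
def SCN (p : ℕ) (W : ∀ (Q : Type u) [Group Q], Subgroup Q) : Prop :=
  ∀ (Δ : Type u) [Group Δ] [Finite Δ] (S D : Subgroup Δ), Syl p S ⊤ → SCl D S ⊤ → PStN p Δ →
    centralizer (Op p (⊤ : Subgroup Δ) : Set Δ) ≤ Op p ⊤ → (inducedFunctor W D).Normal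

theorem scn_fZA (hp2 : p ≠ 2) : SCN.{u} p fZA := fun _ _ _ _ _ a b c d => by rw [iF_fZA]; exact ZA_normal_sc hp2 a b c d

theorem scn_fOE (hp2 : p ≠ 2) : SCN.{u} p (fOE p) := fun _ _ _ _ _ a b c d => by
  rw [iF_fOE]; exact OE_normal_sc hp2 a b c d

theorem SCl.le_nmW (hW : IsCharPFunctor.{u} p W) (hD : SCl D S H) (hS : Syl p S H) :
    S ≤ H ⊓ normalizer (inducedFunctor W D : Set G) :=
  le_inf hS.le ((hD.le_nm hS.le).trans (cf_normalizer (cf_iF hW) (hS.isP.to_le hD.1)))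

theorem SCF.of_im (hW : IsCharPFunctor.{u} p W) {Γ : Type u} [Group Γ] [Finite Γ] (f : H →* Γ)
    (hf : Function.Surjective f) (hk : (Nat.card (kr f ⊓ H : Subgroup G)).Coprime p) (h : SCF p W Γ) (hS : Syl p S H)
    (hD : SCl D S H) : Ctl (H ⊓ normalizer (inducedFunctor W D : Set G)) S H := by
  refine Ctl.of_im f hS.isP (hD.le_nmW hW hS) inf_le_left le_rfl hk ?_
  rw [im_normalizer_iF f hW (hS.isP.to_le hD.1) (hD.1.trans hS.le) le_rfl hk, im_self f hf, top_inf_eq]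
  exact h _ _ (im_self f hf ▸ hS.im f le_rfl) (im_self f hf ▸ hD.im f hS le_rfl)

theorem SCD.of_im (hW : IsCharPFunctor.{u} p W) {Γ : Type u} [Group Γ] [Finite Γ] (f : H →* Γ)
    (hf : Function.Surjective f) (hk : (Nat.card (kr f ⊓ H : Subgroup G)).Coprime p) (h : SCD p W Γ) (hS : Syl p S H)
    (hD : SCl D S H) (h1 : NPC p (H ⊓ normalizer (inducedFunctor W D : Set G))) : NPC p H := by
  have h2 := h1.im f inf_le_left
  rw [im_normalizer_iF f hW (hS.isP.to_le hD.1) (hD.1.trans hS.le) le_rfl hk, im_self f hf, top_inf_eq] at h2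
  refine NPC.of_im f ?_ le_rfl hk
  rw [im_self f hf]
  exact h _ _ (im_self f hf ▸ hS.im f le_rfl) (im_self f hf ▸ hD.im f hS le_rfl) h2

theorem scf_local_global (hW : IsCharPFunctor.{u} p W) (hS : Syl p S ⊤) (hD : SCl D S ⊤)
    (loc : ∀ T ≤ S, T ≠ ⊥ → ∃ (Γ : Type u) (_ : Group Γ) (_ : Finite Γ) (f : normalizer (T : Set G) →* Γ),
      Function.Surjective f ∧ (Nat.card (kr f ⊓ normalizer (T : Set G) : Subgroup G)).Coprime p ∧ SCF p W Γ) :
    Ctl (normalizer (inducedFunctor W D : Set G)) S ⊤ :=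
  ctl_iff.2 (sc_local_global (cf_iF hW) hS hD (frel_Fz _ S ⊤) (fun _ _ _ => Fz.cent) (fun T h1 h2 h3 h4 => by
    obtain ⟨Γ, _, _, f, a1, a2, a3⟩ := loc T h1 h2
    exact (a3.of_im hW f a1 a2 h3 (hD.inf inf_le_left le_top)).bind (frel_Fz _ S ⊤) (fun _ _ _ => Fz.cent) inf_le_left h4)
    fun _ _ _ hg => Fz.single hg)

theorem ctl_of_normal {Y : Subgroup G} (h : Y.Normal) : Ctl (normalizer (Y : Set G)) S ⊤ :=
  fun _ _ g _ _ => ⟨g, le_normalizer_of_normal (mem_top g), by simpa using one_mem _⟩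

theorem SCl.pre (hW : IsCharPFunctor.{u} p W) (hS : Syl p S ⊤) (hD : SCl D S ⊤) {Γ : Type u} [Group Γ] [Finite Γ]
    (f : (⊤ : Subgroup G) →* Γ) (hk : kr f = Op p ⊤) (h : ¬ (inducedFunctor W D).Normal) :
    S ≤ normalizer (pre f (inducedFunctor W (H9.im f D)) : Set G) ∧
      normalizer (pre f (inducedFunctor W (H9.im f D)) : Set G) ≠ ⊤ := by
  have hP := isPGroup_im f (hS.isP.to_le hD.1)
  refine ⟨le_normalizer_pre f le_top ((im_le_normalizer f (hD.le_nm le_top)).trans (cf_normalizer (cf_iF hW) hP)),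
    normalizer_ne_top_of_Op (hS.isP.to_le ((pre_mono f (iF_le W _)).trans ?_)) fun e => cf_ne_bot (cf_iF hW) hP
      (fun e' => h ?_) ?_⟩
  · rw [pre_im f le_top, hk]; exact sup_le hD.1 hS.Op_le
  · have := hD.normal (hk ▸ (im_eq_bot_iff f le_top).1 e') hS.Op_le
    exact normal_of_top_le ((top_le_normalizer D).trans (cf_normalizer (cf_iF hW) (hS.isP.to_le hD.1)))
  · rw [← im_pre f ((iF_le W _).trans (im_le_im_self f D)), im_eq_bot_iff f le_top, hk]; exact e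

theorem scf_of_not_qd (hp2 : p ≠ 2) (hW : IsCharPFunctor.{u} p W) (hn : SCN p W) (G : Type u) [Group G] [Finite G] :
    ¬ Sect (qd p) (⊤ : Subgroup G) → SCF p W G := by
  refine card_induction (P := fun Δ _ _ => ¬ Sect (qd p) (⊤ : Subgroup Δ) → SCF p W Δ) (fun G _ _ ih hG S D hS hD => ?_) G
  replace ih : PropSec (fun Δ _ _ => SCF p W Δ) G := fun L Θ _ _ f hf hc =>
    ih L Θ f hf hc fun h1 => hG ((h1.of_section f hf).mono le_top)
  by_cases hnn : (inducedFunctor W D).Normal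
  · exact ctl_of_normal hnn
  have hC : ¬ centralizer (Op p (⊤ : Subgroup G) : Set G) ≤ Op p ⊤ := fun e =>
    hnn (hn G S D hS hD (pstN_of_not_qd hp2 hG) e)
  by_cases hQ : Op p (⊤ : Subgroup G) = ⊥
  · exact scf_local_global hW hS hD fun T h1 h2 => ⟨_, _, inferInstance, MonoidHom.id _, Function.surjective_id,
      by simp [kr_id], ih.subgroup (normalizer_ne_top_of_Op (hS.isP.to_le h1) fun h3 => h2 (eq_bot_iff.2 (h3.trans hQ.le)))⟩
  by_cases hO : Op' p (⊤ : Subgroup G) = ⊥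
  swap
  · obtain ⟨Γ, _, _, f, hf, -, hk, hc⟩ := exists_quot_Op' p (⊤ : Subgroup G)
    simpa using (ih _ _ f hf (card_lt_of_mul_eq hc hO)).of_im hW f hf (hk ▸ Op'_cop p ⊤) hS hD
  have low : ∀ H, S ≤ H → H ≠ ⊤ → RAll (Fz (normalizer (inducedFunctor W D : Set G) : Set G) S) S H := fun H h1 h2 =>
    ctl_iff.1 fun A a g b c => (SCF.of_im hW (MonoidHom.id H) Function.surjective_id (by simp [kr_id]) (ih.subgroup h2)
      (hS.mono h1 le_top) (hD.mono le_top) A a g b c).imp fun _ h => ⟨h.1.2, h.2⟩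
  rw [ctl_iff]
  by_cases hne : S ⊔ centralizer (Op p (⊤ : Subgroup G) : Set G) = ⊤
  swap
  · exact reduce_step hS (frel_Fz _ S ⊤) low hO hC hne
  obtain ⟨Γ, _, _, f, hf, hk, hc⟩ := exists_quot (le_top : Op p ⊤ ≤ (⊤ : Subgroup G)) (le_normalizer_Op p ⊤)
  obtain ⟨a1, a2⟩ := hD.pre hW hS f hk hnn
  refine central_step hS (frel_Fz _ S ⊤) (fun _ _ _ => Fz.cent) low hne f hk a1 a2 ?_
  rw [← top_inf_eq (normalizer _), im_normalizer_pre f hf]
  exact ih _ _ f hf (card_lt_of_mul_eq hc hQ) _ _ (im_self f hf ▸ hS.im f le_rfl) (im_self f hf ▸ hD.im f hS le_rfl)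

theorem scf_of_con (hW : IsCharPFunctor.{u} p W) (hn : SCN p W) (hst : NPS p G) (hS : Syl p S ⊤) (hD : SCl D S ⊤)
    (hc : ∀ U ≤ S, U ≠ ⊥ → IsPConstrained p (normalizer (U : Set G))) :
    Ctl (normalizer (inducedFunctor W D : Set G)) S ⊤ :=
  scf_local_global hW hS hD fun T h1 h2 => ⟨_, _, inferInstance, QuotientGroup.mk' (pPrimeCore p _),
    QuotientGroup.mk'_surjective _, by rw [kr_mk'_pPrimeCore]; exact cop_of_le (Op'_cop p _) inf_le_left,
    fun _ _ a b => ctl_of_normal (hn _ _ _ a b (pst_iff_quot.1 fun P c _ => nps_iff_stOn.1 (hst.subgroup _) P c)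
      (constrained_quot (hc T h1 h2)))⟩

theorem scd_all (hp2 : p ≠ 2) (hW : IsCharPFunctor.{u} p W) (hn : SCN p W) (G : Type u) [Group G] [Finite G] :
    SCD p W G := by
  refine card_induction (P := fun Δ _ _ => SCD p W Δ) (fun G _ _ ih S D hS hD hN => ?_) G
  by_contra hG
  have sub : ∀ H P E : Subgroup G, H ≠ ⊤ → Syl p P H → SCl E P H →
      NPC p (H ⊓ normalizer (inducedFunctor W E : Set G)) → NPC p H := fun H P E h1 h2 h3 =>
    SCD.of_im hW (MonoidHom.id H) Function.surjective_id (by simp [kr_id]) (ih.subgroup h1) h2 h3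
  have low : ∀ H, S ≤ H → H ≠ ⊤ → NPC p H := fun H h1 h2 =>
    sub H S D h2 (hS.mono h1 le_top) (hD.mono le_top) (hN.mono inf_le_right)
  have hnn : ¬ (inducedFunctor W D).Normal := fun h => hG (hN.mono (top_le_normalizer _))
  have hO : Op' p (⊤ : Subgroup G) = ⊥ := by
    by_contra hO
    obtain ⟨Γ, _, _, f, hf, -, hk, hc⟩ := exists_quot_Op' p (⊤ : Subgroup G)
    exact hG (SCD.of_im hW f hf (hk ▸ Op'_cop p ⊤) (ih _ _ f hf (card_lt_of_mul_eq hc hO)) hS hD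
      (hN.mono inf_le_right))
  have hR := frel_Fz (S : Set G) S ⊤
  have hQ : Op p (⊤ : Subgroup G) ≠ ⊥ := fun hQ => hG ((npc_iff_rall hS.isP le_rfl hS).2
    (sc_local_global (cf_iF hW) hS hD hR (fun _ _ _ => Fz.cent) (fun T h1 h2 h3 h4 =>
      (npc_iff_rall hS.isP inf_le_left h3).1 (sub _ _ _
        (normalizer_ne_top_of_Op (hS.isP.to_le h1) fun h3 => h2 (eq_bot_iff.2 (h3.trans hQ.le))) h3
        (hD.inf inf_le_left le_top) ((npc_iff_rall hS.isP inf_le_left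
          (h3.mono ((hD.inf inf_le_left le_top).le_nmW hW h3) inf_le_left)).2 h4)))
      ((npc_iff_rall hS.isP le_rfl (hS.mono ((hD.le_nmW hW hS).trans inf_le_right) le_top)).1 hN)))
  set f := onTop (QuotientGroup.mk' (pCore p G)) with hf'
  have hf : Function.Surjective f := onTop_surjective (QuotientGroup.mk'_surjective _)
  have hk : kr f = Op p ⊤ := by rw [kr_onTop, QuotientGroup.ker_mk', Op_top]
  obtain ⟨a2, a3⟩ := hD.pre hW hS f hk hnn
  have hquo : NPC p (⊤ : Subgroup (G ⧸ pCore p G)) := by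
    refine ih _ _ f hf (card_lt_of_mul_eq (X := ⊤) ?_ hQ) _ _ (im_self f hf ▸ hS.im f le_rfl)
      (im_self f hf ▸ hD.im f hS le_rfl) ?_
    · rw [Op_top, card_top, card_eq_card_quotient_mul_card_subgroup (pCore p G)]
    · rw [← im_normalizer_pre f hf, top_inf_eq]; exact (low _ a2 a3).im f le_top
  have hC : centralizer (Op p (⊤ : Subgroup G) : Set G) ≤ Op p ⊤ := by
    by_contra hC
    by_cases hne : S ⊔ centralizer (Op p (⊤ : Subgroup G) : Set G) = ⊤
    swap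
    · exact hG ((npc_iff_rall hS.isP le_rfl hS).2 (reduce_step hS hR (fun H h1 h2 =>
        (npc_iff_rall hS.isP le_rfl (hS.mono h1 le_top)).1 (low H h1 h2)) hO hC hne))
    have a1 : Ores p ⊤ ≤ centralizer (Op p (⊤ : Subgroup G) : Set G) := Ores_le_of_sup hS.isP
      (normalizer_centralizer (le_top.trans (le_normalizer_Op p ⊤))) (by rw [sup_comm, hne])
    have a2 := hS.inf_normal (Ores_le p ⊤) (normalizer_Ores le_normalizer)
    have a3 : S ⊓ Ores p ⊤ ≤ Op p ⊤ := by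
      rw [← hk, ← im_eq_bot_iff f le_top]
      refine eq_bot_of_p_p' (isPGroup_im f a2.isP) (cop_of_le hquo ?_)
      rw [← im_self f hf, ← im_Ores f le_rfl]; exact im_mono f inf_le_right
    have a4 := npc_of_central_syl a2 (inf_le_left.trans (a1.trans (centralizer_anti a3)))
    rw [NPC, Ores_Ores] at a4
    exact hG a4
  have hm : IsCoatom S := ⟨fun e => a3 (eq_top_iff.2 (e ▸ a2)), fun H h1 => by
    by_contra h2
    have a1 := (low H h1.le h2).eq_sup (hS.mono h1.le le_top)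
    have a2 : Op' p H ≤ Op p ⊤ := le_trans (le_centralizer_iff.1 (commutator_eq_bot_iff_le_centralizer.1
      (commutator_eq_bot_of_p_p' (Op_p p ⊤) (Op'_cop p H) ((hS.Op_le.trans h1.le).trans (le_normalizer_Op' p H))
        le_normalizer_of_normal))) hC
    rw [sup_eq_right.2 (a2.trans hS.Op_le)] at a1
    exact h1.ne a1⟩
  exact hnn (hn G S D hS hD (pstN_of_not_qd hp2 fun e => not_sect_of_coatom hp2 hS hm (npc_top_iff.1 hquo) e.sl2_of_qd) hC)

end B

end H9
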