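import Mathlib
import Cfsg.Agent.H2.Fus10

/-!
H9.VF: the group of lifts to the universal cover of a graph with a group action.
-/

set_option autoImplicit false
set_option linter.unusedSectionVars false

namespace H9.VF

open Subgroup FreeGroup MulAction

section
variable {K E V : Type*} [Group K] [MulAction K E] [MulAction K V] [DecidableEq E]

def sm (g : K) (a : E × Bool) : E × Bool := (g • a.1, a.2)

def act (K E : Type*) [Group K] [MulAction K E] : K →* MulAut (FreeGroup E) where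
  toFun g := freeGroupCongr (toPerm g)
  map_one' := MulEquiv.toMonoidHom_injective (FreeGroup.ext_hom _ _ fun x => by simp)
  map_mul' g h := MulEquiv.toMonoidHom_injective (FreeGroup.ext_hom _ _ fun x => by simp [mul_smul])

theorem act_mk (g : K) (L : List (E × Bool)) : act K E g (mk L) = mk (L.map (sm g)) := rfl

theorem toWord_act (g : K) (x : FreeGroup E) : (act K E g x).toWord = x.toWord.map (sm g) := by
  conv_lhs => rw [← mk_toWord (x := x), act_mk, toWord_mk]
  refine IsReduced.reduce_eq ((List.isChain_map _).2 (isReduced_toWord.imp fun a b h e => h ?_))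
  exact MulAction.injective g e

theorem norm_act (g : K) (x : FreeGroup E) : (act K E g x).norm = x.norm := by
  simp [FreeGroup.norm, toWord_act]

theorem hd {x : FreeGroup E} {a : E × Bool} {U : List (E × Bool)} (h : x.toWord = a :: U) :
    ((mk [a])⁻¹ * x).toWord = U := by
  have r : IsReduced (a :: U) := h ▸ isReduced_toWord
  rw [← mk_toWord (x := x), h, show mk (a :: U) = mk [a] * mk U from rfl, inv_mul_cancel_left, toWord_mk]
  exact (r.infix (List.suffix_cons a U).isInfix).reduce_eq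

theorem nc {x y : FreeGroup E} {a b : E × Bool} {U W : List (E × Bool)} (h : x.toWord = b :: U)
    (h' : y.toWord = a :: W) (e : b ≠ a) : W.length + 1 < (x⁻¹ * y).norm := by
  have r : IsReduced (a :: W) := h' ▸ isReduced_toWord
  have r' : IsReduced (invRev U ++ invRev [b]) := by rw [← invRev_cons, ← h, ← toWord_inv]; exact isReduced_toWord
  have : IsReduced (invRev [b] ++ a :: W) := isReduced_cons_cons.2 ⟨fun k => by
    by_contra c
    exact e (Prod.ext k (Bool.not_eq_iff.not.1 c |> not_not.1)), r⟩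
  rw [FreeGroup.norm, toWord_mul, toWord_inv, h, h', invRev_cons, (r'.append_overlap this (by simp [invRev])).reduce_eq]
  simp [invRev]
  omega

/-- a graph with an action, transitive on vertices -/
structure Gr (K E V : Type*) [Group K] [MulAction K E] [MulAction K V] where
  e : Bool → E → V
  eq : ∀ b (g : K) x, e b (g • x) = g • e b x
  v : V
  tr : ∀ w, ∃ g : K, g • v = w

variable (Γ : Gr K E V)

def Gr.P : V → List (E × Bool) → V → Prop
  | v, [], w => v = w
  | v, a :: L, w => Γ.e a.2 a.1 = v ∧ Gr.P (Γ.e (!a.2) a.1) L w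

variable {Γ}

theorem P_append {L M : List (E × Bool)} {u w : V} : Γ.P u (L ++ M) w ↔ ∃ v, Γ.P u L v ∧ Γ.P v M w := by
  induction L generalizing u with
  | nil => simp [Gr.P]
  | cons a L ih => simp [Gr.P, ih, and_assoc]

theorem P_map (g : K) {L : List (E × Bool)} {u w : V} (h : Γ.P u L w) : Γ.P (g • u) (L.map (sm g)) (g • w) := by
  induction L generalizing u with
  | nil => exact congrArg _ h
  | cons a L ih => exact ⟨(Γ.eq _ _ _).trans (congrArg _ h.1), (Γ.eq (!a.2) g a.1).symm ▸ ih h.2⟩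

theorem P_inv {L : List (E × Bool)} {u w : V} (h : Γ.P u L w) : Γ.P w (invRev L) u := by
  induction L generalizing u with
  | nil => exact Eq.symm h
  | cons a L ih => rw [invRev_cons]; exact P_append.2 ⟨_, ih h.2, rfl, by simpa [Gr.P] using h.1⟩

theorem P_red {L M : List (E × Bool)} {u w : V} (r : Red L M) (h : Γ.P u L w) : Γ.P u M w := by
  induction r with
  | refl => exact h
  | tail _ s ih =>
    cases s
    obtain ⟨v, a, b, c, d⟩ := P_append.1 ih
    exact P_append.2 ⟨v, a, by simpa [← b] using d⟩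

variable (Γ) in
def Gr.G : Subgroup (FreeGroup E ⋊[act K E] K) where
  carrier := {h | ∃ L, FreeGroup.mk L = h.left ∧ Γ.P Γ.v L (h.right • Γ.v)}
  one_mem' := ⟨[], rfl, (one_smul K _).symm⟩
  mul_mem' := by
    rintro h k ⟨L, a, b⟩ ⟨M, c, d⟩
    refine ⟨L ++ M.map (sm h.right), by rw [SemidirectProduct.mul_left, ← a, ← c]; rfl, P_append.2 ⟨_, b, ?_⟩⟩
    rw [SemidirectProduct.mul_right, mul_smul]
    exact P_map _ d
  inv_mem' := by
    rintro h ⟨L, a, b⟩
    refine ⟨(invRev L).map (sm h.right⁻¹), by rw [SemidirectProduct.inv_left, ← a]; rfl, ?_⟩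
    have := P_map h.right⁻¹ (P_inv b)
    rwa [inv_smul_smul] at this

theorem G_word {h : FreeGroup E ⋊[act K E] K} (k : h ∈ Γ.G) : Γ.P Γ.v h.left.toWord (h.right • Γ.v) := by
  obtain ⟨L, a, b⟩ := k
  rw [← a, toWord_mk]
  exact P_red reduce.red b

theorem fix (D : ℕ) : ∀ H ≤ Γ.G, (∀ h ∈ H, h.left.norm ≤ D) → ∃ k ∈ Γ.G, ∀ h ∈ H, (k * h * k⁻¹).left = 1 := by
  induction D with
  | zero => exact fun H _ h => ⟨1, one_mem _, fun x hx => by simpa using h x hx⟩
  | succ D ih =>
  intro H hH hD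
  by_cases c : ∀ h ∈ H, h.left.norm ≤ D
  · exact ih H hH c
  push Not at c
  obtain ⟨h₀, h0, h1⟩ := c
  obtain ⟨a, W, e⟩ := List.exists_cons_of_length_pos (Nat.zero_lt_of_lt h1)
  have l : W.length = D := by
    have := hD h₀ h0
    simp only [FreeGroup.norm, e, List.length_cons] at this h1
    omega
  have c1 : ∀ h ∈ H, ∀ b U, h.left.toWord = b :: U → b = a := fun h hh b U k => by_contra fun n => by
    have := hD _ (H.mul_mem (H.inv_mem hh) h0)
    rw [SemidirectProduct.mul_left, SemidirectProduct.inv_left, SemidirectProduct.inv_right, ← _root_.map_mul, norm_act] at this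
    exact (l ▸ nc k e n).not_ge this
  have c2 : ∀ h ∈ H, ((mk [a])⁻¹ * h.left * mk [sm h.right a]).norm ≤ D := fun h hh => by
    rcases k : h.left.toWord with _ | ⟨b, U⟩
    · have := c1 _ (H.mul_mem hh h0) (sm h.right a) (W.map (sm h.right)) (by
        rw [SemidirectProduct.mul_left, toWord_eq_nil_iff.1 k, one_mul, toWord_act, e, List.map_cons])
      rw [this, toWord_eq_nil_iff.1 k, mul_one, inv_mul_cancel, FreeGroup.norm_one]
      exact D.zero_le
    obtain rfl := c1 h hh b U k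
    have k1 : U.length ≤ D := by
      have := hD h hh
      simp only [FreeGroup.norm, k, List.length_cons] at this
      omega
    have k2 := c1 _ (H.inv_mem hh)
    rw [SemidirectProduct.inv_left, toWord_act, toWord_inv, k, invRev_cons] at k2
    rcases k3 : invRev U with _ | ⟨d, U'⟩
    · have := congrArg Prod.snd (k2 _ [] (by rw [k3]; rfl))
      simp [sm] at this
    have k4 : sm h.right b = d := by
      rw [← k2 (sm h.right⁻¹ d) _ (by rw [k3]; rfl)]
      simp [sm]
    rw [← norm_inv_eq, mul_inv_rev, FreeGroup.norm, k4, hd (U := U') (by rw [toWord_inv, hd k, k3])]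
    have := congrArg List.length k3
    simp at this
    omega
  obtain ⟨g, hg⟩ := Γ.tr (Γ.e (!a.2) a.1)
  have := G_word (hH h0)
  rw [e] at this
  have m : (⟨mk [a], g⟩ : FreeGroup E ⋊[act K E] K) ∈ Γ.G := ⟨[a], rfl, this.1, hg.symm⟩
  obtain ⟨k, k1, k2⟩ := ih (H.map (MulAut.conj (⟨mk [a], g⟩ : FreeGroup E ⋊[act K E] K)⁻¹).toMonoidHom)
    (by
      rintro _ ⟨h, hh, rfl⟩
      exact mul_mem (mul_mem (inv_mem m) (hH hh)) (inv_mem (inv_mem m)))
    (by
      rintro _ ⟨h, hh, rfl⟩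
      refine le_of_eq_of_le ?_ (c2 h hh)
      rw [← norm_act g⁻¹ (_ * mk [sm h.right a]), ← show act K E h.right (mk [a]) = mk [sm h.right a] from rfl]
      simp)
  refine ⟨_, mul_mem k1 (inv_mem m), fun h hh => ?_⟩
  rw [← k2 _ ⟨h, hh, rfl⟩]
  simp [mul_assoc]

theorem fix' {H : Subgroup (FreeGroup E ⋊[act K E] K)} [Finite H] (h : H ≤ Γ.G) :
    ∃ k ∈ Γ.G, ∀ h ∈ H, (k * h * k⁻¹).left = 1 :=
  let ⟨D, hD⟩ := (Set.finite_range fun x : H => x.1.left.norm).bddAbove
  fix D H h fun x hx => hD ⟨⟨x, hx⟩, rfl⟩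

theorem G_left {h : FreeGroup E ⋊[act K E] K} (k : h ∈ Γ.G) (e : h.left = 1) : h.right • Γ.v = Γ.v := by
  have := G_word k
  rw [e, toWord_one] at this
  exact Eq.symm this

end

theorem exists_m {S : Type*} [Group S] [Finite S] {P : Subgroup S} (φ : P →* S) (h : Function.Injective φ) :
    ∃ m : (S ⧸ P) × P ≃ S, ∀ c x y, m (c, y * x) = φ y * m (c, x) := by
  have c : Nat.card (S ⧸ P) = Nat.card (S ⧸ φ.range) := by
    have a := P.card_mul_index
    rw [← φ.range.card_mul_index, ← Nat.card_congr (φ.ofInjective h).toEquiv] at a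
    exact Nat.eq_of_mul_eq_mul_left Nat.card_pos a
  obtain ⟨e⟩ := Finite.card_eq.1 c
  refine ⟨Equiv.ofBijective (fun z => φ z.2 * ((e z.1).out)⁻¹) ((Nat.bijective_iff_injective_and_card _).2
    ⟨fun z w k => ?_, ?_⟩), fun c x y => by simp [mul_assoc]⟩
  · have k1 : e z.1 = e w.1 := by
      rw [← (e z.1).out_eq', ← (e w.1).out_eq']
      refine QuotientGroup.eq.2 ⟨z.2⁻¹ * w.2, ?_⟩
      rw [_root_.map_mul, _root_.map_inv, inv_mul_eq_iff_eq_mul, ← mul_assoc,
        show φ z.2 * _ = φ w.2 * ((e w.1).out)⁻¹ from k, inv_mul_cancel_right]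
    have k' : φ z.2 * ((e z.1).out)⁻¹ = φ w.2 * ((e w.1).out)⁻¹ := k
    rw [k1] at k'
    exact Prod.ext (e.injective k1) (h (mul_right_cancel k'))
  · rw [Nat.card_prod, ← card_eq_card_quotient_mul_card_subgroup]

theorem exists_pi {S : Type*} [Group S] [Finite S] {P : Subgroup S} (φ : P →* S) (h : Function.Injective φ) :
    ∃ π : Equiv.Perm S, ∀ y : P, toPermHom S S (φ y) = π * toPermHom S S y * π⁻¹ := by
  obtain ⟨m, a⟩ := exists_m P.subtype P.subtype_injective
  obtain ⟨n, b⟩ := exists_m φ h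
  refine ⟨m.symm.trans n, fun y => eq_mul_inv_iff_mul_eq.2 (Equiv.ext fun x => ?_)⟩
  obtain ⟨⟨c, z⟩, rfl⟩ := m.surjective x
  have := a c z y
  simp only [coe_subtype] at this
  simp [← this, b]

open H2 Cfsg Equiv

universe u
variable {Ω : Type u} [Group Ω] {S : Subgroup Ω} {F : FusionSystem S}

theorem fus {K E V : Type*} [Group K] [MulAction K E] [MulAction K V] (Γ : Gr K E V) (l : Ω → K) (hl : HomOn S l)
    (hi : Set.InjOn l S) (h0 : ∀ g, g • Γ.v = Γ.v → ∃ s ∈ S, l s = g)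
    (h1 : ∀ a : E × Bool, Γ.e a.2 a.1 = Γ.v → ∃ g, g • Γ.v = Γ.e (!a.2) a.1 ∧ ∀ R ≤ S,
      (∀ y ∈ R, (g * l y * g⁻¹) • a.1 = a.1) → ∃ f, Mor F R f ∧ ∀ y ∈ R, l (f y) = g * l y * g⁻¹)
    {P : Subgroup Ω} (hP : P ≤ S) (g : K) (L : List (E × Bool)) : ∀ u : K, Γ.P (u • Γ.v) L (g • Γ.v) →
      (∀ a ∈ L, ∀ x ∈ P, (g * l x * g⁻¹) • a.1 = a.1) →
      ∃ f, Mor F P f ∧ ∀ x ∈ P, l (f x) = u⁻¹ * g * l x * (u⁻¹ * g)⁻¹ := by
  induction L with
  | nil =>
    intro u h _
    obtain ⟨s, hs, e⟩ := h0 (u⁻¹ * g) (by rw [mul_smul, ← show _ = g • Γ.v from h, inv_smul_smul])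
    exact ⟨_, mor_cg F hP hs, fun x hx => e ▸ hl.map_conj hs (hP hx)⟩
  | cons a L ih =>
    intro u h k
    obtain ⟨w, a1, a2⟩ := h1 (sm u⁻¹ a) (by rw [sm, Γ.eq, h.1, inv_smul_smul])
    obtain ⟨f, b1, b2⟩ := ih (u * w) (by rw [mul_smul, a1, sm, Γ.eq, smul_inv_smul]; exact h.2)
      fun b hb => k b (List.mem_cons_of_mem _ hb)
    obtain ⟨f', c1, c2⟩ := a2 _ b1.img_le fun y hy => by
      obtain ⟨x, hx, rfl⟩ := b1.homOn.mem_img.1 hy
      conv_rhs => rw [sm, ← k a List.mem_cons_self x hx]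
      rw [b2 x hx, sm, ← mul_smul, ← mul_smul]
      congr 1
      group
    refine ⟨_, b1.comp c1 fun x hx => mem_img_of_mem hx, fun x hx => ?_⟩
    rw [c2 _ (mem_img_of_mem hx), b2 x hx]
    group

theorem main [Finite S] (F : FusionSystem S) : ∃ (G : Type u) (_ : Group G) (ι : S →* G), F.IsRealizedBy ι ∧
    (∀ H : Subgroup G, Finite H → ∃ g : G, ∀ h ∈ H, g * h * g⁻¹ ∈ ι.range) ∧
    ∃ N : Subgroup G, N.Normal ∧ IsFreeGroup N ∧ N.index ∣ (Nat.card S).factorial := by
  classical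
  let lam := toPermHom S S
  have li : Function.Injective lam := toPerm_injective
  have hl := homOn_fn lam
  have hi : Set.InjOn (fn lam) S := fun x hx y hy e => by
    rw [fn_apply _ hx, fn_apply _ hy] at e
    exact congrArg Subtype.val (li e)
  let I := {i : Subgroup Ω × Perm Ω // Mor F i.1 i.2}
  have hp : ∀ i : I, ∃ π : Perm S, ∀ y ∈ i.1.1, fn lam (i.1.2 y) = π * fn lam y * π⁻¹ := fun ⟨⟨P, σ⟩, h⟩ => by
    obtain ⟨π, e⟩ := exists_pi (P := P.subgroupOf S) ((h.homOn.toHom.codRestrict S fun x => h.mem x.2).comp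
      (subgroupOfEquivOfLe h.le).toMonoidHom) fun x y e =>
        Subtype.ext (Subtype.ext (h.injOn x.2 y.2 (congrArg Subtype.val e)))
    refine ⟨π, fun y hy => ?_⟩
    rw [fn_apply _ (h.mem hy), fn_apply _ (h.le hy)]
    exact e ⟨⟨y, h.le hy⟩, hy⟩
  choose π hπ using hp
  let B : I → Subgroup (Perm S) := fun i => img (fn lam) i.1.1
  have hB : ∀ i x, x ∈ B i ↔ ∃ y ∈ i.1.1, fn lam y = x := fun i x => mem_img_fn i.2.le
  have hA : ∀ s ∈ S, fn lam s ∈ lam.range := fun s hs => ⟨⟨s, hs⟩, (fn_apply _ hs).symm⟩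
  let c : Bool → I → Perm S := fun b i => if b then (π i)⁻¹ else 1
  let Γ : Gr (Perm S) (Σ i, Perm S ⧸ B i) (Perm S ⧸ lam.range) :=
    { e := fun b x => Quotient.liftOn' x.2 (fun g => ((g * c b x.1 : Perm S) : Perm S ⧸ lam.range)) fun g g' e => by
        obtain ⟨y, hy, e'⟩ := (hB _ _).1 (QuotientGroup.leftRel_apply.1 e)
        refine QuotientGroup.eq.2 ?_
        rw [show (g * c b x.1)⁻¹ * (g' * c b x.1) = (c b x.1)⁻¹ * (g⁻¹ * g') * c b x.1 by group, ← e']
        cases b
        · simpa [c] using hA y (x.1.2.le hy)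
        · simpa [c, ← hπ _ y hy] using hA _ (x.1.2.mem hy)
      eq := by
        rintro b g ⟨i, ⟨x⟩⟩
        exact congrArg QuotientGroup.mk (mul_assoc g x _)
      v := (1 : Perm S)
      tr := by
        rintro ⟨x⟩
        exact ⟨x, congrArg QuotientGroup.mk (mul_one x)⟩ }
  have h0 : ∀ g : Perm S, g • Γ.v = Γ.v → ∃ s ∈ S, fn lam s = g := fun g e => by
    obtain ⟨s, hs⟩ := QuotientGroup.eq.1 e.symm
    exact ⟨s, s.2, by simpa [← fn_coe] using hs⟩
  have h0' : ∀ s : S, lam s • Γ.v = Γ.v := fun s =>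
    (QuotientGroup.eq.2 (MonoidHom.mem_range.2 ⟨s, by simp⟩)).symm
  let ι : S →* Γ.G := (SemidirectProduct.inr.comp lam).codRestrict _ fun s => ⟨[], rfl, (h0' s).symm⟩
  have hι : ∀ x ∈ S, (fn ι x).1 = SemidirectProduct.inr (fn lam x) := fun x hx => by
    rw [fn_apply _ hx, fn_apply _ hx]; rfl
  refine ⟨Γ.G, inferInstance, ι, realized_iff.2 ⟨fun x y e => li (SemidirectProduct.inr_injective (congrArg Subtype.val e)),
    fun P σ h => ?_, fun P hP σ h g e => ?_⟩, fun H _ => ?_, (SemidirectProduct.rightHom.comp Γ.G.subtype).ker,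
    inferInstance, ?_, ?_⟩
  · let i : I := ⟨⟨P, σ⟩, h⟩
    refine ⟨⟨⟨FreeGroup.mk [(⟨i, (π i : Perm S ⧸ B i)⟩, true)], π i⟩, _, rfl,
      congrArg QuotientGroup.mk (mul_inv_cancel _), rfl⟩, fun x hx => Subtype.ext (eq_mul_inv_iff_mul_eq.2 ?_)⟩
    rw [Subgroup.coe_mul, hι _ (h.mem hx), hι _ (h.le hx)]
    refine SemidirectProduct.ext ?_ (by simpa using eq_mul_inv_iff_mul_eq.1 (hπ i x hx))
    have : fn lam (σ x) • (π i : Perm S ⧸ B i) = π i :=
      (QuotientGroup.eq.2 ((hB _ _).2 ⟨x, hx, by simp only [show fn lam (σ x) = _ from hπ i x hx, smul_eq_mul]; group⟩)).symm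
    simp only [SemidirectProduct.mul_left, SemidirectProduct.left_inr, SemidirectProduct.right_inr, one_mul,
      _root_.map_one, mul_one, act_mk, List.map, sm, Sigma.smul_mk, this]
  · have e' : ∀ x ∈ P, SemidirectProduct.inr (fn lam (σ x)) * g.1 = g.1 * SemidirectProduct.inr (fn lam x) :=
      fun x hx => by
        rw [← hι _ (h x hx), ← hι _ (hP hx), e x hx]; simp
    have e2 : ∀ x ∈ P, fn lam (σ x) = g.1.right * fn lam x * g.1.right⁻¹ := fun x hx =>
      eq_mul_inv_iff_mul_eq.2 (congrArg SemidirectProduct.right (e' x hx))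
    obtain ⟨f, a, b⟩ := fus (F := F) Γ (fn lam) hl hi h0 (by
      rintro ⟨⟨i, ⟨x⟩⟩, b⟩ k
      refine ⟨x * c (!b) i, congrArg QuotientGroup.mk (mul_one _), fun R hR k' => ?_⟩
      obtain ⟨s, hs, e⟩ := h0 (x * c b i) ((congrArg QuotientGroup.mk (mul_one _)).trans k)
      have k2 : ∀ y ∈ R, ∃ z ∈ i.1.1, fn lam z = c (!b) i * fn lam y * (c (!b) i)⁻¹ := fun y hy => by
        obtain ⟨z, hz, e⟩ := (hB _ _).1 (QuotientGroup.eq.1 (eq_of_heq (Sigma.mk.inj (k' y hy)).2).symm)
        exact ⟨z, hz, by simp only [e, smul_eq_mul]; group⟩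
      cases b
      · have k3 : ∀ y ∈ R, ∃ z ∈ i.1.1, i.1.2 z = y ∧ fn lam z = (π i)⁻¹ * fn lam y * (π i)⁻¹⁻¹ := fun y hy => by
          obtain ⟨z, hz, e⟩ := k2 y hy
          refine ⟨z, hz, hi (i.2.mem hz) (hR hy) ?_, e⟩
          rw [hπ i z hz, e]; simp [c, mul_assoc]
        refine ⟨_, (i.2.inv.mono fun y hy => ?_).mul_cg hs, fun y hy => ?_⟩
        · obtain ⟨z, hz, rfl, -⟩ := k3 y hy
          exact mem_img_of_mem hz
        · obtain ⟨z, hz, rfl, e'⟩ := k3 y hy
          have := hl.map_conj hs (i.2.le hz)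
          rw [e, e'] at this
          simpa [c, mul_assoc] using this
      · have k3 : R ≤ i.1.1 := fun y hy => by
          obtain ⟨z, hz, e⟩ := k2 y hy
          exact hi (i.2.le hz) (hR hy) (by simpa [c] using e) ▸ hz
        refine ⟨_, (i.2.mono k3).mul_cg hs, fun y hy => ?_⟩
        have := hl.map_conj hs (i.2.mem (k3 hy))
        rw [e, hπ i y (k3 hy)] at this
        simpa [c, mul_assoc] using this) hP g.1.right g.1.left.toWord 1 (by rw [one_smul]; exact G_word g.2)
      fun a ha x hx => by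
        have := congrArg (fun z => z.left.toWord) (e' x hx)
        simp only [SemidirectProduct.mul_left, SemidirectProduct.left_inr, SemidirectProduct.right_inr, one_mul,
          _root_.map_one, mul_one] at this
        rw [toWord_act] at this
        rw [← e2 x hx]
        exact congrArg Prod.fst (List.map_eq_map_iff.1 (this.trans (List.map_id _).symm) a ha)
    exact a.congr fun x hx => hi (a.mem hx) (h x hx) (by rw [b x hx, e2 x hx, inv_one, one_mul])
  · have : Finite (H.map Γ.G.subtype) := .of_equiv _ (H.equivMapOfInjective _ Γ.G.subtype_injective).toEquiv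
    obtain ⟨k, a, b⟩ := fix' (Γ := Γ) (H := H.map Γ.G.subtype) (map_subtype_le H)
    refine ⟨⟨k, a⟩, fun h hh => ?_⟩
    have b' := b h.1 ⟨h, hh, rfl⟩
    obtain ⟨s, hs, e⟩ := h0 _ (G_left (mul_mem (mul_mem a h.2) (inv_mem a)) b')
    refine ⟨⟨s, hs⟩, Subtype.ext ?_⟩
    rw [Subgroup.coe_mul, Subgroup.coe_mul, Subgroup.coe_inv, ← fn_apply _ hs, hι s hs]
    exact SemidirectProduct.ext b'.symm e
  · let f : (SemidirectProduct.rightHom.comp Γ.G.subtype).ker →* FreeGroup (Σ i, Perm S ⧸ B i) :=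
      MonoidHom.mk' (fun x => x.1.1.left) fun x y => by
        rw [Subgroup.coe_mul, Subgroup.coe_mul, SemidirectProduct.mul_left, show x.1.1.right = 1 from x.2]
        simp
    exact IsFreeGroup.ofMulEquiv (f.ofInjective fun x y e => Subtype.ext (Subtype.ext (SemidirectProduct.ext e
      (Eq.trans x.2 y.2.symm)))).symm
  · rw [index_ker, ← Nat.card_perm]
    exact card_subgroup_dvd_card _

end H9.VF
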