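import Cfsg.Agent.H2.Fus27
import Cfsg.Agent.L.PG1

/-!
H9.WE: a nilpotency criterion for fusion systems through weakly embedded subgroups.
-/

set_option autoImplicit false
set_option linter.unusedSectionVars false

namespace H9.WE

open Subgroup Cfsg Equiv H2
open scoped commutatorElement

universe u

variable {Ω : Type u} [Group Ω] {S T : Subgroup Ω} [Finite S] {F : FusionSystem S} {p : ℕ} [hp : Fact p.Prime]

theorem fin {A : Subgroup Ω} (h : A ≤ S) : Finite A := .of_injective _ (inclusion_injective h)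

theorem nb (hS : IsPGroup p S) {A B : Subgroup Ω} (hAB : A ≤ B) (hB : B ≤ S) (nA : S ≤ normalizer (A : Set Ω))
    (nB : S ≤ normalizer (B : Set Ω)) {k : ℕ} (h1 : Nat.card A ≤ p ^ k) (h2 : p ^ k ≤ Nat.card B) :
    ∃ C, A ≤ C ∧ C ≤ B ∧ S ≤ normalizer (C : Set Ω) ∧ Nat.card C = p ^ k := by
  have := normal_subgroupOf_of nA
  have := normal_subgroupOf_of nB
  have := fin (hAB.trans hB)
  obtain ⟨a, ha⟩ := IsPGroup.iff_card.1 (hS.to_le (hAB.trans hB))
  have c : ∀ X ≤ S, Nat.card (X.subgroupOf S) = Nat.card X := fun X h => Nat.card_congr (subgroupOfEquivOfLe h).toEquiv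
  obtain ⟨j, rfl⟩ := Nat.exists_eq_add_of_le ((Nat.pow_le_pow_iff_right hp.out.one_lt).1 (ha ▸ h1))
  obtain ⟨M, x, y, z, w⟩ := L.exists_normal_card (L := ⊤) (N := A.subgroupOf S) (C := B.subgroupOf S)
    (hS.to_subgroup ⊤) (comap_mono hAB) le_top le_normalizer_of_normal le_normalizer_of_normal j
    (by rw [c _ hB, c _ (hAB.trans hB), ha, ← pow_add]; exact h2)
  refine ⟨M.map S.subtype, ?_, map_le_iff_le_comap.2 y, ?_, ?_⟩
  · rw [← map_subgroupOf_eq_of_le (hAB.trans hB)]; exact map_mono x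
  · have := H9.map_le_normalizer_map S.subtype z
    rwa [← MonoidHom.range_eq_map, range_subtype] at this
  · rw [card_map_of_injective S.subtype_injective, w, c _ (hAB.trans hB), ha, pow_add]

/-- every map defined on `R` is a conjugation in `S` -/
def In (F : FusionSystem S) (R : Subgroup Ω) : Prop :=
  ∀ σ : Perm Ω, Mor F R σ → ∃ s ∈ S, ∀ x ∈ R, σ x = s * x * s⁻¹

theorem inner_of_central (hF : Sat p F) (hc : F.hyperfocalSubgroup p ≤ centralizer (S : Set Ω)) (hA : In F S) :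
    IsInner F := by
  refine hF.inner_of_hyp_le_center fun z hz => (mem_center_iff_fix hF).2 ⟨hyp_le F hz, fun P σ hσ hP => ?_⟩
  have h1 := hσ.mono (inf_le_left : P ⊓ F.hyperfocalSubgroup p ≤ P)
  have h2 := sc_img_le hF.hyp_sc h1 inf_le_right
  obtain ⟨τ, h3, h4⟩ := hF.extend_centralizer h1 (fc_iff.2 ⟨h2.trans (hyp_le F), fun ρ _ =>
    card_le_of_le (inf_le_left.trans (le_inf le_rfl (le_centralizer_iff.1 (h2.trans hc))))⟩)
  obtain ⟨s, hs, e⟩ := hA τ (h3.mono (le_sup_of_le_right (le_inf le_rfl (le_centralizer_iff.1 (inf_le_right.trans hc)))))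
  rw [← h4 z ⟨hP, hz⟩, e z (hyp_le F hz), hc hz s hs, mul_inv_cancel_right]

theorem hyp_le_rel (hF : Sat p F) (hT : F.StronglyClosed T) (h : F.hyperfocalSubgroup p ≤ T ⊔ Phi S ∨
    (⁅S, F.hyperfocalSubgroup p⁆ ≤ T ∧ In F S)) : F.hyperfocalSubgroup p ≤ T := by
  have := normal_subgroupOf_of (sc_normalizer hT)
  obtain ⟨E, hE⟩ := H2.exists_quot F (wc_of_sc hT)
  have k := hF.surjM_of_factor hE hT
  have e := factor_ker hE
  generalize QuotientGroup.mk' (T.subgroupOf S) = θ at *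
  have hE' := k.sat hF
  have t := homOn_fn θ
  rw [← e, le_pre_iff (hyp_le F), ← k.hyp_eq hF]
  refine (hE'.inner_iff_hyp.1 ?_).le
  rcases h with h | ⟨h1, h2⟩
  · refine hE'.inner_of_hyp_le_Phi ?_
    rw [k.hyp_eq hF, ← le_pre_iff (hyp_le F)]
    refine h.trans (sup_le (e.ge.trans (ker_le_pre θ _)) (Phi_le_of (p := p) (commutator_le.2 fun a ha b hb => H2.mem_pre.2
      ⟨commutator_le_self le_rfl le_rfl (commutator_mem_commutator ha hb), ?_⟩) fun x hx => H2.mem_pre.2 ⟨S.pow_mem hx _, ?_⟩))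
    · rw [t.map_commutator ha hb]
      exact commutator_le_Phi hE'.pg (commutator_mem_commutator (mem_top _) (mem_top _))
    · rw [t.map_pow hx]
      exact pow_mem_Phi hE'.pg (mem_top _)
  · have z : H2.pre θ ⊤ = S := k.range ▸ pre_range θ
    refine inner_of_central hE' (fun y hy w _ => ?_) fun σ hσ => ?_
    · rw [k.hyp_eq hF, mem_img_fn (hyp_le F)] at hy
      obtain ⟨u, hu, rfl⟩ := hy
      obtain ⟨s, hs, rfl⟩ := k.exists_pre le_rfl (mem_top w)
      rw [z] at hs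
      have := (H2.mem_pre.1 (e.ge (h1 (commutator_mem_commutator hs hu)))).2
      rw [t.map_commutator hs (hyp_le F hu)] at this
      exact commutatorElement_eq_one_iff_mul_comm.1 this
    · obtain ⟨τ, x, y⟩ := k.lift hσ
      rw [z] at x y
      obtain ⟨s, hs, v⟩ := h2 τ x
      refine ⟨fn θ s, mem_top _, fun w _ => ?_⟩
      obtain ⟨a, ha, rfl⟩ := k.exists_pre le_rfl (mem_top w)
      rw [z] at ha
      rw [y a ha, v a ha, t.map_conj hs ha]

theorem exists_max (hS : IsPGroup p S) {L : Subgroup Ω} (hL : Phi S ≤ L) (h : L ≤ S) {u : Ω} (hu : u ∈ S) (hu' : u ∉ L)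
    {k : ℕ} (h1 : p ^ k < Nat.card S) : ∃ M ≤ S, L ≤ M ∧ u ∉ M ∧ p ^ k ≤ Nat.card M := by
  obtain ⟨A, _, θ, t1, t2, t3, t4⟩ := exists_hom_card_p hS hL hu hu'
  have : Finite A := Nat.finite_of_card_ne_zero (t2 ▸ hp.out.ne_zero)
  refine ⟨t1.toHom.ker.map S.subtype, map_subtype_le _, fun x hx => ⟨⟨x, h hx⟩, t4 x (h hx) hx, rfl⟩, ?_, ?_⟩
  · rintro ⟨x, hx, rfl⟩
    exact t3 hx
  · obtain ⟨n, hn⟩ := IsPGroup.iff_card.1 hS
    have a := t1.toHom.ker.card_mul_index
    have b : t1.toHom.ker.index ≤ p := by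
      rw [index_ker, ← t2]; exact card_le_card_group _
    rw [card_map_of_injective S.subtype_injective]
    rw [hn, Nat.pow_lt_pow_iff_right hp.out.one_lt] at h1
    refine Nat.le_of_mul_le_mul_right ?_ hp.out.pos
    rw [← pow_succ]
    exact (Nat.pow_le_pow_right hp.out.pos h1).trans (hn ▸ a ▸ Nat.mul_le_mul_left _ b)

theorem main (hF : Sat p F) {k : ℕ} (h1 : p ^ k < Nat.card S)
    (hw : ∀ Q ≤ S, Nat.card Q = p ^ k → ∃ P, F.StronglyClosed P ∧ F.StronglyClosed (Q ⊔ P) ∧ F.StronglyClosed (Q ⊓ P))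
    (hn : ∀ H, F.StronglyClosed H → Nat.card H = p ^ k → ∀ R, H ≤ R → In F R) (n : ℕ) :
    ∀ T, F.StronglyClosed T → Nat.card T ≤ p ^ k → p ^ k - Nat.card T = n → F.hyperfocalSubgroup p ≤ T := by
  induction n using Nat.strong_induction_on with | _ n ih =>
  intro T hT hc hn'
  have hU := hF.hyp_sc
  have le : ∀ {X}, F.StronglyClosed X → X ≤ S := fun h => (stronglyClosed_iff'.1 h).1
  have := fin (le hT)
  have d0 : ∀ H, F.StronglyClosed H → Nat.card H = p ^ k → F.hyperfocalSubgroup p ≤ H := fun H a b =>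
    hyp_le_of_cong hF.pg (sc_normalizer a) fun P hP σ hσ => by
      obtain ⟨τ, x, y⟩ := hF.extMod a (Aut.mor hP hσ)
      obtain ⟨s, hs, e⟩ := hn H a b _ le_sup_right τ x
      exact ⟨s, hs, fun z hz => e z (mem_sup_left hz) ▸ y z hz⟩
  rcases hc.eq_or_lt with hc | hc
  · exact d0 T hT hc
  have ih' : ∀ X, F.StronglyClosed X → T ≤ X → Nat.card X ≤ p ^ k → X = T ∨ F.hyperfocalSubgroup p ≤ X :=
    fun X a b c => (eq_or_lt_of_le b).imp Eq.symm fun l => by
      have := fin (le a)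
      have := H9.card_lt_of_lt l
      exact ih _ (by omega) X a c rfl
  have w : ∀ Q, T ≤ Q → Q ≤ S → Nat.card Q = p ^ k → ∃ P, T ≤ P ∧ F.StronglyClosed P ∧ F.StronglyClosed (Q ⊔ P) ∧
      F.StronglyClosed (P ⊓ Q) := fun Q a b c => by
    obtain ⟨P, x, y, z⟩ := hw Q b c
    refine ⟨T ⊔ P, le_sup_left, hF.sc_sup hT x, by rwa [← sup_assoc, sup_eq_left.2 a], ?_⟩
    rw [H9.dedekind a (.inl ((le hT).trans (sc_normalizer x))), inf_comm]
    exact hF.sc_sup hT z
  by_contra hne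
  have s2 : Nat.card ↥(T ⊔ F.hyperfocalSubgroup p) ≤ p ^ k := by
    obtain ⟨N, ⟨a, b⟩, m⟩ := (measure fun X : Subgroup Ω => Nat.card X).wf.has_min {X | F.StronglyClosed X ∧ T < X}
      ⟨S, sc_top F, lt_of_le_of_ne (le hT) (by rintro rfl; omega)⟩
    have := fin (le a)
    have m' : ∀ X, F.StronglyClosed X → T ≤ X → X ≤ N → X = T ∨ X = N := fun X x y z =>
      (eq_or_lt_of_le y).imp Eq.symm fun l => by_contra fun e => m X ⟨x, l⟩ (H9.card_lt_of_lt (lt_of_le_of_ne z e))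
    rcases le_or_gt (Nat.card N) (p ^ k) with l | l
    · exact (card_le_of_le (sup_le b.le ((ih' N a b.le l).resolve_left b.ne'))).trans l
    obtain ⟨Q, q1, q2, -, q3⟩ := nb hF.pg b.le (le a) (sc_normalizer hT) (sc_normalizer a) hc.le l.le
    obtain ⟨P, x1, x2, x3, x4⟩ := w Q q1 (q2.trans (le a)) q3
    exfalso
    have qT : Q ≠ T := by rintro rfl; omega
    have qN : Q ≠ N := by rintro rfl; omega
    rcases m' _ (sc_inf x2 a) (le_inf x1 b.le) inf_le_right with e | e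
    · have := sc_inf x3 a
      rw [H9.dedekind q2 (.inl ((q2.trans (le a)).trans (sc_normalizer x2))), e, sup_eq_left.2 q1] at this
      exact (m' Q this q1 q2).elim qT qN
    · rw [inf_eq_right.2 (q2.trans (inf_eq_right.1 e))] at x4
      exact (m' Q x4 q1 q2).elim qT qN
  have sU := hF.sc_sup hT hU
  have s3 : In F S := by
    obtain ⟨H, a, b, c, d⟩ := nb hF.pg (le sU) le_rfl (sc_normalizer sU) le_normalizer s2 h1.le
    exact hn H (hF.sc_of_hyp_le (le_sup_right.trans a) b c) d S b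
  refine hne (hyp_le_rel hF hT (or_iff_not_imp_left.2 fun e => ⟨?_, s3⟩))
  obtain ⟨u, hu, hu'⟩ := SetLike.not_le_iff_exists.1 e
  obtain ⟨M, m1, m2, m3, m4⟩ := exists_max hF.pg le_sup_right (sup_le (le hT) (Phi_le S)) (le hU hu) hu' h1
  have m5 : ⁅S, S⁆ ≤ M := (commutator_le_Phi hF.pg).trans (le_sup_right.trans m2)
  have nM := le_normalizer_of_commutator_le m5 m1
  have := fin (le sU)
  obtain ⟨Q, q1, q2, -, q3⟩ := nb hF.pg (inf_le_right : (T ⊔ F.hyperfocalSubgroup p) ⊓ M ≤ M) m1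
    (H9.normalizer_inf (sc_normalizer sU) nM) nM ((card_le_of_le inf_le_left).trans s2) m4
  have q0 : T ≤ Q := (le_inf le_sup_left (le_sup_left.trans m2)).trans q1
  obtain ⟨P, x1, x2, x3, x4⟩ := w Q q0 (q2.trans m1) q3
  have nQ : ¬ F.hyperfocalSubgroup p ≤ Q := fun c => m3 (q2 (c hu))
  have := fin (q2.trans m1)
  have y1 : P ⊓ Q = T := (ih' _ x4 (le_inf x1 q0) ((card_le_of_le inf_le_right).trans q3.le)).resolve_right
    fun c => nQ (c.trans inf_le_right)
  have y2 : F.hyperfocalSubgroup p ≤ P := by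
    by_contra c
    have y3 : (T ⊔ F.hyperfocalSubgroup p) ⊓ P = T := (ih' _ (sc_inf sU x2) (le_inf le_sup_left x1)
      ((card_le_of_le inf_le_left).trans s2)).resolve_right fun c' => c (c'.trans inf_le_right)
    have y4 : T < P := lt_of_le_of_ne x1 (by rintro rfl; rw [sup_eq_left.2 q0] at x3; exact nQ (d0 Q x3 q3))
    have := fin (le x2)
    obtain ⟨a, ha⟩ := IsPGroup.iff_card.1 (hF.pg.to_le (le hT))
    obtain ⟨b, hb⟩ := IsPGroup.iff_card.1 (hF.pg.to_le (le x2))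
    have y5 := H9.card_lt_of_lt y4
    rw [ha, hb, Nat.pow_lt_pow_iff_right hp.out.one_lt] at y5
    rw [ha, Nat.pow_lt_pow_iff_right hp.out.one_lt] at hc
    obtain ⟨Z, z1, z2, z3, z4⟩ := nb hF.pg x1 (le x2) (sc_normalizer hT) (sc_normalizer x2) (k := a + 1)
      (ha ▸ Nat.pow_le_pow_right hp.out.pos a.le_succ) (hb ▸ Nat.pow_le_pow_right hp.out.pos y5)
    have z5 := sc_inf (hF.sc_of_hyp_le (Q := Z ⊔ (T ⊔ F.hyperfocalSubgroup p)) (le_sup_of_le_right le_sup_right)
      (sup_le (z2.trans (le x2)) (le sU)) (H9.normalizer_sup z3 (sc_normalizer sU))) x2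
    rw [H9.dedekind z2 (.inl ((z2.trans (le x2)).trans (sc_normalizer sU))), y3, sup_eq_left.2 z1] at z5
    rcases ih' Z z5 z1 (z4 ▸ Nat.pow_le_pow_right hp.out.pos hc) with c' | c'
    · rw [c', ha] at z4
      exact absurd (Nat.pow_right_injective hp.out.two_le z4) (by omega)
    · exact c (c'.trans z2)
  rw [← y1]
  have y5 : ⁅S, F.hyperfocalSubgroup p⁆ ≤ F.hyperfocalSubgroup p := H9.commutator_le_right' (sc_normalizer hU)
  exact le_inf (y5.trans y2) ((le_inf (y5.trans le_sup_right) ((commutator_mono le_rfl (le hU)).trans m5)).trans q1)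

theorem idx (hS : IsPGroup p S) {Q : Subgroup Ω} (hQ : Q ≤ S) {n : ℕ} (h : Nat.card S = p ^ (n + 1))
    (h' : Nat.card Q = p ^ n) : S ≤ normalizer (Q : Set Ω) := by
  refine le_normalizer_of_normal_subgroupOf hQ (normal_of_index_eq_minFac_card ?_)
  have a := (Q.subgroupOf S).card_mul_index
  rw [Nat.card_congr (subgroupOfEquivOfLe hQ).toEquiv, h', h, pow_succ] at a
  rw [Nat.eq_of_mul_eq_mul_left (pow_pos hp.out.pos n) a, h, hp.out.pow_minFac n.succ_ne_zero]

end H9.WE
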