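import Cfsg.Agent.H9.JC4
import Cfsg.Agent.H1.Sig7
import Cfsg.Agent.H1.Tr2
import Cfsg.Agent.S0111

/-!
H9.ZC1: groups with solvable centralizers of involutions and `C_G(Ω₁Z(S)) ≤ N_G(S)`.
-/

set_option autoImplicit false

namespace H9.ZC

open Cfsg Subgroup JC
open scoped commutatorElement

universe u

variable {G : Type u} [Group G] [Finite G] {K U V B B' P Q S T W : Subgroup G} {a b g p q t u v x y z : G}

abbrev th (t : G) : Subgroup G := Op' 2 (centralizer {t})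

abbrev cl (B : Subgroup G) : Subgroup G := signalizerClosure B th

structure ZC (G : Type u) [Group G] : Prop where
  c : ∀ t : G, orderOf t = 2 → Group.IsSolvable (centralizer ({t} : Set G))
  z : ∀ S : Subgroup G, Syl 2 S ⊤ → centralizer (OZ 2 S : Set G) ≤ normalizer (S : Set G)

theorem th_cj : th (g * t * g⁻¹) = cj g (th t) := by rw [cj_Op', cj_centralizer_singleton]

omit [Finite G] in
theorem sq2 (h : orderOf t = 2) : t ^ 2 = 1 := h ▸ pow_orderOf_eq_one t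

omit [Finite G] in
theorem ne1 (h : orderOf t = 2) : t ≠ 1 := by rintro rfl; simp at h

omit [Finite G] in
theorem cs (h : a ∈ centralizer ({b} : Set G)) : b ∈ centralizer ({a} : Set G) :=
  mem_centralizer_singleton_iff.2 (mem_centralizer_singleton_iff.1 h).symm

omit [Finite G] in
theorem c1 (h : a ∈ centralizer (S : Set G)) (hb : b ∈ S) : a ∈ centralizer ({b} : Set G) := H1.cent_le_cent1 hb h

theorem ZC.pl (h : ZC G) (ht : orderOf t = 2) : PLay 2 (centralizer ({t} : Set G)) = ⊥ :=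
  PLay_eq_bot_of_solvable (h.c t ht)

theorem ZC.bal (h : ZC G) (ha : orderOf a = 2) (hb : orderOf b = 2) (c : a ∈ centralizer ({b} : Set G)) :
    th a ⊓ centralizer {b} ≤ th b := H1.Op'_bal (isPGroup_zpowers_of_orderOf ha) (h.pl hb) c

theorem ZC.two (h : ZC G) (k : SN K ⊤) (e : 2 ∣ Nat.card K) (o : ∀ t ∈ K, orderOf t = 2 → th t = ⊥) :
    IsCharacteristicTwoType K := by
  refine ⟨even_iff_two_dvd.2 e, fun T a b => chp_iff.2 ((chp_map_iff K.subtype_injective).1 ?_)⟩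
  have a' := a.map K.subtype
  obtain ⟨z, z1, z2⟩ := ex1 (OZ_ne_bot a' (by rwa [Ne, map_eq_bot_iff_of_injective _ K.subtype_injective]))
  have z3 := H1.elem_orderOf (OZ_elem 2 _) z1 z2
  rw [map_normalizer_subtype]
  exact (Chp.of_mem (centralizer_Op_le_of_PLay (h.pl z3) (o z (map_subtype_le T (OZ_le _ _ z1)) z3)) a'
    (OZ_le _ _ z1) (OZ_le_centralizer _ _ z1)).sn (by simpa using k.inf_right (normalizer (T.map K.subtype : Set G)))

theorem se (o : Op' 2 (⊤ : Subgroup G) = ⊥) (s : Syl 2 S ⊤) (n : ⊤ ≤ normalizer (K : Set G)) (k : Ores 2 ⊤ ≤ K)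
    (e : 2 ∣ Nat.card (Ores 2 (⊤ : Subgroup G))) (w1 : W ≠ ⊥) (w2 : (Nat.card W).Coprime 2)
    (n2 : normalizer ((S ⊓ K : Subgroup G) : Set G) ≤ normalizer (W : Set G))
    (n3 : ∀ t ∈ S ⊓ K, orderOf t = 2 → centralizer {t} ≤ normalizer (W : Set G)) :
    ∃ M : Subgroup (Ores 2 (⊤ : Subgroup G)), IsStronglyEmbedded M := by
  have n1 : S ≤ normalizer (W : Set G) := (normalizer_inf le_normalizer (le_top.trans n)).trans n2
  have l : normalizer (W : Set G) ⊓ K < K := lt_of_le_of_ne inf_le_right fun f => w1 (eq_bot_iff.2 (o ▸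
    le_Op' le_top (s.Ores_sup.ge.trans (sup_le (k.trans (f.ge.trans inf_le_left)) n1)) w2))
  have := (spe_of_cent l ((s.inf_normal le_top n).mono (inf_le_inf_right _ n1) inf_le_right)
    (le_inf (inf_le_right.trans n2) inf_le_left) fun x a b => le_inf (inf_le_right.trans (n3 x a b))
      inf_le_left).normal k (le_top.trans (le_normalizer_Ores 2 ⊤)) e
  exact ⟨_, emb_iff_spe'.2 this⟩

/-! ### `|Z| ≥ 4` -/

theorem ZC.sf (h : ZC G) (B : Subgroup G) (hB : IsElementaryAbelian 2 B) (_ : 2 ^ 3 ≤ Nat.card B) : H1.SF 2 B th :=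
  H1.sf_core hB fun _ a b => let o := H1.elem_orderOf hB a b; ⟨h.pl o, isSolvable_of_le (h.c _ o) (Op'_le _ _)⟩

theorem oz4 (s : Syl 2 S ⊤) (c : 2 ^ 2 ≤ Nat.card (OZ 2 S)) (t : Syl 2 T ⊤) : 2 ^ 2 ≤ Nat.card (OZ 2 T) := by
  obtain ⟨g, -, rfl⟩ := s.conj t
  rwa [← cj_OZ, card_cj]

section
variable (h : ZC G) (s : Syl 2 S ⊤) (c : 2 ^ 2 ≤ Nat.card (OZ 2 S))
include h s c

theorem cl_eq (hP : IsPGroup 2 P) (l : B ≤ P) (l' : B' ≤ P) (e : IsElementaryAbelian 2 B)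
    (e' : IsElementaryAbelian 2 B') (d : 2 ^ 2 ≤ Nat.card B) (d' : 2 ^ 2 ≤ Nat.card B') : cl B = cl B' := by
  obtain ⟨T, t, l1⟩ := exists_syl_ge hP le_top
  have k : ∀ B ≤ P, IsElementaryAbelian 2 B → 2 ^ 2 ≤ Nat.card B → cl B = cl (OZ 2 T) := fun B l e d =>
    H1.clo_comm h.sf e (OZ_elem _ _) d (oz4 s c t) ((l.trans l1).trans (le_centralizer_iff.1 (OZ_le_centralizer _ _)))
  exact (k B l e d).trans (k B' l' e' d').symm

theorem cl_norm (hP : IsPGroup 2 P) (l : B ≤ P) (e : IsElementaryAbelian 2 B) (d : 2 ^ 2 ≤ Nat.card B) :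
    normalizer (P : Set G) ≤ normalizer (cl B : Set G) := fun g n => by
  rw [mem_normalizer_iff_cj, H1.cj_clo fun _ _ _ => th_cj]
  exact cl_eq h s c hP ((cj_mono g l).trans (mem_normalizer_iff_cj.1 n).le) l (FT.isElem_cj g e) e (by rwa [card_cj]) d

theorem th_le (t1 : t ∈ S) (t2 : orderOf t = 2) : th t ≤ cl (OZ 2 S) := by
  have e := L.isElem_sup (OZ_elem 2 S) (L.isElem_zpowers (sq2 t2)) ((OZ_le_centralizer _ _).trans
    (centralizer_anti (zpowers_le_of_mem t1)))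
  rw [cl_eq h s c s.isP (OZ_le _ _) (sup_le (OZ_le _ _) (zpowers_le_of_mem t1)) (OZ_elem _ _) e c
    (c.trans (card_le_of_le le_sup_left))]
  exact H1.le_clo (mem_sup_right (mem_zpowers t)) (ne1 t2)

theorem cent_le (t1 : t ∈ S) (t2 : orderOf t = 2) : centralizer {t} ≤ normalizer (cl (OZ 2 S) : Set G) := by
  obtain ⟨T, a1, a2⟩ := exists_syl_ge (elem_isP (OZ_elem 2 S)) ((OZ_le_centralizer _ _).trans (H1.cent_le_cent1 t1))
  obtain ⟨S', b1, b2⟩ := exists_syl_ge a1.isP le_top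
  have tT : t ∈ T := a1.le_of_le_normalizer (isPGroup_zpowers_of_orderOf t2)
    (zpowers_le_of_mem (mem_centralizer_singleton_iff.2 rfl)) (.inr (a1.le.trans ((centralizer_zpowers t).ge.trans
      (centralizer_le_normalizer' _)))) (mem_zpowers t)
  have zc := (OZ_le_centralizer 2 S').trans (H1.cent_le_cent1 (b2 tT))
  have zT : OZ 2 S' ≤ T := (le_inf (OZ_le _ _) zc).trans
    (a1.maximal (b1.isP.to_le inf_le_left) inf_le_right (le_inf b2 a1.le)).le
  have d := a1.inf_normal (Opp_le 2 _) (le_normalizer_Opp 2 _)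
  have z0 : OZ 2 S' ≤ T ⊓ Opp 2 (centralizer {t}) := le_inf zT ((le_inf zc ((OZ_le_centralizer _ _).trans
    (centralizer_anti (inf_le_left.trans b2)))).trans ((PLay_eq_bot_iff_centralizer d).1 (h.pl t2)))
  have n := cl_norm h s c d.isP z0 (OZ_elem _ _) (oz4 s c b1)
  rw [cl_eq h s c a1.isP zT a2 (OZ_elem _ _) (OZ_elem _ _) (oz4 s c b1) c] at n
  exact (d.frattini (Opp_le 2 _) (le_normalizer_Opp 2 _)).ge.trans (sup_le ((Opp_eq_sup d).ge.trans (sup_le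
    ((th_le h s c t1 t2).trans le_normalizer) (le_normalizer.trans n))) (inf_le_right.trans n))

theorem big (o : Op' 2 (⊤ : Subgroup G) = ⊥) (e : 2 ∣ Nat.card (Ores 2 (⊤ : Subgroup G))) (l : B ≤ S)
    (b : IsElementaryAbelian 2 B) (d : 2 ^ 3 ≤ Nat.card B) :
    (∃ M : Subgroup (Ores 2 (⊤ : Subgroup G)), IsStronglyEmbedded M) ∨ ∀ t : G, orderOf t = 2 → th t = ⊥ := by
  by_cases w : cl (OZ 2 S) = ⊥
  · refine .inr fun t t2 => ?_
    obtain ⟨g, -, g1⟩ := s.exists_cj_le (isPGroup_zpowers_of_orderOf t2) le_top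
    have := (th_le h s c (g1 (conj_mem_cj (mem_zpowers t))) ((orderOf_conj g t).trans t2)).trans w.le
    rwa [th_cj, le_bot_iff, cj_eq_bot_iff] at this
  refine .inl (se o s (K := ⊤) le_normalizer le_top e w ?_ ?_ fun t a => cent_le h s c a.1)
  · rw [cl_eq h s c s.isP (OZ_le _ _) l (OZ_elem _ _) b c (le_trans (by norm_num) d)]
    exact (((h.sf B b d).compl d).mem (h.sf B b d)).cop
  · rw [inf_top_eq]; exact cl_norm h s c s.isP (OZ_le _ _) (OZ_elem _ _) c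

end

/-! ### `|Z| = 2` -/

theorem cyc2 (s : IsPGroup 2 S) (hu : u ∈ S) (c : Nat.card (centralizer {u} ⊓ S : Subgroup G) ≤ 4)
    (c8 : 8 ≤ Nat.card S) : ∃ a ∈ S, (zpowers a).relIndex S = 2 := by
  obtain ⟨n, hn⟩ := IsPGroup.iff_card.1 s
  rw [hn] at c8
  obtain ⟨n, rfl⟩ : ∃ m, n = m + 3 := ⟨n - 3, by
    have := (Nat.pow_le_pow_iff_right (by norm_num)).1 (show 2 ^ 3 ≤ 2 ^ n from c8); omega⟩
  have e : centralizer ({⟨u, hu⟩} : Set S) = (centralizer {u} ⊓ S).subgroupOf S := by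
    ext x; simp [mem_subgroupOf, mem_centralizer_singleton_iff, Subtype.ext_iff]
  obtain ⟨a, -, -, h2, -⟩ := L.dqs_of_max_class hn ((L.nilpotencyClass_eq_iff hn).1
    (L.max_class_of_centralizer _ hn ⟨u, hu⟩ (by rw [e, card_subgroupOf inf_le_right]; exact c)))
  exact ⟨a, a.2, by rwa [relIndex, H1.zpowers_subgroupOf]⟩

structure Tw (S : Subgroup G) (z : G) : Prop where
  s : Syl 2 S ⊤
  e : OZ 2 S = zpowers z
  o : orderOf z = 2

namespace Tw
variable (h : ZC G) (w : Tw S z)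
include w

theorem zS : z ∈ S := OZ_le 2 S (w.e ▸ mem_zpowers z)
theorem zc : z ∈ centralizer (S : Set G) := OZ_le_centralizer 2 S (w.e ▸ mem_zpowers z)
theorem eq_z (t1 : t ∈ S) (t2 : orderOf t = 2) (t3 : t ∈ centralizer (S : Set G)) : t = z :=
  ((H1.mem_zpowers_two w.o).1 (w.e ▸ mem_OZ.2 ⟨t1, t3, sq2 t2⟩)).resolve_left (ne1 t2)

theorem cyc (a1 : a ∈ S) (i : (zpowers a).relIndex S = 2) (t1 : t ∈ zpowers a) (t2 : orderOf t = 2) : t = z :=
  w.eq_z (zpowers_le_of_mem a1 t1) t2 fun x hx => mul_inv_eq_iff_eq_mul.1 (H1.two_eq_of_mem_zpowers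
    (conj_mem_of_le_normalizer (L.le_normalizer_of_relIndex_prime w.s.isP (zpowers_le_of_mem a1)
      (i ▸ Nat.prime_two)) hx t1) t1 ((orderOf_conj x t).trans t2) t2)

include h

theorem cn : centralizer {z} ≤ normalizer (S : Set G) := by
  have := h.z S w.s
  rwa [w.e, centralizer_zpowers] at this

theorem Yc : th z ≤ centralizer (S : Set G) :=
  le_centralizer_iff.1 (le_centralizer_iff'.2 (commutator_eq_bot_of_p_p' w.s.isP (Op'_cop _ _)
    ((le_centralizer_singleton_iff.2 w.zc).trans (le_normalizer_Op' _ _)) ((Op'_le _ _).trans (w.cn h))))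

theorem Yle (t1 : t ∈ S) (t2 : orderOf t = 2) : th z ≤ th t :=
  (le_inf le_rfl ((w.Yc h).trans (H1.cent_le_cent1 t1))).trans (h.bal w.o t2 (c1 w.zc t1))

theorem gcj (t2 : orderOf t = 2) (k : th t ≤ th z) (t1 : t ∈ S) (g1 : g * t * g⁻¹ ∈ S) :
    th (g * t * g⁻¹) ≤ th z :=
  (eq_of_le_of_card_ge (w.Yle h g1 ((orderOf_conj g t).trans t2))
    (by rw [th_cj, card_cj]; exact card_le_of_le k)).ge

omit w in
theorem gen (v : IsKleinFour V) (p2 : orderOf p = 2) (c : p ∈ centralizer (V : Set G))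
    (k : ∀ t ∈ V, orderOf t = 2 → th p ⊓ centralizer {t} ⊓ th t ≤ W) : th p ≤ W :=
  have e : IsElementaryAbelian 2 V := ⟨H1.klein_comm v, fun x hx => (sq x).trans (H1.klein_sq v hx)⟩
  H1.gen_pt e ((le_centralizer_singleton_iff.2 c).trans (le_normalizer_Op' _ _)) (Op'_cop _ _) v.card_four.ge
    fun a a1 a2 => let o := H1.elem_orderOf e a1 a2; (le_inf le_rfl (h.bal p2 o (c1 c a1))).trans (k a a1 o)

theorem kz (t1 : t ∈ S) (t2 : orderOf t = 2) (n : t ≠ z) : IsKleinFour (zpowers z ⊔ zpowers t : Subgroup G) :=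
  H1.isKleinFour_sup w.o t2 n.symm (w.zc t t1).symm

theorem genz (t1 : t ∈ S) (t2 : orderOf t = 2) (n : t ≠ z) (p1 : p ∈ S) (p2 : orderOf p = 2)
    (c : p ∈ centralizer ({t} : Set G)) (k0 : th z ≤ W) (k1 : th t ≤ W)
    (k2 : th p ⊓ centralizer {z * t} ⊓ th (z * t) ≤ W) : th p ≤ W := by
  refine gen h (w.kz h t1 t2 n) p2 ?_ fun a a1 a2 => ?_
  · rw [centralizer_sup, centralizer_zpowers, centralizer_zpowers]; exact ⟨cs (c1 w.zc p1), c⟩
  rcases (H1.mem_sup_two w.o t2 (w.zc t t1).symm).1 a1 with rfl | rfl | rfl | rfl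
  exacts [(ne1 a2 rfl).elim, inf_le_right.trans k0, inf_le_right.trans k1, k2]

theorem star (T : Subgroup G) : ∀ p ∈ S, orderOf p = 2 → S ⊓ centralizer {p} = T → ∀ g, g * z * g⁻¹ ∈ T →
    g * z * g⁻¹ ≠ z → th p ≤ th z := by
  induction T using WellFoundedGT.induction with | ind T ih => ?_
  rintro p p1 p2 rfl g g1 g2
  by_cases e : S ⊓ centralizer {p} = S
  · rw [w.eq_z p1 p2 (le_centralizer_singleton_iff.1 (e.ge.trans inf_le_right))]
  have lt := lt_normalizer_of_nilpotent w.s.isP.isNilpotent (lt_of_le_of_ne inf_le_left e)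
  set T := S ⊓ centralizer {p}
  have zT : z ∈ T := ⟨w.zS, c1 w.zc p1⟩
  set P := sSup {Q : Subgroup G | ∃ g, g * z * g⁻¹ ∈ T ∧ g * z * g⁻¹ ≠ z ∧ Q = zpowers (z * (g * z * g⁻¹))}
  have l : P ≤ T ⊓ centralizer (th p : Set G) := sSup_le (by
    rintro _ ⟨g, g1, g2, rfl⟩
    have o := (orderOf_conj g z).trans w.o
    have y := (w.Yc h).trans (H1.cent_le_cent1 (mul_mem w.zS g1.1))
    exact zpowers_le_of_mem ⟨mul_mem zT g1, le_centralizer_singleton_iff.1 (w.genz h g1.1 o g2 p1 p2 (cs g1.2) y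
      ((w.gcj h w.o le_rfl w.zS g1.1).trans y) (inf_le_left.trans inf_le_right))⟩)
  have n : normalizer (T : Set G) ⊓ S ≤ normalizer (P : Set G) := normalizer_sSup_of_cj (by
    rintro x hx _ ⟨g, g1, g2, rfl⟩
    have f := fix_of w.zc hx.2
    have e : x * g * z * (x * g)⁻¹ = x * (g * z * g⁻¹) * x⁻¹ := by group
    refine ⟨x * g, e ▸ conj_mem_of_le_normalizer le_rfl hx.1 g1, fun k => g2 ?_, ?_⟩
    · simpa using (e.symm.trans k).trans f.symm
    · rw [cj_zpowers, e]; nth_rw 3 [← f]; congr 1; group)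
  have pP : IsPGroup 2 P := w.s.isP.to_le (l.trans (inf_le_left.trans inf_le_left))
  have ne : P ≠ ⊥ := fun k => g2 (by
    have : z * (g * z * g⁻¹) ∈ P := le_sSup (s := {Q : Subgroup G | ∃ g, g * z * g⁻¹ ∈ T ∧ g * z * g⁻¹ ≠ z ∧
      Q = zpowers (z * (g * z * g⁻¹))}) ⟨g, g1, g2, rfl⟩ (mem_zpowers _)
    rw [k, mem_bot] at this
    rw [← inv_eq_of_mul_eq_one_right this, inv_eq_of_mul_eq_one_right ((sq z).symm.trans (sq2 w.o))])
  obtain ⟨q, q1, q2⟩ := exists_orderOf_eq_of_isPGroup (pP.to_le inf_le_left)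
    (inf_centralizer_ne_bot_of_p pP (w.s.isP.to_le inf_le_right) n ne)
  have qc := le_inf inf_le_right (le_centralizer_singleton_iff.2 q1.2)
  exact (le_inf le_rfl (le_centralizer_singleton_iff.2 (l q1.1).2)).trans ((h.bal p2 q2 (cs (l q1.1).1.2)).trans
    (ih _ (lt.trans_le qc) q (l q1.1).1.1 q2 rfl g (qc (lt.le g1)) g2))

theorem star' (p1 : p ∈ S) (p2 : orderOf p = 2) (g1 : g * z * g⁻¹ ∈ S) (g2 : g * z * g⁻¹ ≠ z)
    (c : p ∈ centralizer ({g * z * g⁻¹} : Set G)) : th p ≤ th z := w.star h _ p p1 p2 rfl g ⟨g1, cs c⟩ g2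

theorem tt (l : Q ≤ S) (i : Q.relIndex S = 2) (k : ∀ t ∈ Q, orderOf t = 2 → th t ≤ th z) (p1 : p ∈ S)
    (p2 : orderOf p = 2) (p3 : p ∈ Ores 2 (⊤ : Subgroup G)) : th p ≤ th z := by
  by_cases e : p ∈ Q
  · exact k p e p2
  obtain ⟨S, rfl⟩ := w.s.exists_sylow_top
  rcases Cfsg.Agent.S0111.result S Q l i p p2 p1 e with ⟨M, m1, m2, m3⟩ | ⟨g, g1⟩
  · exact (m3 (H1.pResidual_le_of_index (p := 2) (k := 1) m2 ((Ores_top 2).le p3))).elim
  · have o := (orderOf_conj g p).trans p2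
    simpa [mul_assoc] using w.gcj h (g := g⁻¹) o (k _ g1 o) (l g1) (by simpa [mul_assoc] using p1)

theorem tc (a1 : a ∈ S) (i : (zpowers a).relIndex S = 2) (p1 : p ∈ S)
    (p2 : orderOf p = 2) (p3 : p ∈ Ores 2 (⊤ : Subgroup G)) : th p ≤ th z :=
  w.tt h (zpowers_le_of_mem a1) i (fun _ a b => by rw [w.cyc a1 i a b]) p1 p2 p3

theorem four (g1 : g * z * g⁻¹ ∈ S) (g2 : g * z * g⁻¹ ≠ z) (a1 : a ∈ S) (a2 : orderOf a = 2)
    (i : (centralizer ({a} : Set G)).relIndex S = 2) (b : ¬ th a ≤ th z) :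
    Nat.card (centralizer {g * z * g⁻¹} ⊓ S : Subgroup G) ≤ 4 := by
  set T := centralizer {g * z * g⁻¹} ⊓ S
  have s' := w.s.cj_of_mem (g := g) (le_normalizer (mem_top g))
  have l : T ≤ cj g S := s'.le_of_le_normalizer (w.s.isP.to_le inf_le_right) le_top (.inl (inf_le_left.trans (by
    rw [← cj_centralizer_singleton, ← cj_normalizer]; exact cj_mono g (w.cn h))))
  have zT : z ∈ T := ⟨c1 w.zc g1, w.zS⟩
  have nsq : ∀ y ∈ T, y * y ≠ z := fun y y1 e => by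
    have y2 := mem_cj.1 (l y1)
    have z1 : g⁻¹ * z * g⁻¹⁻¹ ∈ S := by simpa using mem_cj.1 (l zT)
    refine b (w.star' h a1 a2 z1 (fun k => g2 ?_) (cs ?_))
    · nth_rw 1 [← k]; group
    · have : g⁻¹ * z * g⁻¹⁻¹ = g⁻¹ * y * g * (g⁻¹ * y * g) := by rw [← e]; group
      rw [this]
      by_cases k : g⁻¹ * y * g ∈ centralizer ({a} : Set G)
      exacts [mul_mem k k, L.mul_mem_of_relIndex_two i y2 y2 k k]
  have l0 : centralizer {a} ⊓ T ≤ zpowers z := fun y y1 => by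
    by_cases e : y = 1
    · exact e ▸ one_mem _
    obtain ⟨n, hn⟩ := L.exists_orderOf_eq_pow_succ w.s.isP y1.2.2 e
    have o := L.orderOf_pow_two_pow hn
    have m := pow_mem y1 (2 ^ n)
    have : y ^ 2 ^ n = z := by_contra fun k => b (w.genz h m.2.2 o k a1 a2 (cs m.1) le_rfl
      (w.star' h m.2.2 o g1 g2 m.2.1) (inf_le_right.trans (w.star' h (mul_mem w.zS m.2.2) (H1.elem_orderOf
        ⟨H1.klein_comm (w.kz h m.2.2 o k), fun x hx => (sq x).trans (H1.klein_sq (w.kz h m.2.2 o k) hx)⟩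
        (mul_mem (mem_sup_left (mem_zpowers z)) (mem_sup_right (mem_zpowers _))) fun f => k ?_) g1 g2
          (mul_mem zT.1 m.2.1))))
    · rcases n with _ | n
      · exact (by simpa using this : y = z) ▸ mem_zpowers _
      · exact (nsq _ (pow_mem y1.2 (2 ^ n)) (by rw [← this, ← pow_add]; congr 1; ring)).elim
    · rw [← inv_eq_of_mul_eq_one_right f, inv_eq_of_mul_eq_one_right ((sq z).symm.trans (sq2 w.o))]
  have := relIndex_mul_card_inf (centralizer {a}) T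
  have c := card_le_of_le l0
  have r : (centralizer ({a} : Set G)).relIndex T ≤ 2 := i ▸ relIndex_le_of_le_right inf_le_right (by omega)
  rw [Nat.card_zpowers, w.o] at c
  nlinarith

theorem all (g1 : g * z * g⁻¹ ∈ S) (g2 : g * z * g⁻¹ ≠ z) (p1 : p ∈ S)
    (p2 : orderOf p = 2) (p3 : p ∈ Ores 2 (⊤ : Subgroup G)) : th p ≤ th z := by
  by_cases e : ∀ A : Subgroup G, A ≤ S → S ≤ normalizer (A : Set G) → IsElementaryAbelian 2 A → Nat.card A ≠ 2 ^ 2
  · rcases L.normal_rank_one w.s.isP e with c | ⟨-, -, a, -, a1, -, -, -, i, -⟩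
    · exact (g2 (H1.two_eq_of_isCyclic c g1 w.zS ((orderOf_conj g z).trans w.o) w.o)).elim
    · exact w.tc h a1 i p1 p2 p3
  push Not at e
  obtain ⟨U, u1, u2, u3, u4⟩ := e
  have k := kl u3 u4
  obtain ⟨q, q1, q2⟩ := exists_orderOf_eq_of_isPGroup ((elem_isP u3).to_le inf_le_left)
    (inf_centralizer_ne_bot_of_p (elem_isP u3) w.s.isP u2 (by rintro rfl; simp at u4))
  obtain rfl := w.eq_z (u1 q1.1) q2 q1.2
  obtain ⟨a, a1, a2, a3⟩ := H1.klein_exists_ne k q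
  have o := H1.elem_orderOf u3 a1 a2
  have cj : ∀ x ∈ S, x ∉ centralizer ({a} : Set G) → x * a * x⁻¹ = a * q := fun x x1 x2 =>
    (kl_cj k a1 q1.1 a2 (ne1 q2) a3 (u2 x1) (fix_of q1.2 x1)).resolve_left fun f =>
      x2 (mem_centralizer_singleton_iff.2 (mul_inv_eq_iff_eq_mul.1 f))
  obtain ⟨x, x1, x2⟩ : ∃ x ∈ S, x ∉ centralizer ({a} : Set G) := by_contra fun f => a3 (w.eq_z (u1 a1) o
    (le_centralizer_singleton_iff.1 fun x x1 => by_contra fun n => f ⟨x, x1, n⟩))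
  have i : (centralizer ({a} : Set G)).relIndex S = 2 := L.relIndex_eq_two x1 x2 fun y y1 y2 =>
    mem_centralizer_singleton_iff.2 (mul_inv_eq_iff_eq_mul.1 (by
      calc _ = y * (x * a * x⁻¹) * y⁻¹ := by group
        _ = y * a * y⁻¹ * (y * q * y⁻¹) := by rw [cj x x1 x2]; group
        _ = a := by rw [cj y y1 y2, fix_of q1.2 y1, mul_assoc, ← sq, sq2 q2, mul_one]))
  by_cases b : th a ≤ th q
  · refine w.tt h inf_le_right ((inf_relIndex_right _ _).trans i) (fun t t1 t2 => w.genz h (u1 a1) o a3 t1.2 t2 t1.1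
      le_rfl b (inf_le_right.trans ?_)) p1 p2 p3
    rw [← q1.2 a (u1 a1), ← cj x x1 x2]
    exact w.gcj h o b (u1 a1) (mul_mem (mul_mem x1 (u1 a1)) (inv_mem x1))
  obtain ⟨c, c1, c2⟩ := cyc2 w.s.isP g1 (w.four h g1 g2 (u1 a1) o i b) (by
    have := card_le_of_le (le_inf (le_centralizer_singleton_iff.2 ((le_centralizer_iff_isMulCommutative.2 u3.1) a1)) u1)
    have := relIndex_mul_card_inf (centralizer {a}) S
    rw [i] at this
    omega)
  exact w.tc h c1 c2 p1 p2 p3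

theorem small (o : Op' 2 (⊤ : Subgroup G) = ⊥) (z1 : z ∈ Ores 2 (⊤ : Subgroup G)) (g1 : g * z * g⁻¹ ∈ S)
    (g2 : g * z * g⁻¹ ≠ z) : (∃ M : Subgroup (Ores 2 (⊤ : Subgroup G)), IsStronglyEmbedded M) ∨
      ∀ t ∈ Ores 2 (⊤ : Subgroup G), orderOf t = 2 → th t = ⊥ := by
  have n := le_normalizer_Ores 2 (⊤ : Subgroup G)
  by_cases y : th z = ⊥
  · refine .inr fun t t1 t2 => ?_
    obtain ⟨x, -, x1⟩ := w.s.exists_cj_le (isPGroup_zpowers_of_orderOf t2) le_top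
    have := (w.all h g1 g2 (x1 (conj_mem_cj (mem_zpowers t))) ((orderOf_conj x t).trans t2)
      (conj_mem_of_le_normalizer n (mem_top x) t1)).trans y.le
    rwa [th_cj, le_bot_iff, cj_eq_bot_iff] at this
  refine .inl (se o w.s n le_rfl (w.o.symm.dvd.trans (orderOf_dvd_card_of_mem z1)) y (Op'_cop _ _) (fun x x1 => ?_) fun t a b => ?_)
  · exact mem_normalizer_of_cj_le (th_cj.ge.trans (w.gcj h w.o le_rfl w.zS
      (conj_mem_of_le_normalizer le_rfl x1 ⟨w.zS, z1⟩).1))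
  · rw [le_antisymm (w.Yle h a.1 b) (w.all h g1 g2 a.1 b a.2)]; exact le_normalizer_Op' _ _

end Tw

theorem ores_even (e : 2 ∣ Nat.card G) (o : Op' 2 (⊤ : Subgroup G) = ⊥) (o2 : Op 2 (⊤ : Subgroup G) = ⊥) :
    2 ∣ Nat.card (Ores 2 (⊤ : Subgroup G)) := by_contra fun f => by
  have := (Op_eq_self (isPGroup_of_Ores_eq_bot (eq_bot_iff.2 (o ▸ le_Op' le_top (le_normalizer_Ores 2 ⊤)
    (cop_iff.2 f))))).symm.trans o2
  rw [← card_top, this] at e
  simp at e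

theorem main (h : ZC G) (s : Syl 2 S ⊤) (o : Op' 2 (⊤ : Subgroup G) = ⊥)
    (e : 2 ∣ Nat.card (Ores 2 (⊤ : Subgroup G))) :
    (∃ M : Subgroup (Ores 2 (⊤ : Subgroup G)), IsStronglyEmbedded M) ∨
    (Nat.card (OZ 2 S ⊓ Ores 2 ⊤ : Subgroup G) = 2 ∧ ∀ g ∈ Ores 2 (⊤ : Subgroup G), ∀ z ∈ OZ 2 S ⊓ Ores 2 ⊤,
      g * z * g⁻¹ ∈ S → g * z * g⁻¹ ∈ OZ 2 S) ∨
    (Nat.card (OZ 2 S) = 4 ∧ omegaOne 2 (S ⊓ Ores 2 ⊤) = OZ 2 S) ∨
    IsCharacteristicTwoType (Ores 2 ⊤ ⊔ OZ 2 S : Subgroup G) := by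
  have n := le_normalizer_Ores 2 (⊤ : Subgroup G)
  have r := s.inf_normal le_top n
  obtain ⟨z, z1, z2⟩ := exists_orderOf_eq_of_isPGroup (r.isP.to_le inf_le_left) (inf_centralizer_ne_bot_of_p r.isP
    s.isP (normalizer_inf le_normalizer (le_top.trans n)) (r.ne_bot e))
  have z3 : z ∈ OZ 2 S := mem_OZ.2 ⟨z1.1.1, z1.2, sq2 z2⟩
  have pz := elem_isP (OZ_elem 2 S)
  have t2 := fun k => h.two (K := Ores 2 ⊤ ⊔ OZ 2 S) (sn_of_Ores_le le_sup_left le_top)
    (e.trans (card_dvd_of_le le_sup_left)) k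
  have cz : Nat.card (zpowers z) = 2 := (Nat.card_zpowers z).trans z2
  by_cases c : OZ 2 S = zpowers z
  · have l : OZ 2 S ≤ Ores 2 ⊤ := c.trans_le (zpowers_le_of_mem z1.1.2)
    by_cases k : ∀ g, g * z * g⁻¹ ∈ S → g * z * g⁻¹ = z
    · refine .inr (.inl ⟨by rw [inf_eq_left.2 l, c, cz], fun g _ y y1 y2 => ?_⟩)
      rcases (H1.mem_zpowers_two z2).1 (c ▸ y1.1) with rfl | rfl
      · simp
      · rwa [k g y2]
    push Not at k
    obtain ⟨g, g1, g2⟩ := k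
    exact (Tw.small h ⟨s, c, z2⟩ o z1.1.2 g1 g2).imp_right fun k => .inr (.inr (t2 fun t a => k t (sup_le le_rfl l a)))
  have c4 : 2 ^ 2 ≤ Nat.card (OZ 2 S) := H1.pow_succ_le_of_lt (n := 1) pz
    (cz.ge.trans_lt (card_lt_of_lt (lt_of_le_of_ne (zpowers_le_of_mem z3) (Ne.symm c))))
  by_cases b : ∃ B ≤ S, IsElementaryAbelian 2 B ∧ 2 ^ 3 ≤ Nat.card B
  · obtain ⟨B, b1, b2, b3⟩ := b
    exact (big h s c4 o e b1 b2 b3).imp_right fun k => .inr (.inr (t2 fun t _ => k t))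
  push Not at b
  have k : ∀ B ≤ S, IsElementaryAbelian 2 B → Nat.card B ≤ 4 := fun B b1 b2 => by_contra fun f =>
    (b B b1 b2).not_ge (H1.pow_succ_le_of_lt (n := 2) (elem_isP b2) (not_le.1 f))
  have c5 := le_antisymm (k _ (OZ_le _ _) (OZ_elem _ _)) c4
  have m : ∀ x ∈ S, x ^ 2 = 1 → x ∈ OZ 2 S := fun x x1 x2 => by
    have := eq_of_le_of_card_ge (le_sup_left : OZ 2 S ≤ OZ 2 S ⊔ zpowers x) (c5 ▸ k _ (sup_le (OZ_le _ _)
      (zpowers_le_of_mem x1)) (L.isElem_sup (OZ_elem 2 S) (L.isElem_zpowers x2) ((OZ_le_centralizer _ _).trans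
        (centralizer_anti (zpowers_le_of_mem x1)))))
    exact this.ge (mem_sup_right (mem_zpowers x))
  by_cases l : OZ 2 S ≤ Ores 2 ⊤
  · exact .inr (.inr (.inl ⟨c5, le_antisymm ((closure_le _).2 fun x a => m x a.1.1 a.2) fun x a =>
      L.mem_omegaOne ⟨OZ_le _ _ a, l a⟩ ((OZ_elem _ _).2 x a)⟩))
  refine .inr (.inl ⟨le_antisymm (by_contra fun f => ?_) (cz.ge.trans (card_le_of_le (zpowers_le_of_mem
    ⟨z3, z1.1.2⟩))), fun g _ y y1 y2 => m _ y2 (by rw [conj_pow, (OZ_elem _ _).2 y y1.1]; simp)⟩)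
  exact l (inf_eq_left.1 (eq_of_le_of_card_ge inf_le_left (c5.trans_le
    (H1.pow_succ_le_of_lt (n := 1) (pz.to_le inf_le_left) (not_le.1 f)))))

end H9.ZC
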